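import Mathlib

/-! The Schur multiplier of `A_n`, `n ≥ 8`, has order at most two. -/

set_option autoImplicit false

namespace Cfsg
namespace AltCov

open Equiv Finset
open scoped commutatorElement

variable {α : Type} [DecidableEq α]

/-- the three-cycle `a → b → c → a` -/
def cyc (a b c : α) : Perm α := swap a b * swap b c

theorem cyc_conj (g : Perm α) (a b c : α) : g * cyc a b c * g⁻¹ = cyc (g a) (g b) (g c) := by
  simp only [cyc, swap_apply_apply]; group

theorem cyc_inv (a b c : α) : (cyc a b c)⁻¹ = cyc c b a := by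
  simp [cyc, swap_comm]

section
variable {a b c : α} (hab : a ≠ b) (hac : a ≠ c) (hbc : b ≠ c)
include hab hac

theorem cyc_fst : cyc a b c a = b := by simp [cyc, swap_apply_of_ne_of_ne hab hac]

omit hab in
include hbc in
theorem cyc_snd : cyc a b c b = c := by simp [cyc, swap_apply_of_ne_of_ne hac.symm hbc.symm]

omit hab hac in
theorem cyc_thd : cyc a b c c = a := by simp [cyc]

omit hab hac in
theorem cyc_of_ne {x : α} (h1 : x ≠ a) (h2 : x ≠ b) (h3 : x ≠ c) : cyc a b c x = x := by
  simp [cyc, swap_apply_of_ne_of_ne h2 h3, swap_apply_of_ne_of_ne h1 h2]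

include hbc

theorem cyc_rot : cyc a b c = cyc b c a := by
  ext x
  simp only [cyc, Perm.mul_apply, swap_apply_def]
  split_ifs <;> simp_all

theorem cyc_mul_self : cyc a b c * cyc a b c = cyc c b a := by
  ext x
  simp only [cyc, Perm.mul_apply, swap_apply_def]
  split_ifs <;> simp_all

theorem cyc_pow_three : cyc a b c ^ 3 = 1 := by
  rw [pow_succ, sq, cyc_mul_self hab hac hbc, ← cyc_inv, inv_mul_cancel]

theorem cyc_mul_cyc {d : α} (had : a ≠ d) (hbd : b ≠ d) (hcd : c ≠ d) :
    cyc a b c * cyc a d b = cyc a d c := by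
  ext x
  simp only [cyc, Perm.mul_apply, swap_apply_def]
  split_ifs <;> simp_all

omit hac in
theorem cyc_mem [Fintype α] : cyc a b c ∈ alternatingGroup α := by
  simp [cyc, Perm.mem_alternatingGroup, Perm.sign_swap hab, Perm.sign_swap hbc]

end

variable [Fintype α]

theorem exists_even_extending {ι : Type} [Fintype ι] {f g : ι → α} (hf : Function.Injective f)
    (hg : Function.Injective g) (h : Fintype.card ι + 2 ≤ Fintype.card α) :
    ∃ σ ∈ alternatingGroup α, ∀ i, σ (f i) = g i := by
  obtain ⟨σ, hσ⟩ := Perm.exists_extending_pair f g hf hg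
  rcases Int.units_eq_one_or (Perm.sign σ) with h1 | h1
  · exact ⟨σ, h1, hσ⟩
  have h2 : 1 < #(univ \ univ.image g) := by
    rw [card_sdiff_of_subset (subset_univ _), card_image_of_injective _ hg, card_univ, card_univ]
    omega
  obtain ⟨x, hx, y, hy, hxy⟩ := one_lt_card.1 h2
  simp only [mem_sdiff, mem_univ, mem_image, true_and, not_exists] at hx hy
  refine ⟨swap x y * σ, by simp [Perm.mem_alternatingGroup, Perm.sign_swap hxy, h1], fun i => ?_⟩
  rw [Perm.mul_apply, hσ, swap_apply_of_ne_of_ne (hx i) (hy i)]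

/-- three-cycles supported in `S` -/
def cycs (S : Finset α) : Set (Perm α) :=
  {σ | ∃ a ∈ S, ∃ b ∈ S, ∃ c ∈ S, a ≠ b ∧ a ≠ c ∧ b ≠ c ∧ σ = cyc a b c}

theorem mem_closure_cycs {S : Finset α} {σ : Perm α} (h : σ ∈ alternatingGroup α)
    (hS : σ.support ⊆ S) : σ ∈ Subgroup.closure (cycs S) := by
  induction hn : #σ.support using Nat.strong_induction_on generalizing σ with
  | _ n ih =>
  by_cases h1 : σ = 1
  · rw [h1]; exact one_mem _
  have h2 : 2 < #σ.support := by
    have h3 := Perm.one_lt_card_support_of_ne_one h1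
    have h4 : #σ.support ≠ 2 := fun h4 => by
      have := (Perm.card_support_eq_two.1 h4).sign_eq
      rw [Perm.mem_alternatingGroup.1 h] at this
      exact absurd this (by decide)
    omega
  obtain ⟨a, ha⟩ : σ.support.Nonempty := card_pos.1 (by omega)
  have hb : σ a ∈ σ.support := Perm.apply_mem_support.2 ha
  have hab : σ a ≠ a := Perm.mem_support.1 ha
  obtain ⟨c, hc, hc'⟩ : ∃ c ∈ σ.support, c ∉ ({a, σ a} : Finset α) :=
    exists_mem_notMem_of_card_lt_card (lt_of_le_of_lt card_le_two h2)
  simp only [mem_insert, mem_singleton, not_or] at hc'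
  have h3 : (cyc (σ a) a c * σ).support ⊆ σ.support.erase a := by
    intro x hx
    rw [Perm.mem_support, Perm.mul_apply] at hx
    rw [mem_erase, Perm.mem_support]
    refine ⟨?_, fun h => hx ?_⟩
    · rintro rfl
      exact hx (cyc_fst hab (Ne.symm hc'.2))
    · rw [h]
      refine cyc_of_ne ?_ ?_ ?_ <;> rintro rfl
      · exact Perm.mem_support.1 hb h
      · exact hab h
      · exact Perm.mem_support.1 hc h
  have h4 : cyc (σ a) a c ∈ Subgroup.closure (cycs S) :=
    Subgroup.subset_closure ⟨_, hS hb, _, hS ha, _, hS hc, hab, Ne.symm hc'.2, Ne.symm hc'.1, rfl⟩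
  have h5 := ih _ (hn ▸ (card_le_card h3).trans_lt (card_erase_lt_of_mem ha))
    (mul_mem (cyc_mem hab (Ne.symm hc'.1)) h) (h3.trans ((erase_subset _ _).trans hS)) rfl
  simpa using mul_mem (inv_mem h4) h5

variable {H : Type*} [Group H]

/-- `π` is a central extension of the alternating group -/
structure IsCov (π : H →* Perm α) : Prop where
  mem : ∀ h, π h ∈ alternatingGroup α
  surj : ∀ σ ∈ alternatingGroup α, ∃ h, π h = σ
  cen : ∀ h, π h = 1 → ∀ g, g * h = h * g

namespace IsCov

variable {π : H →* Perm α} (C : IsCov π)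
include C

theorem exists_cen {g h : H} (e : π g = π h) : ∃ z, (∀ x, x * z = z * x) ∧ g = h * z :=
  ⟨h⁻¹ * g, C.cen _ (by simp [e]), by simp⟩

omit [DecidableEq α] [Fintype α] C in
theorem le_of_closure {K : Subgroup H} (hK : ∀ z, π z = 1 → z ∈ K) {T : Set (Perm α)}
    (hT : ∀ σ ∈ T, ∃ k ∈ K, π k = σ) {g : H} (hg : π g ∈ Subgroup.closure T) : g ∈ K := by
  have : Subgroup.closure T ≤ K.map π := (Subgroup.closure_le _).2 hT
  obtain ⟨k, hk, e⟩ := this hg
  simpa using mul_mem hk (hK (k⁻¹ * g) (by simp [e]))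

/-- the commutator with a fixed element -/
def commHom (h : H) : (Subgroup.centralizer {π h}).comap π →* Subgroup.center H :=
  MonoidHom.mk' (fun g => ⟨g * h * (g : H)⁻¹ * h⁻¹, Subgroup.mem_center_iff.2 (C.cen _ (by
    have := Subgroup.mem_centralizer_singleton_iff.1 g.2
    simp only [map_mul, map_inv, this]; group))⟩) fun g g' => Subtype.ext (by
      have h1 : π (g' * h * (g' : H)⁻¹ * h⁻¹) = 1 := by
        have := Subgroup.mem_centralizer_singleton_iff.1 g'.2
        simp only [map_mul, map_inv, this]; group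
      simp only [Subgroup.coe_mul]
      calc (g : H) * g' * h * ((g : H) * g')⁻¹ * h⁻¹
          = g * (g' * h * (g' : H)⁻¹ * h⁻¹) * (h * (g : H)⁻¹ * h⁻¹) := by group
        _ = g * ((h * (g : H)⁻¹ * h⁻¹) * (g' * h * (g' : H)⁻¹ * h⁻¹)) := by
          rw [C.cen _ h1 (h * (g : H)⁻¹ * h⁻¹), mul_assoc]
        _ = _ := by group)

theorem commHom_eq_one_iff (h : H) (g : (Subgroup.centralizer {π h}).comap π) :
    C.commHom h g = 1 ↔ g * h = h * g := by
  rw [Subtype.ext_iff]
  change (g : H) * h * (g : H)⁻¹ * h⁻¹ = 1 ↔ _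
  rw [mul_inv_eq_one, mul_inv_eq_iff_eq_mul]

theorem commHom_congr (h : H) {g g' : (Subgroup.centralizer {π h}).comap π} (e : π g = π g') :
    C.commHom h g = C.commHom h g' := by
  rw [← mul_inv_eq_one, ← map_inv, ← map_mul, commHom_eq_one_iff]
  exact (C.cen _ (by simp [e]) h).symm

theorem commHom_conj (h : H) (u g : (Subgroup.centralizer {π h}).comap π) :
    C.commHom h (u * g * u⁻¹) = C.commHom h g := by
  rw [map_mul, map_mul, map_inv, mul_inv_eq_iff_eq_mul]
  exact Subtype.ext (Subgroup.mem_center_iff.1 (C.commHom h g).2 _)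

theorem commute_of_disjoint (h8 : 8 ≤ Fintype.card α) {a b c d e f : α}
    (hi : [a, b, c, d, e, f].Nodup) {g h : H} (hh : π h = cyc a b c)
    (hg : π g = cyc d e f) : g * h = h * g := by
  have hi1 : Function.Injective ![a, b, c, d, e, f] := List.nodup_ofFn.1 hi
  have hi' : Function.Injective ![a, b, c, f, e, d] := by
    have : ![a, b, c, f, e, d] = ![a, b, c, d, e, f] ∘ swap 3 5 := by
      funext i; fin_cases i <;> rfl
    rw [this]; exact hi1.comp (Equiv.injective _)
  obtain ⟨σ, hσ, hσ'⟩ := exists_even_extending hi1 hi' (by simpa using h8)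
  obtain ⟨u, rfl⟩ := C.surj σ hσ
  simp only [List.nodup_cons, List.mem_cons, List.not_mem_nil, or_false, not_or] at hi
  have e1 : π (u * g * u⁻¹) = π g⁻¹ := by
    rw [map_mul, map_mul, map_inv, map_inv, hg, cyc_conj, cyc_inv]
    exact congr (congr (congrArg cyc (hσ' 3)) (hσ' 4)) (hσ' 5)
  have e2 : u ∈ (Subgroup.centralizer {π h}).comap π := by
    rw [Subgroup.mem_comap, Subgroup.mem_centralizer_singleton_iff, ← mul_inv_eq_iff_eq_mul,
      hh, cyc_conj]
    exact congr (congr (congrArg cyc (hσ' 0)) (hσ' 1)) (hσ' 2)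
  have e3 : g ∈ (Subgroup.centralizer {π h}).comap π := by
    rw [Subgroup.mem_comap, Subgroup.mem_centralizer_singleton_iff, ← mul_inv_eq_iff_eq_mul,
      hh, cyc_conj, hg, cyc_of_ne, cyc_of_ne, cyc_of_ne] <;> tauto
  have e4 : π (g ^ 3) = π 1 := by
    rw [map_pow, hg, cyc_pow_three, map_one] <;> tauto
  have h1 := C.commHom_conj h ⟨u, e2⟩ ⟨g, e3⟩
  rw [C.commHom_congr h (g' := ⟨g, e3⟩⁻¹) e1, map_inv, inv_eq_iff_mul_eq_one] at h1
  have h2 := C.commHom_congr h (g := ⟨g, e3⟩ ^ 3) (g' := 1) e4
  rw [map_pow, map_one, pow_succ, sq, h1, one_mul] at h2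
  exact (C.commHom_eq_one_iff h _).1 h2

theorem commute_of_commute_cyc (h8 : 8 ≤ Fintype.card α) {a b c : α} (hab : a ≠ b) (hac : a ≠ c)
    (hbc : b ≠ c) {g h : H} (hh : π h = cyc a b c) (hg : π g * cyc a b c = cyc a b c * π g) :
    g * h = h * g := by
  have key : ∀ g : H, π g * cyc a b c = cyc a b c * π g → π g a = a → g * h = h * g := by
    intro g hg h1
    have h2 : π g b = b := by
      have := congrArg (fun σ : Perm α => σ a) hg
      simpa only [Perm.mul_apply, h1, cyc_fst hab hac] using this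
    have h3 : π g c = c := by
      have := congrArg (fun σ : Perm α => σ b) hg
      simpa only [Perm.mul_apply, h2, cyc_snd hac hbc] using this
    have h4 : π g ∈ Subgroup.closure (cycs (univ \ {a, b, c})) := by
      refine mem_closure_cycs (C.mem g) fun x hx => ?_
      rw [Perm.mem_support] at hx
      simp only [mem_sdiff, mem_univ, mem_insert, mem_singleton, true_and, not_or]
      refine ⟨?_, ?_, ?_⟩ <;> rintro rfl <;> contradiction
    have := le_of_closure (K := Subgroup.centralizer {h})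
      (fun z hz => Subgroup.mem_centralizer_singleton_iff.2 (C.cen z hz h).symm) ?_ h4
    · exact Subgroup.mem_centralizer_singleton_iff.1 this
    · rintro _ ⟨d, hd, e, he, f, hf, hde, hdf, hef, rfl⟩
      obtain ⟨k, hk⟩ := C.surj _ (cyc_mem hde hef)
      simp only [mem_sdiff, mem_univ, mem_insert, mem_singleton, true_and, not_or] at hd he hf
      refine ⟨k, Subgroup.mem_centralizer_singleton_iff.2 (C.commute_of_disjoint h8 ?_ hh hk), hk⟩
      simp only [List.nodup_cons, List.mem_cons, List.not_mem_nil, or_false, not_or,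
        List.nodup_nil]
      tauto
  have h1 : π g b = cyc a b c (π g a) := by
    have := congrArg (fun σ : Perm α => σ a) hg
    simpa only [Perm.mul_apply, cyc_fst hab hac] using this
  have h2 : ∀ k : ℕ, π (h ^ k * g) * cyc a b c = cyc a b c * π (h ^ k * g) := fun k => by
    rw [map_mul, map_pow, hh, mul_assoc, hg, ← mul_assoc, ← mul_assoc, ← pow_succ, ← pow_succ']
  have h3 : ∀ k : ℕ, π (h ^ k * g) a = a → g * h = h * g := fun k hk => by
    have := key _ (h2 k) hk
    rw [← mul_assoc, ← pow_succ', pow_succ, mul_assoc, mul_assoc] at this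
    exact mul_left_cancel this
  by_cases e1 : π g a = a
  · exact h3 0 (by simpa using e1)
  by_cases e2 : π g a = b
  · refine h3 2 ?_
    rw [map_mul, map_pow, hh, sq, Perm.mul_apply, Perm.mul_apply, e2, cyc_snd hac hbc, cyc_thd]
  by_cases e3 : π g a = c
  · refine h3 1 ?_
    rw [map_mul, map_pow, hh, pow_one, Perm.mul_apply, e3, cyc_thd]
  rw [cyc_of_ne e1 e2 e3] at h1
  exact (hab ((π g).injective h1).symm).elim

end IsCov

end AltCov
end Cfsg
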