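import Cfsg.Agent.Spin.Blk
import Cfsg.Agent.Spin.Schur
import Cfsg.Agent.Grp.PFour
import Cfsg.Agent.Grp.NormalComplement
import Cfsg.Agent.Blk.CycData
import Cfsg.Agent.Blk.StarBridge

/-! Robinson's bound for perfect groups with small Sylow subgroups modulo the centre. -/

set_option autoImplicit false

namespace Cfsg

section grp
variable {P : Type*} [Group P] [Finite P] {p : ℕ}

omit [Finite P] in
theorem mem_center_of_sup_zpowers {A : Subgroup P} (hA : IsMulCommutative A) {s x : P}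
    (h : A ⊔ Subgroup.zpowers s = ⊤) (hx : x ∈ A) (hc : s * x = x * s) : x ∈ Subgroup.center P := by
  have : A ⊔ Subgroup.zpowers s ≤ Subgroup.centralizer {x} := sup_le
    (fun a ha => Subgroup.mem_centralizer_singleton_iff.2
      (congrArg Subtype.val (hA.is_comm.comm ⟨a, ha⟩ ⟨x, hx⟩)))
    (Subgroup.zpowers_le.2 (Subgroup.mem_centralizer_singleton_iff.2 hc))
  exact Subgroup.mem_center_iff.2 fun g =>
    Subgroup.mem_centralizer_singleton_iff.1 (this (h ▸ Subgroup.mem_top g))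

theorem tri_of_index_prime {D : Type*} [Group D] (ι : D →* P) (hι : Function.Injective ι)
    {A : Subgroup P} [A.Normal] (hA : IsMulCommutative A) (hp : p.Prime) (hi : A.index = p)
    (hZ : Nat.card (Subgroup.center P) ≤ p) :
    ι.range ≤ A ∨ Nat.card D ≤ p ^ 2 ∨ Nat.card (Subgroup.center D) ≤ p := by
  have key : ∀ (K : Subgroup D) d, ι d ∉ A → (∀ x ∈ K, ι x ∈ A ∧ d * x = x * d) → Nat.card K ≤ p :=
    fun K d hd h => (Nat.card_le_card_of_injective (fun x : K => (⟨ι x, mem_center_of_sup_zpowers hA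
      (sup_zpowers_eq_top_of_index_prime (hi ▸ hp) hd) (h x x.2).1
      (by rw [← map_mul, (h x x.2).2, map_mul])⟩ : Subgroup.center P))
      fun _ _ e => Subtype.ext (hι (congrArg Subtype.val e))).trans hZ
  refine or_iff_not_imp_left.2 fun h => ?_
  by_cases h' : ∀ d ∈ Subgroup.center D, ι d ∈ A
  · obtain ⟨_, ⟨d, rfl⟩, hd⟩ := SetLike.not_le_iff_exists.1 h
    exact Or.inr (key _ d hd fun x hx => ⟨h' x hx, Subgroup.mem_center_iff.1 hx d⟩)
  · push Not at h'
    obtain ⟨d, hd, hd'⟩ := h'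
    rw [← (A.comap ι).card_mul_index, pow_two, Subgroup.index_comap]
    exact Or.inl (Nat.mul_le_mul (key _ d hd' fun x hx => ⟨hx, (Subgroup.mem_center_iff.1 hd x).symm⟩)
      (Nat.le_of_dvd hp.pos (hi ▸ Subgroup.relIndex_dvd_index_of_normal _ _)))

theorem tri_of_index_le_sq [hp : Fact p.Prime] (hP : IsPGroup p P) {K : Subgroup P}
    (h1 : K ≤ Subgroup.center P) (h2 : K ≤ commutator P) (h3 : K.index ≤ p ^ 2)
    {D : Type*} [Group D] (ι : D →* P) (hι : Function.Injective ι) :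
    Nat.card D ≤ p ^ 2 ∨ Nat.card (Subgroup.center D) ≤ p := by
  have h4 := K.card_mul_index
  by_cases hc : IsMulCommutative P
  · obtain rfl : K = ⊥ := le_bot_iff.1 (h2.trans ((commutator_eq_bot_iff P).2 hc).le)
    exact Or.inl ((Nat.card_le_card_of_injective ι hι).trans (by simpa using h3))
  obtain ⟨a, ha⟩ : ∃ a, a ∉ Subgroup.center P := by
    by_contra! h
    exact hc (isMulCommutative_iff_center_eq_top.2 ((Subgroup.eq_top_iff' _).2 h))
  have hA : IsMulCommutative (Subgroup.center P ⊔ Subgroup.zpowers a : Subgroup P) :=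
    isMulCommutative_sup_zpowers inferInstance fun z hz => (Subgroup.mem_center_iff.1 hz a).symm
  set A := Subgroup.center P ⊔ Subgroup.zpowers a
  have h5 := Nat.le_of_dvd Nat.card_pos (mul_card_dvd_of_lt_of_isPGroup (K := A)
    (hP.to_subgroup _) (lt_of_le_of_ne le_sup_left fun e =>
      ha (e ▸ (le_sup_right : _ ≤ A) (Subgroup.mem_zpowers a))))
  have h6 := Nat.le_of_dvd Nat.card_pos (mul_card_dvd_of_lt_of_isPGroup (H := A) (K := ⊤)
    (hP.to_subgroup _) (lt_top_iff_ne_top.2 fun e => hc ⟨⟨fun x y => congrArg Subtype.val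
      (hA.is_comm.comm ⟨x, e ▸ trivial⟩ ⟨y, e ▸ trivial⟩)⟩⟩))
  have h7 := Subgroup.card_le_of_le h1
  have h8 := Subgroup.card_le_of_le h2
  have h9 := A.card_mul_index
  have hp0 := hp.out.pos
  have hA0 : 0 < Nat.card A := Nat.card_pos
  have hZ0 : 0 < Nat.card (Subgroup.center P) := Nat.card_pos
  rw [Subgroup.card_top] at h6
  have e0 : Nat.card P ≤ Nat.card K * p * p := by rw [← h4, mul_assoc, ← pow_two]; gcongr
  have e1 : Nat.card A ≤ Nat.card K * p := Nat.le_of_mul_le_mul_right (h6.trans e0) hp0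
  have e2 : Nat.card (Subgroup.center P) ≤ Nat.card K := Nat.le_of_mul_le_mul_right (h5.trans e1) hp0
  have e3 : A.index = p := Nat.eq_of_mul_eq_mul_left hA0 (by
    rw [h9]; exact le_antisymm (e0.trans (by gcongr; exact le_trans (by gcongr) h5)) h6)
  have : A.Normal := Subgroup.normal_of_index_eq_minFac_card (by
    obtain ⟨k, hk⟩ := IsPGroup.iff_card.1 hP
    have : k ≠ 0 := by rintro rfl; have := hp.out.two_le; nlinarith
    rw [e3, hk, hp.out.pow_minFac this])
  have e4 := card_eq_card_commutator_mul_card_center hA (e3 ▸ hp.out) hc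
  have e5 : Nat.card (commutator P) ≤ p :=
    Nat.le_of_mul_le_mul_right (by rw [← e4, mul_comm]; exact e1.trans (by gcongr)) hZ0
  refine (tri_of_index_prime ι hι hA hp.out e3 (by omega)).elim (fun h => Or.inl ?_) id
  rw [Nat.card_congr (MonoidHom.ofInjective hι).toEquiv, pow_two]
  exact (Subgroup.card_le_of_le h).trans (e1.trans (by gcongr; omega))

open scoped commutatorElement in
theorem tri_of_dihedral (hP : IsPGroup 2 P) {Q : Type*} [Group Q] (φ : P →* Q)
    (h1 : φ.ker ≤ Subgroup.center P) (h2 : φ.ker ≤ commutator P) (h3 : φ.ker.index ≤ 8)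
    {c s : P} (c4 : φ c ^ 4 = 1) (c2 : φ c ^ 2 ≠ 1) (hs : φ s * φ c * (φ s)⁻¹ = (φ c)⁻¹)
    {D : Type*} [Group D] (ι : D →* P) (hι : Function.Injective ι) :
    IsCyclic D ∨ Nat.card D ≤ 2 ^ 2 ∨ Nat.card (Subgroup.center D) ≤ 2 := by
  have := Fact.mk Nat.prime_two
  have hA : IsMulCommutative (φ.ker ⊔ Subgroup.zpowers c : Subgroup P) :=
    isMulCommutative_sup_zpowers ⟨⟨fun a b => Subtype.ext (Subgroup.mem_center_iff.1 (h1 b.2) a)⟩⟩
      fun z hz => (Subgroup.mem_center_iff.1 (h1 hz) c).symm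
  set A := φ.ker ⊔ Subgroup.zpowers c with hAe
  have hcA : c ∈ A := (le_sup_right : _ ≤ A) (Subgroup.mem_zpowers c)
  have hn : φ s * φ c ≠ φ c * φ s := fun e => c2 (by
    rw [e, mul_inv_cancel_right] at hs
    rw [pow_two, ← eq_inv_iff_mul_eq_one, ← hs])
  have hsA : s ∉ A := fun h => hn (by
    simpa using congrArg (fun x : A => φ x) (hA.is_comm.comm ⟨s, h⟩ ⟨c, hcA⟩))
  have hc : ¬ IsMulCommutative P := fun h => hn (by rw [← map_mul, h.is_comm.comm, map_mul])
  have e1 : A = (Subgroup.zpowers (φ c)).comap φ := by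
    rw [← MonoidHom.map_zpowers, Subgroup.comap_map_eq, sup_comm]
  have e2 : 4 * A.index = φ.ker.index := by
    rw [e1, Subgroup.index_comap, Subgroup.index_ker, ← Subgroup.card_mul_index
      ((Subgroup.zpowers (φ c)).subgroupOf φ.range), Nat.card_congr (Subgroup.subgroupOfEquivOfLe
      (Subgroup.zpowers_le.2 (MonoidHom.mem_range.2 ⟨c, rfl⟩))).toEquiv, Nat.card_zpowers,
      orderOf_eq_prime_pow (p := 2) (n := 1) c2 c4]
    rfl
  have e3 : A.index = 2 := by
    have := A.index_ne_zero_of_finite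
    have : A.index ≠ 1 := fun e => hsA (Subgroup.index_eq_one.1 e ▸ trivial)
    omega
  have := A.normal_of_index_eq_two e3
  have e4 := card_eq_card_commutator_mul_card_center hA (e3 ▸ Nat.prime_two) hc
  have e5 := Nat.le_of_dvd Nat.card_pos (mul_card_dvd_of_lt_of_isPGroup (hP.to_subgroup _)
    (lt_of_le_of_ne h2 fun e => hn (by
      have : ⁅s, c⁆ ∈ φ.ker := e ▸ Subgroup.commutator_mem_commutator trivial trivial
      simpa [commutatorElement_eq_one_iff_mul_comm] using this)))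
  have e6 := A.card_mul_index
  have e7 := φ.ker.card_mul_index
  have e8 : 0 < Nat.card φ.ker := Nat.card_pos
  have hZ : Nat.card (Subgroup.center P) ≤ 2 := by
    rw [← e2, e3] at e7
    rw [e3, e4] at e6
    nlinarith
  have hu : ∀ x ∈ Subgroup.center P, ∀ y ∈ Subgroup.center P, x ≠ 1 → y ≠ 1 → x = y := by
    intro x hx y hy hx1 hy1
    by_contra hxy
    have := Set.ncard_le_ncard (s := {1, x, y}) (t := (Subgroup.center P : Set P))
      (by rintro _ (rfl | rfl | rfl) <;> simp [hx, hy])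
    rw [Set.ncard_eq_three.2 ⟨1, x, y, hx1.symm, hy1.symm, hxy, rfl⟩] at this
    exact absurd (this.trans hZ) (by decide)
  have hK : A ≤ Subgroup.zpowers c := sup_le (fun k hk => ?_) le_rfl
  · refine (tri_of_index_prime ι hι hA Nat.prime_two e3 hZ).imp_left fun h => ?_
    exact isCyclic_of_injective (ι.codRestrict (Subgroup.zpowers c) fun d => hK (h ⟨d, rfl⟩))
      fun _ _ e => hι (congrArg Subtype.val e)
  by_cases hk1 : k = 1
  · simp [hk1]
  by_cases h4 : c ^ 4 = 1
  · have h5 := h1 (show s * c * s⁻¹ * c ∈ φ.ker by simp [hs])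
    have h6 : s * c * s⁻¹ * c * (s * c * s⁻¹ * c) = 1 := by
      by_cases e : s * c * s⁻¹ * c = 1
      · simp [e]
      · rw [← eq_inv_iff_mul_eq_one]
        exact hu _ h5 _ (inv_mem h5) e (inv_ne_one.2 e)
    have h7 : s * c ^ 2 = c ^ 2 * s := by
      have := Subgroup.mem_center_iff.1 h5 c
      rw [mul_assoc _ c, this, ← mul_assoc, ← mul_assoc] at h6
      calc s * c ^ 2 = (s * c * s⁻¹ * (s * c * s⁻¹) * c * c) * (c ^ 4)⁻¹ * (c ^ 2 * s) := by
            rw [pow_two]; group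
        _ = _ := by rw [h6, h4]; simp
    have := hu _ (mem_center_of_sup_zpowers hA (sup_zpowers_eq_top_of_index_prime
      (e3 ▸ Nat.prime_two) hsA) (pow_mem hcA 2) h7) k (h1 hk)
      (fun e => c2 (by rw [← map_pow, e, map_one])) hk1
    exact (c2 (by rw [← map_pow, this]; exact hk)).elim
  · rw [← hu _ (h1 (show c ^ 4 ∈ φ.ker by simp [c4])) k (h1 hk) h4 hk1]
    exact Subgroup.pow_mem _ (Subgroup.mem_zpowers c) 4

end grp

variable {H : Type*} [Group H] [Finite H] {p : ℕ} {M : Ideal AlgInt} {B : Set (IrrCharacter H)}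
  {D : Subgroup H}

theorem IsDefectGroup.robGoal_of_isCyclic (hM : IsPModular p M) (hB : IsPBlock M B)
    (hD : IsDefectGroup p M B D) {χ : IrrCharacter H} (hχ : χ ∈ B) (hc : IsCyclic D) :
    RobGoal p B D χ := by
  by_cases h : D = ⊥
  · exact hD.robGoal_of_card_le hM hB hχ (by simpa [h] using Nat.one_le_pow _ _ hM.prime.pos)
  have := Fintype.ofFinite H
  obtain ⟨e, S⟩ := hD.exists_starSetup hM hB
  obtain ⟨X, ψ, δ, δ₀, h⟩ := S.exists_cycData hc h
  simp [RobGoal, h.height hχ, isMulCommutative_iff_center_eq_top.1 h.comm, h.comm]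

namespace AltCov

open Equiv

variable {α : Type} [Fintype α] [DecidableEq α] {π : H →* Perm α}

theorem IsCov.sylow_ker [Fact p.Prime] (C : IsCov π) (hp : commutator H = ⊤) (P : Sylow p H) :
    (π.comp P.1.subtype).ker ≤ Subgroup.center P ∧ (π.comp P.1.subtype).ker ≤ commutator P ∧
      ∀ k, ¬ p ^ (k + 1) ∣ Nat.card (alternatingGroup α) →
        (π.comp P.1.subtype).ker.index ≤ p ^ k := by
  refine ⟨fun z hz => Subgroup.mem_center_iff.2 fun g => Subtype.ext (C.cen _ hz _),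
    fun z hz => ?_, fun k hk => ?_⟩
  · have := commutator_inf_center_inf_sylow_le P (x := z)
      ⟨⟨hp ▸ trivial, Subgroup.mem_center_iff.2 (C.cen _ hz)⟩, z.2⟩
    rw [← Subgroup.map_subtype_commutator] at this
    obtain ⟨y, hy, e⟩ := this
    rwa [← Subtype.ext e]
  · obtain ⟨j, hj⟩ := P.isPGroup'.index (π.comp P.1.subtype).ker
    have : (π.comp P.1.subtype).ker.index ∣ Nat.card (alternatingGroup α) := by
      rw [Subgroup.index_ker]
      exact Subgroup.card_dvd_of_le (by rintro _ ⟨x, rfl⟩; exact C.mem _)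
    rw [hj] at this ⊢
    refine Nat.pow_le_pow_right (Fact.out : p.Prime).pos (not_lt.1 fun h => hk ?_)
    exact (pow_dvd_pow p h).trans this

theorem IsCov.robGoal_of_not_dvd (C : IsCov π) (hp : commutator H = ⊤) (hM : IsPModular p M)
    (hB : IsPBlock M B) (hD : IsDefectGroup p M B D) {χ : IrrCharacter H} (hχ : χ ∈ B)
    (h : ¬ p ^ 3 ∣ Nat.card (alternatingGroup α)) : RobGoal p B D χ := by
  have := Fact.mk hM.prime
  obtain ⟨P, hP⟩ := hD.isPGroup.exists_le_sylow
  obtain ⟨h1, h2, h3⟩ := C.sylow_ker hp P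
  exact (tri_of_index_le_sq P.isPGroup' h1 h2 (h3 2 h) _ (Subgroup.inclusion_injective hP)).elim
    (hD.robGoal_of_card_le hM hB hχ) (hD.robGoal_of_center_le hM hB hχ)

theorem IsCov.robGoal_of_dihedral (C : IsCov π) (hp : commutator H = ⊤) (hM : IsPModular 2 M)
    (hB : IsPBlock M B) (hD : IsDefectGroup 2 M B D) {χ : IrrCharacter H} (hχ : χ ∈ B)
    (h : ¬ 2 ^ 4 ∣ Nat.card (alternatingGroup α)) {c s : Perm α} (hc : Perm.sign c = 1)
    (hs : Perm.sign s = 1) (c4 : c ^ 4 = 1) (c2 : c ^ 2 ≠ 1) (s2 : s ^ 2 = 1)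
    (e : s * c * s⁻¹ = c⁻¹) : RobGoal 2 B D χ := by
  have := Fact.mk Nat.prime_two
  obtain ⟨P, hP⟩ := hD.isPGroup.exists_le_sylow
  obtain ⟨h1, h2, h3⟩ := C.sylow_ker hp P
  have hs' : Function.Surjective (π.codRestrict _ C.mem) :=
    fun σ => (C.surj σ σ.2).imp fun _ h => Subtype.ext h
  let c' : alternatingGroup α := ⟨c, hc⟩
  let s' : alternatingGroup α := ⟨s, hs⟩
  have e' : s' * c' * s'⁻¹ = c'⁻¹ := Subtype.ext e
  have hz : ∀ (x : alternatingGroup α) k, x ^ 2 ^ k = 1 → IsPGroup 2 (Subgroup.zpowers x) := by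
    rintro x k hx ⟨_, i, rfl⟩
    exact ⟨k, Subtype.ext (by
      change (x ^ i) ^ 2 ^ k = 1
      rw [← zpow_natCast, ← zpow_mul, mul_comm, zpow_mul, zpow_natCast, hx, one_zpow])⟩
  obtain ⟨Q, hQ⟩ := ((hz c' 2 (Subtype.ext c4)).to_sup_of_normal_left' (hz s' 1 (Subtype.ext s2))
    (Subgroup.zpowers_le.2 (Subgroup.mem_normalizer_iff_map_conj_eq.2 (by
      simp [e'])))).exists_le_sylow
  obtain ⟨g, hg⟩ := MulAction.exists_smul_eq (alternatingGroup α) Q (P.mapSurjective hs')
  have k : ∀ x ∈ (Q : Subgroup (alternatingGroup α)), ∃ y : P, π y = g * x * (g : Perm α)⁻¹ := by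
    intro x hx
    have : g * x * g⁻¹ ∈ (P.mapSurjective hs' : Subgroup _) := by
      rw [← hg]; exact Subgroup.smul_mem_pointwise_smul _ (MulAut.conj g) _ hx
    obtain ⟨y, hy, e⟩ := this
    exact ⟨⟨y, hy⟩, congrArg Subtype.val e⟩
  obtain ⟨c₁, hc₁⟩ := k c' (hQ (Subgroup.mem_sup_left (Subgroup.mem_zpowers _)))
  obtain ⟨s₁, hs₁⟩ := k s' (hQ (Subgroup.mem_sup_right (Subgroup.mem_zpowers _)))
  rcases tri_of_dihedral P.isPGroup' _ h1 h2 (h3 3 h) (c := c₁) (s := s₁)
    (by simp [hc₁, c', c4]) (by simpa [hc₁, c'] using c2)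
    (by simp [hc₁, hs₁, c', s', ← e, mul_assoc]) _ (Subgroup.inclusion_injective hP) with h | h | h
  exacts [hD.robGoal_of_isCyclic hM hB hχ h, hD.robGoal_of_card_le hM hB hχ h,
    hD.robGoal_of_center_le hM hB hχ h]

end AltCov
end Cfsg
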