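import Cfsg.Agent.Spin.Schur

/-! The Schur multiplier of `A_n`, `n ≥ 8`, has order at most two (second part). -/

set_option autoImplicit false

namespace Cfsg
namespace AltCov

open Equiv Finset
open scoped commutatorElement

variable {α : Type} [DecidableEq α]

/-- three-cycles -/
def Is3 (σ : Perm α) : Prop := ∃ a b c, a ≠ b ∧ a ≠ c ∧ b ≠ c ∧ σ = cyc a b c

theorem is3_cyc {a b c : α} (hab : a ≠ b) (hac : a ≠ c) (hbc : b ≠ c) : Is3 (cyc a b c) :=
  ⟨a, b, c, hab, hac, hbc, rfl⟩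

variable [Fintype α] {H : Type*} [Group H] {π : H →* Perm α}

theorem commutator_le_of_cen {K : Subgroup H}
    (h : ∀ g, ∃ k ∈ K, ∃ z, (∀ x, x * z = z * x) ∧ g = k * z) : commutator H ≤ K := by
  rw [commutator_def, Subgroup.commutator_le]
  intro g _ g' _
  obtain ⟨k, hk, z, hz, rfl⟩ := h g
  obtain ⟨k', hk', z', hz', rfl⟩ := h g'
  have : ⁅k * z, k' * z'⁆ = k * k' * k⁻¹ * k'⁻¹ := by
    rw [commutatorElement_def]
    calc k * z * (k' * z') * (k * z)⁻¹ * (k' * z')⁻¹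
        = k * (z * (k' * z')) * z⁻¹ * (k⁻¹ * z'⁻¹ * k'⁻¹) := by group
      _ = k * k' * (z' * k⁻¹) * z'⁻¹ * k'⁻¹ := by rw [← hz]; group
      _ = _ := by rw [← hz']; group
  rw [this]
  exact mul_mem (mul_mem (mul_mem hk hk') (inv_mem hk)) (inv_mem hk')

namespace IsCov

variable (C : IsCov π)
include C

theorem exists_conj_cyc (h8 : 8 ≤ Fintype.card α) {a b c : α} (hab : a ≠ b) (hac : a ≠ c)
    (hbc : b ≠ c) {σ : Perm α} (hσ : Is3 σ) : ∃ g, π g * cyc a b c * (π g)⁻¹ = σ := by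
  obtain ⟨d, e, f, hde, hdf, hef, rfl⟩ := hσ
  obtain ⟨τ, hτ, h⟩ := exists_even_extending (f := ![a, b, c]) (g := ![d, e, f])
    (List.nodup_ofFn.1 (by simp [*])) (List.nodup_ofFn.1 (by simp [*])) (by simp; omega)
  obtain ⟨g, rfl⟩ := C.surj τ hτ
  exact ⟨g, by rw [cyc_conj]; exact congr (congr (congrArg cyc (h 0)) (h 1)) (h 2)⟩

theorem exists_section (h8 : 8 ≤ Fintype.card α) : ∃ s : Perm α → H,
    (∀ σ, Is3 σ → π (s σ) = σ) ∧
      ∀ g σ, Is3 σ → g * s σ * g⁻¹ = s (π g * σ * (π g)⁻¹) := by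
  classical
  obtain ⟨a, b, c, hab, hac, hbc⟩ := Fintype.two_lt_card_iff.1 (by omega : 2 < Fintype.card α)
  obtain ⟨h, hh⟩ := C.surj _ (cyc_mem hab hbc)
  let s : Perm α → H := fun σ =>
    if e : ∃ g, π g * cyc a b c * (π g)⁻¹ = σ then e.choose * h * e.choose⁻¹ else 1
  have key : ∀ g, s (π g * cyc a b c * (π g)⁻¹) = g * h * g⁻¹ := by
    intro g
    have e : ∃ g', π g' * cyc a b c * (π g')⁻¹ = π g * cyc a b c * (π g)⁻¹ := ⟨g, rfl⟩
    have h1 := e.choose_spec
    simp only [s, dif_pos e]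
    generalize e.choose = g' at h1
    have h2 := C.commute_of_commute_cyc h8 hab hac hbc (g := g⁻¹ * g') hh (by
      rw [map_mul, map_inv, mul_assoc, eq_mul_of_mul_inv_eq h1]; group)
    calc g' * h * g'⁻¹ = g * (g⁻¹ * g' * h) * g'⁻¹ := by group
      _ = _ := by rw [h2]; group
  refine ⟨s, fun σ hσ => ?_, fun g σ hσ => ?_⟩
  · obtain ⟨g, rfl⟩ := C.exists_conj_cyc h8 hab hac hbc hσ
    rw [key, map_mul, map_mul, hh, map_inv]
  · obtain ⟨g', rfl⟩ := C.exists_conj_cyc h8 hab hac hbc hσ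
    rw [key, show π g * (π g' * cyc a b c * (π g')⁻¹) * (π g)⁻¹ =
      π (g * g') * cyc a b c * (π (g * g'))⁻¹ by rw [map_mul]; group, key]
    group

end IsCov

/-- a normalized conjugation-equivariant section on three-cycles -/
structure IsSec (π : H →* Perm α) (s : Perm α → H) : Prop where
  map : ∀ σ, Is3 σ → π (s σ) = σ
  cnj : ∀ g σ, Is3 σ → g * s σ * g⁻¹ = s (π g * σ * (π g)⁻¹)
  mul : ∀ a b c d, [a, b, c, d].Nodup → s (cyc a b c) * s (cyc a d b) = s (cyc a d c)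

theorem IsCov.exists_isSec (C : IsCov π) (h8 : 8 ≤ Fintype.card α) : ∃ s, IsSec π s := by
  obtain ⟨s, h1, h2⟩ := C.exists_section h8
  obtain ⟨f⟩ : Nonempty (Fin 4 ↪ α) := Function.Embedding.nonempty_of_card_le (by simp; omega)
  have ne : ∀ i j, i ≠ j → f i ≠ f j := fun i j h => f.injective.ne h
  have i1 := is3_cyc (ne 0 1 (by decide)) (ne 0 2 (by decide)) (ne 1 2 (by decide))
  have i2 := is3_cyc (ne 0 3 (by decide)) (ne 0 1 (by decide)) (ne 3 1 (by decide))
  have i3 := is3_cyc (ne 0 3 (by decide)) (ne 0 2 (by decide)) (ne 3 2 (by decide))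
  obtain ⟨z, hz, e⟩ := C.exists_cen
    (g := s (cyc (f 0) (f 1) (f 2)) * s (cyc (f 0) (f 3) (f 1))) (h := s (cyc (f 0) (f 3) (f 2)))
    (by rw [map_mul, h1 _ i1, h1 _ i2, h1 _ i3, cyc_mul_cyc] <;> exact ne _ _ (by decide))
  have hz1 : π z = 1 := by
    have := congrArg π e
    rw [map_mul, map_mul, h1 _ i1, h1 _ i2, h1 _ i3, cyc_mul_cyc] at this
    · exact (left_eq_mul.1 this)
    all_goals exact ne _ _ (by decide)
  have hz' : ∀ x, x * z⁻¹ = z⁻¹ * x := fun x => by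
    rw [eq_inv_mul_iff_mul_eq, ← mul_assoc, ← hz x]; simp
  refine ⟨fun σ => s σ * z⁻¹, fun σ hσ => by simp [h1 σ hσ, hz1], fun g σ hσ => ?_,
    fun a b c d h => ?_⟩
  · rw [← h2 g σ hσ, ← mul_assoc, mul_assoc _ z⁻¹, ← hz', ← mul_assoc]
  · obtain ⟨τ, hτ, h3⟩ := exists_even_extending (f := f) (g := ![a, b, c, d]) f.injective
      (List.nodup_ofFn.1 h) (by simp; omega)
    obtain ⟨g, rfl⟩ := C.surj τ hτ
    have e1 := h2 g _ i1
    have e2 := h2 g _ i2
    have e3 := h2 g _ i3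
    rw [cyc_conj] at e1 e2 e3
    simp only [h3] at e1 e2 e3
    change _ = s (cyc a b c) at e1
    change _ = s (cyc a d b) at e2
    change _ = s (cyc a d c) at e3
    rw [← e1, ← e2, ← e3, mul_assoc _ z⁻¹, ← hz', eq_mul_inv_of_mul_eq e.symm]
    calc _ = g * (s (cyc (f 0) (f 1) (f 2)) * s (cyc (f 0) (f 3) (f 1))) * (g⁻¹ * z⁻¹) * z⁻¹ := by
          group
      _ = _ := by rw [hz' g⁻¹]; group

namespace IsSec

variable {s : Perm α → H} (C : IsCov π) (S : IsSec π s) (h8 : 8 ≤ Fintype.card α)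
include S h8

theorem inv {σ : Perm α} (hσ : Is3 σ) : s σ⁻¹ = (s σ)⁻¹ := by
  obtain ⟨m, i, k, h1, h2, h3, rfl⟩ := hσ
  obtain ⟨l, -, hl⟩ : ∃ l ∈ (univ : Finset α), l ∉ ({m, i, k} : Finset α) :=
    exists_mem_notMem_of_card_lt_card (lt_of_le_of_lt card_le_three (by rw [card_univ]; omega))
  simp only [mem_insert, mem_singleton, not_or] at hl
  have e1 := S.mul m k l i (by simp; tauto)
  have e2 := S.mul m i l k (by simp; tauto)
  rw [← e2, mul_assoc, mul_eq_left] at e1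
  rw [cyc_inv, cyc_rot h3.symm h2.symm h1.symm, cyc_rot h1.symm h3 h2]
  exact eq_inv_of_mul_eq_one_left e1

include C in
theorem exists_cube : ∃ z : H, π z = 1 ∧ z * z = 1 ∧ ∀ σ, Is3 σ → s σ ^ 3 = z := by
  obtain ⟨a, b, c, hab, hac, hbc⟩ := Fintype.two_lt_card_iff.1 (by omega : 2 < Fintype.card α)
  have i := is3_cyc hab hac hbc
  have h1 : π (s (cyc a b c) ^ 3) = 1 := by rw [map_pow, S.map _ i, cyc_pow_three hab hac hbc]
  have h2 : ∀ σ, Is3 σ → s σ ^ 3 = s (cyc a b c) ^ 3 := fun σ hσ => by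
    obtain ⟨g, rfl⟩ := C.exists_conj_cyc h8 hab hac hbc hσ
    rw [← S.cnj g _ i, conj_pow, C.cen _ h1 g, mul_inv_cancel_right]
  refine ⟨_, h1, ?_, h2⟩
  have h3 := h2 _ (is3_cyc hbc.symm hac.symm hab.symm)
  rw [← cyc_inv, S.inv h8 i, inv_pow] at h3
  exact inv_eq_iff_mul_eq_one.1 h3

omit S h8 in
/-- the subgroup generated by the lifts of three-cycles in `T` -/
def gen (s : Perm α → H) (z : H) (T : Finset α) : Subgroup H :=
  Subgroup.closure (insert z (s '' cycs T))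

omit S h8 [Fintype α] in
theorem mem_gen (z : H) {T : Finset α} {a b c : α} (ha : a ∈ T) (hb : b ∈ T) (hc : c ∈ T)
    (hab : a ≠ b) (hac : a ≠ c) (hbc : b ≠ c) : s (cyc a b c) ∈ gen s z T :=
  Subgroup.subset_closure (Or.inr ⟨_, ⟨a, ha, b, hb, c, hc, hab, hac, hbc, rfl⟩, rfl⟩)

omit h8 [Fintype α] in
theorem apply_of_mem_gen {z : H} (hz : π z = 1) {T : Finset α} {k : H} (hk : k ∈ gen s z T)
    {m : α} (hm : m ∉ T) : π k m = m := by
  have : gen s z T ≤ (MulAction.stabilizer (Perm α) m).comap π := by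
    refine (Subgroup.closure_le _).2 ?_
    rintro _ (rfl | ⟨_, ⟨a, ha, b, hb, c, hc, hab, hac, hbc, rfl⟩, rfl⟩)
    · change π _ m = m
      rw [hz]; rfl
    · change π _ m = m
      rw [S.map _ (is3_cyc hab hac hbc)]
      refine cyc_of_ne ?_ ?_ ?_ <;> rintro rfl <;> contradiction
  exact this hk

include C in
theorem mem_gen_of_fix {z : H} (hz : π z = 1) (hz2 : z * z = 1)
    (hz3 : ∀ σ, Is3 σ → s σ ^ 3 = z) {T : Finset α} {m : α} (hm : m ∉ T) {k : H}
    (hk : k ∈ gen s z (insert m T)) (h : π k m = m) : k ∈ gen s z T := by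
  have nm : ∀ x ∈ T, m ≠ x := by rintro x hx rfl; exact hm hx
  have hzK : z ∈ gen s z T := Subgroup.subset_closure (Or.inl rfl)
  -- change of representative
  have hA : ∀ i ∈ T, ∀ j ∈ T, ∀ j' ∈ T, i ≠ j → i ≠ j' → ∀ y,
      (s (cyc m i j))⁻¹ * y ∈ gen s z T → (s (cyc m i j'))⁻¹ * y ∈ gen s z T := by
    intro i hi j hj j' hj' h1 h2 y hy
    by_cases e : j = j'
    · rwa [← e]
    have e1 := S.mul i m j' j (by have := nm i hi; have := nm j hj; have := nm j' hj'; simp; tauto)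
    have e2 : (s (cyc m i j'))⁻¹ = s (cyc i m j') := by
      rw [← S.inv h8 (is3_cyc (nm i hi) (nm j' hj') h2), cyc_inv,
        cyc_rot h2.symm (nm j' hj').symm (nm i hi).symm]
    rw [← cyc_rot (nm i hi) (nm j hj) h1, ← e2] at e1
    have := mul_mem (mem_gen (s := s) z hi hj hj' h1 h2 e) hy
    rw [← e1] at this
    simpa [mul_assoc] using this
  let U : H → Prop := fun y => y ∈ gen s z T ∨
    ∃ i ∈ T, ∃ j ∈ T, i ≠ j ∧ (s (cyc m i j))⁻¹ * y ∈ gen s z T
  have hB : ∀ k ∈ T, ∀ l ∈ T, k ≠ l → ∀ y, U y → U (s (cyc m k l) * y) := by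
    rintro k hk l hl hkl y (hy | ⟨i, hi, j, hj, hij, hy⟩)
    · exact Or.inr ⟨k, hk, l, hl, hkl, by simpa using hy⟩
    have i1 := is3_cyc (nm k hk) (nm l hl) hkl
    have e1 : s (cyc m l k) = (s (cyc m k l))⁻¹ := by
      rw [← S.inv h8 i1, cyc_inv, cyc_rot hkl.symm (nm l hl).symm (nm k hk).symm,
        cyc_rot (nm k hk).symm hkl (nm l hl)]
    by_cases e : i = l
    · subst e
      have := hA i hi j hj k hk hij hkl.symm y hy
      rw [e1, inv_inv] at this
      exact Or.inl this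
    by_cases e' : i = k
    · subst e'
      refine Or.inr ⟨l, hl, i, hk, hkl.symm, ?_⟩
      have := mul_mem hzK (hA i hi j hj l hl hij hkl y hy)
      rw [e1, inv_inv]
      convert this using 1
      rw [← hz3 _ i1, pow_succ, sq]
      group
    · refine Or.inr ⟨i, hi, l, hl, e, ?_⟩
      have := hA i hi j hj k hk hij e' y hy
      rw [← S.mul m k l i (by have := nm i hi; have := nm k hk; have := nm l hl; simp; tauto)]
      simpa [mul_assoc] using this
  have hC : ∀ x ∈ insert z (s '' cycs (insert m T)), ∀ y, U y → U (x * y) := by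
    rintro _ (rfl | ⟨_, ⟨a, ha, b, hb, c, hc, hab, hac, hbc, rfl⟩, rfl⟩) y hy
    · rcases hy with hy | ⟨i, hi, j, hj, hij, hy⟩
      · exact Or.inl (mul_mem hzK hy)
      · refine Or.inr ⟨i, hi, j, hj, hij, ?_⟩
        rw [← mul_assoc, C.cen _ hz, mul_assoc]
        exact mul_mem hzK hy
    replace ha := mem_insert.1 ha
    rcases ha with rfl | ha
    · exact hB b (mem_of_mem_insert_of_ne hb hab.symm) c (mem_of_mem_insert_of_ne hc hac.symm)
        hbc y hy
    replace hb := mem_insert.1 hb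
    rcases hb with rfl | hb
    · rw [cyc_rot hab hac hbc]
      exact hB c (mem_of_mem_insert_of_ne hc hbc.symm) a ha hac.symm y hy
    replace hc := mem_insert.1 hc
    rcases hc with rfl | hc
    · rw [cyc_rot hab hac hbc, cyc_rot hbc hab.symm hac.symm]
      exact hB a ha b hb hab y hy
    have h1 := mem_gen (s := s) z ha hb hc hab hac hbc
    rcases hy with hy | ⟨i, hi, j, hj, hij, hy⟩
    · exact Or.inl (mul_mem h1 hy)
    · have h2 := S.cnj (s (cyc a b c)) _ (is3_cyc (nm i hi) (nm j hj) hij)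
      rw [cyc_conj, S.apply_of_mem_gen hz h1 hm, S.map _ (is3_cyc hab hac hbc)] at h2
      have h3 : ∀ x ∈ T, cyc a b c x ∈ T := fun x hx => by
        by_cases e1 : x = a
        · rwa [e1, cyc_fst hab hac]
        by_cases e2 : x = b
        · rwa [e2, cyc_snd hac hbc]
        by_cases e3 : x = c
        · rwa [e3, cyc_thd]
        · rwa [cyc_of_ne e1 e2 e3]
      refine Or.inr ⟨_, h3 i hi, _, h3 j hj, (cyc a b c).injective.ne hij, ?_⟩
      rw [← h2]
      simpa [mul_assoc] using mul_mem h1 hy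
  have hU : U k := by
    clear h
    induction hk using Subgroup.closure_induction_left with
    | one => exact Or.inl (one_mem _)
    | mul_left x hx y _ hy => exact hC x hx y hy
    | inv_mul_cancel x hx y _ hy =>
      refine hC x⁻¹ ?_ y hy
      rcases hx with rfl | ⟨_, ⟨a, ha, b, hb, c, hc, hab, hac, hbc, rfl⟩, rfl⟩
      · exact Or.inl (inv_eq_of_mul_eq_one_left hz2)
      · exact Or.inr ⟨_, ⟨c, hc, b, hb, a, ha, hbc.symm, hac.symm, hab.symm, rfl⟩,
          by rw [← cyc_inv, S.inv h8 (is3_cyc hab hac hbc)]⟩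
  rcases hU with hU | ⟨i, hi, j, hj, hij, hU⟩
  · exact hU
  have := S.apply_of_mem_gen hz hU hm
  rw [map_mul, map_inv, Perm.mul_apply, h, S.map _ (is3_cyc (nm i hi) (nm j hj) hij),
    Perm.inv_eq_iff_eq, cyc_fst (nm i hi) (nm j hj)] at this
  exact (nm i hi this).elim

end IsSec

/-- the Schur multiplier of `A_n`, `n ≥ 8`, has order at most two -/
theorem IsCov.exists_ker_pair (C : IsCov π) (h8 : 8 ≤ Fintype.card α) (hp : commutator H = ⊤) :
    ∃ z : H, π z = 1 ∧ z * z = 1 ∧ ∀ h, π h = 1 → h = 1 ∨ h = z := by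
  obtain ⟨s, S⟩ := C.exists_isSec h8
  obtain ⟨z, hz, hz2, hz3⟩ := S.exists_cube C h8
  refine ⟨z, hz, hz2, fun h hh => ?_⟩
  have h1 : h ∈ IsSec.gen s z univ := by
    refine commutator_le_of_cen (fun g => ?_) (hp ▸ Subgroup.mem_top h)
    have : Subgroup.closure (cycs univ) ≤ (IsSec.gen s z univ).map π := by
      refine (Subgroup.closure_le _).2 ?_
      rintro _ ⟨a, ha, b, hb, c, hc, hab, hac, hbc, rfl⟩
      exact ⟨_, IsSec.mem_gen z ha hb hc hab hac hbc, S.map _ (is3_cyc hab hac hbc)⟩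
    obtain ⟨k, hk, e⟩ := this (mem_closure_cycs (C.mem g) (subset_univ _))
    exact ⟨k, hk, C.exists_cen e.symm⟩
  have h2 : ∀ T : Finset α, h ∈ IsSec.gen s z T → h ∈ IsSec.gen s z ∅ := by
    intro T
    induction T using Finset.induction_on with
    | empty => exact id
    | insert m T hm ih => exact fun h => ih (S.mem_gen_of_fix C h8 hz hz2 hz3 hm h (by simp [hh]))
  have h3 := h2 _ h1
  rw [IsSec.gen, show cycs (∅ : Finset α) = ∅ by simp [cycs], Set.image_empty,
    insert_empty_eq] at h3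
  clear h1 h2 hh
  induction h3 using Subgroup.closure_induction_left with
  | one => exact Or.inl rfl
  | mul_left x hx y _ hy =>
    obtain rfl : x = z := hx
    rcases hy with rfl | rfl <;> simp [hz2]
  | inv_mul_cancel x hx y _ hy =>
    obtain rfl : x = z := hx
    rcases hy with rfl | rfl <;> simp [inv_eq_of_mul_eq_one_left hz2, hz2]

end AltCov
end Cfsg
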