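import Cfsg.Agent.Spin.Cliff
import Cfsg.Agent.Spin.Schur2

/-! The spin double cover of the symmetric group; uniqueness of the double cover of `A_n`. -/

set_option autoImplicit false
set_option linter.unusedSectionVars false

namespace Cfsg
namespace AltCov

open Equiv Finset Cliff
open scoped commutatorElement

variable {α : Type} [Fintype α] [DecidableEq α]

theorem commutatorElement_mul_cen {Γ : Type*} [Group Γ] (a b : Γ) {z w : Γ}
    (hz : ∀ x, x * z = z * x) (hw : ∀ x, x * w = w * x) : ⁅a * z, b * w⁆ = ⁅a, b⁆ := by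
  rw [commutatorElement_def, commutatorElement_def]
  calc a * z * (b * w) * (a * z)⁻¹ * (b * w)⁻¹
      = a * (z * (b * w)) * z⁻¹ * (a⁻¹ * w⁻¹ * b⁻¹) := by group
    _ = a * b * (w * a⁻¹) * w⁻¹ * b⁻¹ := by rw [← hz]; group
    _ = _ := by rw [← hw]; group

theorem commutator_eq_top_of_range {A Γ : Type*} [Group A] [Group Γ] (f : A →* Γ)
    (hf : Function.Injective f) (h : ⁅f.range, f.range⁆ = f.range) : commutator A = ⊤ := by
  apply Subgroup.map_injective hf
  rw [map_commutator_eq, h, MonoidHom.range_eq_map]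

theorem perfect_core (h5 : 5 ≤ Fintype.card α) {Γ : Type*} [Group Γ] (φ : Γ →* Perm α)
    (hφ : ∀ x, φ x = 1 → ∀ g, g * x = x * g) {U : Subgroup Γ}
    (hU : U.map φ = alternatingGroup α) :
    IsCov (φ.comp ⁅U, U⁆.subtype) ∧ ⁅⁅U, U⁆, ⁅U, U⁆⁆ = ⁅U, U⁆ := by
  have h1 : ⁅U, U⁆.map φ = alternatingGroup α := by
    rw [Subgroup.map_commutator, hU,
      commutator_alternatingGroup_eq_self (by rwa [Nat.card_eq_fintype_card])]
  refine ⟨⟨fun h => h1 ▸ ⟨h, h.2, rfl⟩, fun σ hσ => ?_, fun h hh g => Subtype.ext (hφ h hh g)⟩,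
    le_antisymm (Subgroup.commutator_mono (Subgroup.commutator_le_self U)
      (Subgroup.commutator_le_self U)) (Subgroup.commutator_le.2 fun a ha b hb => ?_)⟩
  · obtain ⟨x, hx, rfl⟩ := h1.ge hσ
    exact ⟨⟨x, hx⟩, rfl⟩
  · obtain ⟨x, hx, e1⟩ := (hU.trans h1.symm).le ⟨a, ha, rfl⟩
    obtain ⟨y, hy, e2⟩ := (hU.trans h1.symm).le ⟨b, hb, rfl⟩
    have := commutatorElement_mul_cen x y (hφ (x⁻¹ * a) (by simp [e1])) (hφ (y⁻¹ * b) (by simp [e2]))
    rw [mul_inv_cancel_left, mul_inv_cancel_left] at this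
    rw [this]
    exact Subgroup.commutator_mem_commutator hx hy

theorem IsCov.bijective_of {H K : Type*} [Group H] [Group K] {π : H →* Perm α}
    {φ : K →* Perm α} (C : IsCov φ) (h8 : 8 ≤ Fintype.card α) (hp : commutator K = ⊤)
    (q : K →* H) (hq : Function.Surjective q) (e : ∀ x, π (q x) = φ x) {z : H} (hz : π z = 1)
    (hz1 : z ≠ 1) : Function.Bijective q := by
  refine ⟨(injective_iff_map_eq_one q).2 fun x hx => ?_, hq⟩
  obtain ⟨w, -, -, hw⟩ := C.exists_ker_pair h8 hp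
  obtain ⟨y, rfl⟩ := hq z
  rcases hw y (by rw [← e, hz]) with rfl | rfl
  · exact (hz1 (map_one q)).elim
  · exact (hw x (by rw [← e, hx, map_one])).resolve_right (by rintro rfl; exact hz1 hx)

theorem surjective_comp_commutator {P H : Type*} [Group P] [Group H] (q : P →* H)
    (hq : Function.Surjective q) (hH : commutator H = ⊤) :
    Function.Surjective (q.comp (commutator P).subtype) := by
  intro h
  have : h ∈ (commutator P).map q := by
    rw [map_commutator_eq, MonoidHom.range_eq_top.2 hq, ← commutator_def, hH]; trivial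
  obtain ⟨x, hx, rfl⟩ := this
  exact ⟨⟨x, hx⟩, rfl⟩

/-- uniqueness of the double cover -/
theorem IsCov.exists_mulEquiv {H₁ H₂ : Type*} [Group H₁] [Group H₂] {π₁ : H₁ →* Perm α}
    {π₂ : H₂ →* Perm α} (C₁ : IsCov π₁) (C₂ : IsCov π₂) (h8 : 8 ≤ Fintype.card α)
    (p₁ : commutator H₁ = ⊤) (p₂ : commutator H₂ = ⊤) {z₁ : H₁} {z₂ : H₂} (k₁ : π₁ z₁ = 1)
    (k₂ : π₂ z₂ = 1) (n₁ : z₁ ≠ 1) (n₂ : z₂ ≠ 1) : ∃ e : H₁ ≃* H₂, ∀ h, π₂ (e h) = π₁ h := by
  let P : Subgroup (H₁ × H₂) :=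
    (π₁.comp (MonoidHom.fst _ _)).eqLocus (π₂.comp (MonoidHom.snd _ _))
  let q₁ : P →* H₁ := (MonoidHom.fst _ _).comp P.subtype
  let q₂ : P →* H₂ := (MonoidHom.snd _ _).comp P.subtype
  have s₁ : Function.Surjective q₁ := fun h => by
    obtain ⟨k, hk⟩ := C₂.surj _ (C₁.mem h)
    exact ⟨⟨(h, k), hk.symm⟩, rfl⟩
  have s₂ : Function.Surjective q₂ := fun h => by
    obtain ⟨k, hk⟩ := C₁.surj _ (C₂.mem h)
    exact ⟨⟨(k, h), hk⟩, rfl⟩
  obtain ⟨C, hC⟩ := perfect_core (by omega) (π₁.comp q₁) (U := ⊤)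
    (fun x hx g => Subtype.ext (Prod.ext (C₁.cen _ hx _) (C₂.cen _ (x.2.symm.trans hx) _)))
    (le_antisymm (by rintro _ ⟨x, -, rfl⟩; exact C₁.mem _) fun σ hσ => by
      obtain ⟨h, rfl⟩ := C₁.surj σ hσ
      obtain ⟨x, rfl⟩ := s₁ h
      exact ⟨x, trivial, rfl⟩)
  have hp := commutator_eq_top_of_range (commutator P).subtype Subtype.val_injective
    (by rw [Subgroup.range_subtype]; exact hC)
  have b₁ := C.bijective_of h8 hp _ (surjective_comp_commutator q₁ s₁ p₁) (fun _ => rfl) k₁ n₁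
  have b₂ := C.bijective_of h8 hp _ (surjective_comp_commutator q₂ s₂ p₂) (fun x => x.1.2.symm) k₂ n₂
  refine ⟨(MulEquiv.ofBijective _ b₁).symm.trans (MulEquiv.ofBijective _ b₂), fun h => ?_⟩
  obtain ⟨x, rfl⟩ := (MulEquiv.ofBijective _ b₁).surjective h
  rw [MulEquiv.trans_apply, MulEquiv.symm_apply_apply]
  exact x.1.2.symm

variable {κ β : Type} [Fintype κ] [DecidableEq κ]

/-- the spin double cover of the symmetric group with its basic representation -/
structure IsSpin (γ : α ⊕ β → Matrix κ κ ℂ) {G : Type} [Group G] (π : G →* Perm α)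
    (ρ : G →* Matrix κ κ ℂ) (z : G) : Prop where
  gam : Gamma γ
  lifts : ∀ g, Lifts γ (π g) (ρ g)
  surj : Function.Surjective π
  ker : ∀ g, π g = 1 → g = 1 ∨ g = z
  πz : π z = 1
  ρz : ρ z = -1
  perf : commutator ((alternatingGroup α).comap π) = ⊤

variable {γ : α ⊕ β → Matrix κ κ ℂ}

theorem neg_one_ne_one_mat [Nonempty κ] : (-1 : Matrix κ κ ℂ) ≠ 1 := by
  obtain ⟨i⟩ := ‹Nonempty κ›
  intro h
  have := congrFun (congrFun h i) i
  norm_num at this

theorem _root_.Cfsg.Cliff.Lifts.mul_tt {σ : Perm α} (hσ : σ ∈ alternatingGroup α)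
    {M : Matrix κ κ ℂ} (h : Lifts γ σ M) (a b : α) : M * tt γ a b = tt γ (σ a) (σ b) * M := by
  rw [tt, tt, Matrix.mul_smul, Matrix.smul_mul, Matrix.mul_sub, Matrix.sub_mul, h, h, sC_of_mem hσ]
  simp

theorem _root_.Cfsg.Cliff.Gamma.tt_four (hγ : Gamma γ) {a b c d : α} (h : [a, b, c, d].Nodup) :
    tt γ a c * tt γ b d * (tt γ a b * tt γ c d) = -(tt γ a b * tt γ c d * (tt γ a c * tt γ b d)) := by
  simp only [List.nodup_cons, List.mem_cons, List.not_mem_nil, or_false, not_or] at h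
  obtain ⟨⟨hab, hac, had⟩, ⟨hbc, hbd⟩, hcd, -⟩ := h
  have h1 := (hγ.lifts_tt hac).mul (hγ.lifts_tt hbd)
  have h2 : swap a c * swap b d ∈ alternatingGroup α := by
    simp [Perm.mem_alternatingGroup, Perm.sign_swap hac, Perm.sign_swap hbd]
  rw [← Matrix.mul_assoc, h1.mul_tt h2, Matrix.mul_assoc, h1.mul_tt h2, ← Matrix.mul_assoc,
    hγ.tt_anti hac had hbc hbd]
  simp [swap_apply_of_ne_of_ne hab had, swap_apply_of_ne_of_ne (Ne.symm hbc) hcd,
    swap_apply_of_ne_of_ne (Ne.symm had) (Ne.symm hcd), swap_apply_of_ne_of_ne (Ne.symm hab) hbc]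

omit [Fintype α] in
theorem swap_four_comm {a b c d : α} (h : [a, b, c, d].Nodup) :
    swap a b * swap c d * (swap a c * swap b d) = swap a c * swap b d * (swap a b * swap c d) := by
  simp only [List.nodup_cons, List.mem_cons, List.not_mem_nil, or_false, not_or] at h
  obtain ⟨⟨hab, hac, had⟩, ⟨hbc, hbd⟩, hcd, -⟩ := h
  ext x
  simp only [Perm.mul_apply, swap_apply_def]
  grind

theorem exists_isSpin [Nonempty κ] (hγ : Gamma γ) (h8 : 8 ≤ Fintype.card α) :
    ∃ (G : Type) (_ : Group G) (_ : Finite G) (π : G →* Perm α) (ρ : G →* Matrix κ κ ℂ) (z : G),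
      IsSpin γ π ρ z := by
  let E : Subgroup (Perm α × (Matrix κ κ ℂ)ˣ) :=
    { carrier := {x | Lifts γ x.1 x.2}
      one_mem' := Lifts.one
      mul_mem' := fun h h' => h.mul h'
      inv_mem' := fun {x} h => Lifts.inv h x.2.mul_inv }
  let φ : E →* Perm α := (MonoidHom.fst _ _).comp E.subtype
  let ψ : E →* Matrix κ κ ℂ := (Units.coeHom _).comp ((MonoidHom.snd _ _).comp E.subtype)
  have hl : ∀ x : E, Lifts γ (φ x) (ψ x) := fun x => x.2
  have ext : ∀ x y : E, φ x = φ y → ψ x = ψ y → x = y := fun x y h1 h2 =>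
    Subtype.ext (Prod.ext h1 (Units.ext h2))
  have mk : ∀ σ M M', Lifts γ σ M → M * M' = 1 → ∃ x : E, φ x = σ ∧ ψ x = M := fun σ M M' h h' =>
    ⟨⟨(σ, ⟨M, M', h', mul_eq_one_comm.1 h'⟩), h⟩, rfl, rfl⟩
  have hφ : ∀ x, φ x = 1 → ∀ g, g * x = x * g := fun x hx g => by
    obtain ⟨c, hc⟩ := (hx ▸ hl x).exists_smul hγ
    exact ext _ _ (by simp [hx]) (by simp [hc])
  have hs : Function.Surjective φ := fun σ => by
    obtain ⟨M, M', h, h'⟩ := hγ.exists_lifts σ
    obtain ⟨x, hx, -⟩ := mk σ M M' h h'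
    exact ⟨x, hx⟩
  set U := (alternatingGroup α).comap φ with hU
  obtain ⟨C, hC⟩ := perfect_core (by omega) φ hφ (U := U) (Subgroup.map_comap_eq_self_of_surjective hs _)
  set N := ⁅U, U⁆ with hN
  have hNn : N.Normal := inferInstance
  obtain ⟨w, -, -, hw⟩ := C.exists_ker_pair h8
    (commutator_eq_top_of_range N.subtype Subtype.val_injective (by rwa [Subgroup.range_subtype]))
  obtain ⟨f⟩ : Nonempty (Fin 4 ↪ α) := Function.Embedding.nonempty_of_card_le (by simp; omega)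
  have ne : ∀ i j, i ≠ j → f i ≠ f j := fun i j h => f.injective.ne h
  have ht : ∀ i j, i ≠ j → ∃ x : E, φ x = swap (f i) (f j) ∧ ψ x = tt γ (f i) (f j) :=
    fun i j h => mk _ _ _ (hγ.lifts_tt (ne i j h)) (hγ.tt_mul_self (ne i j h))
  obtain ⟨t, ht1, ht2⟩ := ht 0 1 (by decide)
  obtain ⟨t₁, h11, h12⟩ := ht 2 3 (by decide)
  obtain ⟨t₂, h21, h22⟩ := ht 0 2 (by decide)
  obtain ⟨t₃, h31, h32⟩ := ht 1 3 (by decide)
  obtain ⟨m, hm1, hm2⟩ := mk 1 (-1) (-1) Lifts.one.neg (by simp)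
  have sw : ∀ i j, i ≠ j → Perm.sign (swap (f i) (f j)) = -1 := fun i j h =>
    Perm.sign_swap (ne i j h)
  have hnd : [f 0, f 1, f 2, f 3].Nodup := by simp
  have hmN : m ∈ N := by
    have : m = ⁅t₂ * t₃, t * t₁⁆ := by
      rw [commutatorElement_def, eq_mul_inv_iff_mul_eq, eq_mul_inv_iff_mul_eq]
      refine ext _ _ ?_ ?_
      · simp only [map_mul, hm1, ht1, h11, h21, h31, one_mul]
        exact swap_four_comm hnd
      · simp only [map_mul, hm2, ht2, h12, h22, h32]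
        rw [hγ.tt_four hnd]
        simp
    rw [this]
    refine Subgroup.commutator_mem_commutator ?_ ?_ <;>
      simp [hU, Perm.mem_alternatingGroup, ht1, h11, h21, h31, sw]
  have htt : t * t = 1 := ext _ _ (by simp [ht1]) (by
    rw [map_mul, ht2, hγ.tt_mul_self (ne 0 1 (by decide)), map_one])
  have hti : t⁻¹ = t := inv_eq_of_mul_eq_one_left htt
  let G : Subgroup E :=
    { carrier := {x | x ∈ N ∨ x * t ∈ N}
      one_mem' := Or.inl (one_mem _)
      mul_mem' := by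
        rintro x y (hx | hx) (hy | hy)
        · exact Or.inl (mul_mem hx hy)
        · exact Or.inr (by rw [mul_assoc]; exact mul_mem hx hy)
        · refine Or.inr ?_
          have := mul_mem hx (hNn.conj_mem y hy t⁻¹)
          rwa [inv_inv, ← mul_assoc, ← mul_assoc, mul_inv_cancel_right] at this
        · refine Or.inl ?_
          have := mul_mem hx (hNn.conj_mem _ hy t⁻¹)
          rwa [inv_inv, ← mul_assoc, ← mul_assoc, mul_inv_cancel_right, mul_assoc, mul_assoc, htt,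
            mul_one] at this
      inv_mem' := by
        rintro x (hx | hx)
        · exact Or.inl (inv_mem hx)
        · refine Or.inr ?_
          have := hNn.conj_mem _ (inv_mem hx) t
          rwa [mul_inv_rev, mul_inv_cancel_left, hti] at this }
  have hev : ∀ x : G, φ x ∈ alternatingGroup α → (x : E) ∈ N := fun x hx => by
    refine x.2.resolve_right fun h => ?_
    have := (mul_mem_cancel_left hx).1 (map_mul φ _ _ ▸ C.mem ⟨_, h⟩)
    simp [ht1, Perm.mem_alternatingGroup, sw] at this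
  have hm0 : m ≠ 1 := fun h => neg_one_ne_one_mat (κ := κ) (by rw [← hm2, h, map_one])
  have hker : ∀ g : G, φ g = 1 → g = 1 ∨ g = ⟨m, Or.inl hmN⟩ := fun g hg => by
    have h1 := (hw ⟨m, hmN⟩ hm1).resolve_left fun h => hm0 (congrArg (fun x : N => (x : E)) h)
    rcases hw ⟨g, hev g (hg ▸ one_mem _)⟩ hg with h | h
    · exact Or.inl (Subtype.ext (congrArg (fun x : N => (x : E)) h))
    · exact Or.inr (Subtype.ext (congrArg (fun x : N => (x : E)) (h.trans h1.symm)))
  refine ⟨G, inferInstance, ?_, φ.comp G.subtype, ψ.comp G.subtype, ⟨m, Or.inl hmN⟩, hγ,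
    fun g => hl g, fun σ => ?_, hker, hm1, hm2, ?_⟩
  · refine (φ.comp G.subtype).finite_iff_finite_ker_range.2 ⟨?_, inferInstance⟩
    exact (Set.toFinite {1, (⟨m, Or.inl hmN⟩ : G)}).subset fun g hg => hker g hg
  · by_cases hσ : σ ∈ alternatingGroup α
    · obtain ⟨x, hx⟩ := C.surj σ hσ
      exact ⟨⟨x, Or.inl x.2⟩, hx⟩
    · obtain ⟨x, hx⟩ := C.surj (σ * φ t) (by
        rw [Perm.mem_alternatingGroup] at hσ ⊢
        simp [ht1, sw, (Int.units_eq_one_or _).resolve_left hσ])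
      refine ⟨⟨x * t, Or.inr (by rw [mul_assoc, htt, mul_one]; exact x.2)⟩, ?_⟩
      change φ (x * t) = σ
      rw [map_mul, show φ x = _ from hx, mul_assoc, ← map_mul, htt, map_one, mul_one]
  · have hr : (G.subtype.comp ((alternatingGroup α).comap (φ.comp G.subtype)).subtype).range =
        N := by
      refine le_antisymm ?_ fun x hx => ⟨⟨⟨x, Or.inl hx⟩, C.mem ⟨x, hx⟩⟩, rfl⟩
      rintro _ ⟨x, rfl⟩
      exact hev x x.2
    exact commutator_eq_top_of_range _ (Subtype.val_injective.comp Subtype.val_injective)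
      (by rw [hr, hC])

end AltCov
end Cfsg
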