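import Cfsg.Agent.Spin.PermBase
import Cfsg.Agent.Spin.SpinGrp

/-! Involutions in symmetric groups. -/

set_option autoImplicit false
set_option linter.unusedSectionVars false

namespace Cfsg
namespace AltCov

open Equiv Finset

variable {α : Type} [Fintype α] [DecidableEq α] {σ τ τ' g x : Perm α} {a b c d : α}

theorem apply_apply_of_sq (hσ : σ ^ 2 = 1) (a : α) : σ (σ a) = a := by
  rw [← Perm.mul_apply, ← pow_two, hσ, Perm.one_apply]

theorem swap_mem_bas (hσ : σ ^ 2 = 1) (a : α) : swap a (σ a) ∈ bas σ := by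
  refine ⟨by rw [mul_swap_eq_swap_mul, apply_apply_of_sq hσ, swap_comm], fun b => ?_⟩
  rw [swap_apply_def]
  split_ifs with h1 h2
  · exact ⟨1, by simp [h1]⟩
  · exact ⟨1, by simp [h2, apply_apply_of_sq hσ]⟩
  · exact Perm.SameCycle.refl _ _

theorem eq_or_eq_of_sameCycle (hσ : σ ^ 2 = 1) (h : σ.SameCycle a b) : b = a ∨ b = σ a := by
  obtain ⟨k, rfl⟩ := h.exists_nat_pow_eq
  rcases Nat.even_or_odd' k with ⟨k, rfl | rfl⟩ <;> simp [pow_succ, pow_mul, hσ]

theorem comm_swap (hσ : σ ^ 2 = 1) (hg : g * σ = σ * g) (h : g a = a ∨ g a = σ a) :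
    g * swap a (σ a) = swap a (σ a) * g := by
  rw [mul_swap_eq_swap_mul, ← Perm.mul_apply g, hg, Perm.mul_apply]
  rcases h with h | h <;> simp [h, apply_apply_of_sq hσ, swap_comm]

theorem swap_mul_swap_mem (hab : a ≠ b) (hcd : c ≠ d) :
    swap a b * swap c d ∈ alternatingGroup α := by
  simp [Perm.mem_alternatingGroup, Perm.sign_swap hab, Perm.sign_swap hcd]

theorem exists_fixed_swap {K : Type*} [Group K] (hK : IsPGroup 2 K) (φ : K →* Perm α)
    (hσ : σ ^ 2 = 1) (h : σ ∉ alternatingGroup α) (hc : ∀ k, φ k * σ = σ * φ k) :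
    ∃ a, σ a ≠ a ∧ ∀ k, φ k * swap a (σ a) = swap a (σ a) * φ k := by
  obtain ⟨w, hw, -⟩ := exists_cycleType_eq Nat.prime_two hσ
  let f := (Perm.OnCycleFactors.toPermHom σ).comp (φ.codRestrict (Subgroup.centralizer {σ})
    fun k => Subgroup.mem_centralizer_singleton_iff.2 (hc k))
  let := MulAction.compHom σ.cycleFactorsFinset f
  obtain ⟨⟨c, hc⟩, hf⟩ := hK.nonempty_fixed_point_of_prime_not_dvd_card σ.cycleFactorsFinset (by
    rintro ⟨k, hk⟩
    have : w = 2 * k := by simpa [← hk, Perm.cycleType_def] using congrArg Multiset.card hw.symm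
    apply h
    simp [Perm.mem_alternatingGroup, Perm.sign_of_cycleType, hw, this, pow_add, pow_mul])
  obtain ⟨a, b, hab, rfl⟩ := Perm.card_support_eq_two.1 (Multiset.eq_of_mem_replicate (n := w) (by
    rw [← hw, Perm.cycleType_def]; exact Multiset.mem_map_of_mem _ hc))
  have : σ a = b := by
    rw [← (Perm.mem_cycleFactorsFinset_iff.1 hc).2 a (by simp [hab.symm]), swap_apply_left]
  refine ⟨a, this ▸ hab.symm, fun k => ?_⟩
  rw [this, ← mul_inv_eq_iff_eq_mul]
  exact congrArg Subtype.val (hf k)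

/-- the Klein four group attached to a double transposition -/
def V4 (x : Perm α) : Subgroup (Perm α) where
  carrier := {τ | τ ∈ alternatingGroup α ∧ τ * x = x * τ ∧ ∀ a, x a = a → τ a = a}
  one_mem' := ⟨one_mem _, by simp, by simp⟩
  mul_mem' := fun {τ τ'} h h' => ⟨mul_mem h.1 h'.1, (Commute.mul_left h.2.1 h'.2.1 :),
    fun a ha => by simp [h.2.2 a ha, h'.2.2 a ha]⟩
  inv_mem' := fun {τ} h => ⟨inv_mem h.1, (Commute.inv_left h.2.1 :), fun a ha => by
    rw [Perm.inv_eq_iff_eq, h.2.2 a ha]⟩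

theorem V4_conj (hg : g * x = x * g) (hτ : τ ∈ V4 x) : g * τ * g⁻¹ ∈ V4 x := by
  refine ⟨(alternatingGroup.normal).conj_mem _ hτ.1 _,
    ((Commute.mul_left hg hτ.2.1).mul_left (Commute.inv_left hg) :), fun a ha => ?_⟩
  rw [Perm.mul_apply, Perm.mul_apply, hτ.2.2 _ (not_not.1
    (mt (apply_ne_of_comm (Commute.inv_left hg)).1 (not_not.2 ha)))]
  simp

section four
variable (h : [a, b, c, d].Nodup)
include h

omit [Fintype α] in
theorem dbl_apply_ne {y : α} :
    (swap a b * swap c d) y ≠ y ↔ y = a ∨ y = b ∨ y = c ∨ y = d := by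
  simp only [List.nodup_cons, List.mem_cons, List.not_mem_nil, or_false, not_or] at h
  simp only [Perm.mul_apply, swap_apply_def]
  grind

omit [Fintype α] in
theorem dbl_apply : (swap a b * swap c d) a = b ∧ (swap a b * swap c d) b = a ∧
    (swap a b * swap c d) c = d ∧ (swap a b * swap c d) d = c ∧ (swap a c * swap b d) a = c ∧
    (swap a b * swap c d * (swap a c * swap b d)) a = d := by
  simp only [List.nodup_cons, List.mem_cons, List.not_mem_nil, or_false, not_or] at h
  simp only [Perm.mul_apply, swap_apply_def]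
  grind

omit [Fintype α] in
theorem dbl_sq : (swap a b * swap c d) ^ 2 = 1 ∧ (swap a c * swap b d) ^ 2 = 1 := by
  simp only [List.nodup_cons, List.mem_cons, List.not_mem_nil, or_false, not_or] at h
  constructor <;> ext y <;> simp only [pow_two, Perm.mul_apply, swap_apply_def, Perm.one_apply] <;>
    grind

theorem dbl_mem_V4 : swap a b * swap c d ∈ V4 (swap a b * swap c d) ∧
    swap a c * swap b d ∈ V4 (swap a b * swap c d) := by
  have h' := h
  simp only [List.nodup_cons, List.mem_cons, List.not_mem_nil, or_false, not_or] at h'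
  refine ⟨⟨swap_mul_swap_mem h'.1.1 h'.2.2.1, rfl, fun _ h => h⟩,
    swap_mul_swap_mem h'.1.2.1 h'.2.1.2, (swap_four_comm h).symm, fun y hy => ?_⟩
  have := mt (dbl_apply_ne h).2 (not_not.2 hy)
  simp only [Perm.mul_apply, swap_apply_def]
  grind

theorem V4_free (hτ : τ ∈ V4 (swap a b * swap c d)) (ha : τ a = a) : τ = 1 := by
  obtain ⟨h1, -, h3, h4, -⟩ := dbl_apply h
  have e : ∀ y, τ ((swap a b * swap c d) y) = (swap a b * swap c d) (τ y) := fun y =>
    congrArg (fun f : Perm α => f y) hτ.2.1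
  have hb : τ b = b := by rw [← h1, e, ha]
  have hd := e c
  have hc := (dbl_apply_ne h).1 ((apply_ne_of_comm hτ.2.1).2 ((dbl_apply_ne h (y := c)).2 (by simp)))
  have ho : ∀ y, y = a ∨ y = b ∨ y = c ∨ y = d ∨ τ y = y := fun y => by
    have := mt (hτ.2.2 y)
    have := (dbl_apply_ne h (y := y)).1
    tauto
  have hA := hτ.1
  simp only [List.nodup_cons, List.mem_cons, List.not_mem_nil, or_false, not_or] at h
  rcases hc with hc | hc | hc | hc
  · exact (h.1.2.1 (τ.injective (ha.trans hc.symm))).elim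
  · exact (h.2.1.1 (τ.injective (hb.trans hc.symm))).elim
  · ext y
    rw [hc, h3] at hd
    rcases ho y with rfl | rfl | rfl | rfl | h <;> simpa
  · rw [hc, h3, h4] at hd
    have : τ = swap c d := by
      ext y
      rw [swap_apply_def]
      have := τ.injective.eq_iff (a := y) (b := c)
      have := τ.injective.eq_iff (a := y) (b := d)
      have := ho y
      grind
    simp [this, Perm.mem_alternatingGroup, Perm.sign_swap h.2.2.1] at hA

theorem V4_cases (hτ : τ ∈ V4 (swap a b * swap c d)) : τ = 1 ∨ τ = swap a b * swap c d ∨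
    τ = swap a c * swap b d ∨ τ = swap a b * swap c d * (swap a c * swap b d) := by
  obtain ⟨h1, -, -, -, h2, h3⟩ := dbl_apply h
  obtain ⟨m1, m2⟩ := dbl_mem_V4 h
  have e : ∀ v ∈ V4 (swap a b * swap c d), τ a = v a → τ = v := fun v hv e =>
    (inv_mul_eq_one.1 (V4_free h (mul_mem (inv_mem hv) hτ) (by simp [e]))).symm
  rcases (dbl_apply_ne h).1 ((apply_ne_of_comm hτ.2.1).2 ((dbl_apply_ne h (y := a)).2 (by simp)))
    with h | h | h | h
  · exact Or.inl (e _ (one_mem _) h)
  · exact Or.inr (Or.inl (e _ m1 (h.trans h1.symm)))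
  · exact Or.inr (Or.inr (Or.inl (e _ m2 (h.trans h2.symm))))
  · exact Or.inr (Or.inr (Or.inr (e _ (mul_mem m1 m2) (h.trans h3.symm))))

theorem V4_sq (hτ : τ ∈ V4 (swap a b * swap c d)) : τ ^ 2 = 1 := by
  rcases V4_cases h hτ with rfl | rfl | rfl | rfl
  · simp
  · exact (dbl_sq h).1
  · exact (dbl_sq h).2
  · rw [Commute.mul_pow (swap_four_comm h), (dbl_sq h).1, (dbl_sq h).2, mul_one]

theorem V4_comm (hτ : τ ∈ V4 (swap a b * swap c d)) (hτ' : τ' ∈ V4 (swap a b * swap c d)) :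
    τ * τ' = τ' * τ := by
  have e : ∀ v ∈ V4 (swap a b * swap c d), v⁻¹ = v := fun v hv =>
    inv_eq_of_mul_eq_one_left (pow_two v ▸ V4_sq h hv)
  rw [← e _ (mul_mem hτ hτ'), mul_inv_rev, e _ hτ, e _ hτ']

theorem V4_trans {y : α} (hy : (swap a b * swap c d) y ≠ y) :
    ∃ v ∈ V4 (swap a b * swap c d), v a = y := by
  obtain ⟨h1, -, -, -, h2, h3⟩ := dbl_apply h
  obtain ⟨m1, m2⟩ := dbl_mem_V4 h
  rcases (dbl_apply_ne h).1 hy with rfl | rfl | rfl | rfl
  exacts [⟨1, one_mem _, rfl⟩, ⟨_, m1, h1⟩, ⟨_, m2, h2⟩, ⟨_, mul_mem m1 m2, h3⟩]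

theorem exists_V4_agree (hg : ∀ v ∈ V4 (swap a b * swap c d), g * v = v * g) :
    ∃ v ∈ V4 (swap a b * swap c d), ∀ y, (swap a b * swap c d) y ≠ y → v y = g y := by
  obtain ⟨v, hv, e⟩ := V4_trans h
    ((apply_ne_of_comm (hg _ (dbl_mem_V4 h).1)).2 ((dbl_apply_ne h (y := a)).2 (by simp)))
  refine ⟨v, hv, fun y hy => ?_⟩
  obtain ⟨u, hu, rfl⟩ := V4_trans h hy
  rw [← Perm.mul_apply, V4_comm h hv hu, ← Perm.mul_apply g, hg u hu, Perm.mul_apply,
    Perm.mul_apply, e]

theorem card_V4_le : Nat.card (V4 (swap a b * swap c d)) ≤ 4 :=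
  (Set.ncard_le_ncard (t := ({1, swap a b * swap c d, swap a c * swap b d,
    swap a b * swap c d * (swap a c * swap b d)} : Finset (Perm α)))
    fun τ hτ => by simpa using V4_cases h hτ).trans (by
      rw [Set.ncard_coe_finset]; exact card_le_four)

end four

theorem exists_mem_support_ne (s : Finset α) (h : #s < #σ.support) : ∃ a, σ a ≠ a ∧ a ∉ s := by
  obtain ⟨a, h1, h2⟩ := exists_mem_notMem_of_card_lt_card h
  exact ⟨a, Perm.mem_support.1 h1, h2⟩

theorem nodup_pairs (hσ : σ ^ 2 = 1) (ha : σ a ≠ a) (hc : σ c ≠ c) (h1 : c ≠ a) (h2 : c ≠ σ a) :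
    [a, σ a, c, σ c].Nodup := by
  have := apply_apply_of_sq hσ a
  have := apply_apply_of_sq hσ c
  have := σ.injective.eq_iff (a := a) (b := c)
  simp only [List.nodup_cons, List.mem_cons, List.not_mem_nil, or_false, not_or]
  grind

theorem pair_fixed (hσ : σ ^ 2 = 1) (h6 : 4 < #σ.support)
    (hg : ∀ e ∈ bas σ, e ∈ alternatingGroup α → g * e = e * g) (ha : σ a ≠ a) :
    g a = a ∨ g a = σ a := by
  obtain ⟨c, hc, h1⟩ := exists_mem_support_ne (σ := σ) {a, σ a} (card_le_two.trans_lt (by omega))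
  obtain ⟨e, he, h2⟩ := exists_mem_support_ne (σ := σ) {a, σ a, c, σ c} (card_le_four.trans_lt h6)
  simp only [mem_insert, mem_singleton, not_or] at h1 h2
  have k : ∀ c, σ c ≠ c → c ≠ a → c ≠ σ a → g a = a ∨ g a = σ a ∨ g a = c ∨ g a = σ c :=
    fun c hc h1 h2 => (dbl_apply_ne (nodup_pairs hσ ha hc h1 h2)).1 ((apply_ne_of_comm
      (hg _ (mul_mem (swap_mem_bas hσ a) (swap_mem_bas hσ c)) (swap_mul_swap_mem ha.symm hc.symm))).2
      ((dbl_apply_ne (nodup_pairs hσ ha hc h1 h2)).2 (by simp)))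
  have k1 := k c hc h1.1 h1.2
  have k2 := k e he h2.1 h2.2.1
  have := nodup_pairs hσ hc he h2.2.2.1 h2.2.2.2
  simp only [List.nodup_cons, List.mem_cons, List.not_mem_nil, or_false, not_or] at this
  grind

theorem exists_pairs (hσ : σ ^ 2 = 1) (hA : σ ∈ alternatingGroup α) (ha : σ a ≠ a) :
    ∃ c, σ c ≠ c ∧ [a, σ a, c, σ c].Nodup := by
  by_contra! h
  have : σ = swap a (σ a) := by
    ext c
    rw [swap_apply_def]
    split_ifs with h1 h2
    · rw [h1]
    · rw [h2, apply_apply_of_sq hσ]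
    · by_contra hc
      exact h c hc (nodup_pairs hσ ha hc h1 h2)
  rw [this, Perm.mem_alternatingGroup, Perm.sign_swap ha.symm] at hA
  simp at hA

theorem eq_dbl (hσ : σ ^ 2 = 1) (h : [a, σ a, c, σ c].Nodup) (h4 : #σ.support ≤ 4) :
    σ = swap a (σ a) * swap c (σ c) := by
  have h1 : ({a, σ a, c, σ c} : Finset α) = σ.support := by
    refine eq_of_subset_of_card_le (fun y hy => ?_)
      (h4.trans (by simpa using (List.toFinset_card_of_nodup h).ge))
    have := apply_apply_of_sq hσ a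
    have := apply_apply_of_sq hσ c
    simp only [List.nodup_cons, List.mem_cons, List.not_mem_nil, or_false, not_or, mem_insert,
      mem_singleton, Perm.mem_support] at h hy ⊢
    grind
  obtain ⟨e1, e2, e3, e4, -⟩ := dbl_apply h
  ext y
  by_cases hy : σ y = y
  · rw [hy, eq_comm]
    by_contra h2
    have : y ∈ σ.support := by simpa [← h1] using (dbl_apply_ne h).1 h2
    exact Perm.mem_support.1 this hy
  · have := h1.ge (Perm.mem_support.2 hy)
    simp only [mem_insert, mem_singleton] at this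
    rcases this with rfl | rfl | rfl | rfl <;> simp only [e1, e2, e3, e4, apply_apply_of_sq hσ]

end AltCov
end Cfsg
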