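import Cfsg.Agent.Spin.Odd
import Cfsg.Agent.Spin.PermTwo
import Cfsg.Agent.Grp.Misc

/-! Robinson's bound for `2`-blocks of alternating groups. -/

set_option autoImplicit false
set_option linter.unusedSectionVars false

namespace Cfsg
namespace AltCov

open Equiv Finset SymCh SpinQ

variable {α : Type} [Fintype α] [DecidableEq α] {H : Type*} [Group H] [Finite H]
  {π : H →* Perm α} {M : Ideal AlgInt} {B : Set (IrrCharacter H)} {D : Subgroup H}

theorem IsCov.sym_bound_two (C : IsCov π) {χ : IrrCharacter H}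
    (hχ : ∀ z, π z = 1 → χ.1 z = χ.1 1) {h : H} (h0 : χ.1 h ≠ 0) {w : ℕ} (hw0 : 0 < w)
    (hw : 2 * w ≤ ((π h).cycleType.filter (2 ∣ ·)).sum) :
    (charDegree χ.1).factorization 2 + w ≤ (Fintype.card α).factorial.factorization 2 := by
  obtain ⟨χ₀, e⟩ := C.exists_comap χ hχ
  obtain ⟨r, hr⟩ := Multiset.exists_mem_of_ne_zero (s := (π h).cycleType.filter (2 ∣ ·))
    (fun e => by rw [e] at hw; simp at hw; omega)
  obtain ⟨hr, k, rfl⟩ := Multiset.mem_filter.1 hr
  obtain ⟨c, hc, hk⟩ := Multiset.mem_map.1 (Perm.cycleType_def (π h) ▸ hr)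
  rw [mem_val] at hc
  have hd := χ.one_eq_charDegree
  have h1 : χ₀.1 1 = χ.1 1 := by
    rw [e]; exact congrArg _ (Subtype.ext (map_one π).symm)
  obtain ⟨μ, hμ⟩ := typ_eq_add (π h) (2 ∣ ·)
  have key := fun (ψ : IrrCharacter (Perm α)) h0 => sym_defect Nat.prime_two ψ h0 hμ
    (fun r hr => (Multiset.mem_filter.1 hr).2) hw
  obtain ⟨ψ, ⟨hψ, -⟩ | hψ⟩ := exists_sym_over χ₀ (t := c) (by
    rw [Perm.mem_alternatingGroup, (Perm.mem_cycleFactorsFinset_iff.1 hc).1.sign,
      show #c.support = 2 * k from hk]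
    simp [pow_mul])
  · have := key ψ (fun e' => h0 (by rw [e, ← hψ, e']))
    rwa [charDegree_eq_of_one_eq (n := charDegree χ.1) (by rw [← hd, ← h1, ← hψ]; rfl)] at this
  · have := key ψ (fun e' => h0 (by
      have := hψ ⟨π h, C.mem h⟩
      rw [e', IrrCharacter.smul_apply] at this
      simp only [mul_assoc, ← (Perm.self_mem_cycle_factors_commute hc).eq, inv_mul_cancel_left,
        ← e] at this
      exact add_self_eq_zero.1 this.symm))
    rw [charDegree_eq_of_one_eq (n := 2 * charDegree χ.1) (by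
      have := hψ 1
      rw [IrrCharacter.smul_apply_one, h1, hd] at this
      push_cast
      rw [two_mul, ← this]; rfl), Nat.factorization_mul (by simp) χ.charDegree_pos.ne'] at this
    simp only [Finsupp.add_apply] at this
    omega

section
variable (C : IsCov π) (hi : Function.Injective π) (hM : IsPModular 2 M) (hB : IsPBlock M B)
  (hD : IsDefectGroup 2 M B D)
include hi hM hB hD

theorem comap_le_of_central {x : H} (hx : x ∈ D) (hc : D ≤ Subgroup.centralizer {x})
    {E : Subgroup (Perm α)} (h1 : ∀ e ∈ E, e ^ 2 = 1) (h2 : ∀ e ∈ E, e * π x = π x * e)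
    (h3 : ∀ g, g * π x = π x * g → ∀ e ∈ E, g * e * g⁻¹ ∈ E) : E.comap π ≤ D :=
  hD.le_of_central hM hB hx hc (fun e => ⟨1, Subtype.ext (hi (by simpa using h1 _ e.2))⟩)
    (fun e he => Subgroup.mem_centralizer_singleton_iff.2 (hi (by simpa using h2 _ he)))
    fun g hg e he => by
      have := congrArg π (Subgroup.mem_centralizer_singleton_iff.1 hg)
      simpa using h3 (π g) (by simpa using this) _ he

theorem comap_bas_le {x : H} (hx : x ∈ D) (hc : D ≤ Subgroup.centralizer {x}) (h2 : π x ^ 2 = 1) :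
    (bas (π x)).comap π ≤ D :=
  comap_le_of_central hi hM hB hD hx hc (fun _ he => bas_pow he h2) (fun _ he => he.1)
    fun _ hg _ => bas_conj hg

theorem comap_V4_le {x : H} (hx : x ∈ D) (hc : D ≤ Subgroup.centralizer {x}) {a b c d : α}
    (h : [a, b, c, d].Nodup) (e : π x = swap a b * swap c d) : (V4 (π x)).comap π ≤ D :=
  comap_le_of_central hi hM hB hD hx hc (fun _ he => V4_sq h (e ▸ he)) (fun _ he => he.2.1)
    fun _ hg _ => V4_conj hg

include C

theorem not_fix_two_pairs {y : H} (hy : y ∈ D) (hc : D ≤ Subgroup.centralizer {y})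
    (h2 : π y ^ 2 = 1) {a c : α} (h : [a, π y a, c, π y c].Nodup)
    (ha : ∀ g ∈ D, π g * swap a (π y a) = swap a (π y a) * π g)
    (hc' : ∀ g ∈ D, π g * swap c (π y c) = swap c (π y c) * π g) : False := by
  obtain ⟨m1, m2⟩ := dbl_mem_V4 h
  obtain ⟨x, hx⟩ := C.surj _ m1.1
  obtain ⟨g, hg⟩ := C.surj _ m2.1
  have hxD : x ∈ D := comap_bas_le hi hM hB hD hy hc h2
    (by rw [Subgroup.mem_comap, hx]; exact mul_mem (swap_mem_bas h2 _) (swap_mem_bas h2 _))
  have hgD : g ∈ D := comap_V4_le hi hM hB hD hxD (fun d hd =>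
    Subgroup.mem_centralizer_singleton_iff.2 (hi (by
      rw [map_mul, map_mul, hx]; exact Commute.mul_right (ha d hd) (hc' d hd)))) h hx
    (by rwa [Subgroup.mem_comap, hx, hg])
  have := congrArg (fun f : Perm α => f a) (ha g hgD)
  simp only [List.nodup_cons, List.mem_cons, List.not_mem_nil, or_false, not_or] at h
  simp only [hg, Perm.mul_apply, swap_apply_def] at this
  grind

theorem IsCov.robGoal_two_alt {χ : IrrCharacter H} (hχ : χ ∈ B) : RobGoal 2 B D χ := by
  have hi' : ∀ h, π h = 1 → h = 1 := (injective_iff_map_eq_one π).1 hi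
  obtain ⟨x, hx, hc, hxp, hm⟩ := exists_max_support π (fun h hh _ => hi' h hh) hD.isPGroup
  have hσ : π x ^ 2 = 1 := by rw [← map_pow, hxp, map_one]
  have hcx : ∀ d ∈ D, π d * π x = π x * π d := fun d hd => by
    simpa using congrArg π (Subgroup.mem_centralizer_singleton_iff.1 (hc hd))
  have hcard : ∀ E : Subgroup (Perm α), Nat.card (E.comap π) ≤
      Nat.card (E ⊓ alternatingGroup α : Subgroup (Perm α)) := fun E =>
    Nat.card_le_card_of_injective (fun e => ⟨π e, e.2, C.mem _⟩)
      fun a b h => Subtype.ext (hi (congrArg Subtype.val h))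
  have hag : ∀ {E : Subgroup (Perm α)}, E.comap π ≤ D → ∀ d ∈ D, ∀ e ∈ E,
      e ∈ alternatingGroup α → (∀ a, π x a ≠ a → e a = π d a) → d ∈ E.comap π := by
    intro E hE d hd e he he' h
    obtain ⟨e, rfl⟩ := C.surj e he'
    have := hm (e⁻¹ * d) (mul_mem (inv_mem (hE he)) hd) fun a ha => by simp [← h a ha]
    rwa [← inv_mul_eq_one.1 this]
  have hlt : ∀ {E : Subgroup H}, D ⊓ Subgroup.centralizer (D : Set H) ≤ E →
      ¬ E ≤ Subgroup.centralizer (D : Set H) → Nat.card (Subgroup.center D) < Nat.card E :=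
    fun h1 h2 => card_center_eq.trans_lt (Set.Finite.card_lt_card (Set.toFinite _)
      (SetLike.coe_ssubset_coe.2 (lt_of_le_of_ne h1 fun e => h2 (e ▸ inf_le_right))))
  by_cases h0 : ∀ a, π x a = a
  · obtain rfl : D = ⊥ := (Subgroup.eq_bot_iff_forall _).2 fun d hd =>
      hm d hd fun a ha => (ha (h0 a)).elim
    exact hD.robGoal_of_card_le hM hB hχ (by simp)
  push Not at h0
  obtain ⟨a, ha⟩ := h0
  obtain ⟨c, hc', hn⟩ := exists_pairs hσ (C.mem x) ha
  by_cases h4 : #(π x).support ≤ 4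
  · have e := eq_dbl hσ hn h4
    have hE := comap_V4_le hi hM hB hD hx hc hn e
    have h5 : Nat.card ((V4 (π x)).comap π) ≤ 4 :=
      (hcard _).trans ((Subgroup.card_le_of_le inf_le_left).trans (e ▸ card_V4_le hn))
    have h6 : ∀ d ∈ D, (∀ v ∈ (V4 (π x)).comap π, d * v = v * d) → d ∈ (V4 (π x)).comap π := by
      intro d hd h
      obtain ⟨v, hv, h7⟩ := exists_V4_agree hn (g := π d) fun v hv => by
        obtain ⟨v, rfl⟩ := C.surj v hv.1
        rw [← map_mul, h v (by rwa [Subgroup.mem_comap, e]), map_mul]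
      rw [← e] at hv h7
      exact hag hE d hd v hv hv.1 h7
    by_cases h8 : (V4 (π x)).comap π ≤ Subgroup.centralizer (D : Set H)
    · exact hD.robGoal_of_card_le hM hB hχ ((Subgroup.card_le_of_le fun d hd =>
        h6 d hd fun v hv => h8 hv d hd).trans h5)
    · have := (hlt (fun d hd => h6 d hd.1 fun v hv => (hd.2 v (hE hv)).symm) h8).trans_le h5
      obtain ⟨k, hk, -⟩ := hD.exists_center_pow hM hB
      refine hD.robGoal_of_center_le hM hB hχ ?_
      rw [hk] at this ⊢
      exact (Nat.pow_le_pow_right two_pos (Nat.lt_succ_iff.1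
        ((Nat.pow_lt_pow_iff_right one_lt_two).1 (show 2 ^ k < 2 ^ 2 from this))))
  push Not at h4
  have hE := comap_bas_le hi hM hB hD hx hc hσ
  have hfix : ∀ d : H, (∀ v ∈ (bas (π x)).comap π, d * v = v * d) → ∀ a, π x a ≠ a →
      π d a = a ∨ π d a = π x a := fun d h a => pair_fixed hσ h4 fun e he he' => by
    obtain ⟨e, rfl⟩ := C.surj e he'
    rw [← map_mul, h e he, map_mul]
  obtain ⟨w, hw, hw'⟩ := exists_cycleType_eq Nat.prime_two hσ
  obtain ⟨y, hy, hy', h0⟩ := hD.exists_section_ne_zero hM hB hx hc hχ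
  have h3 := C.sym_bound_two (fun z hz => by rw [hi' z hz]) h0 (w := w) (by omega) (by
    rw [← hw', map_mul]
    exact card_support_le_sum_filter Nat.prime_two hσ (hy.map π)
      fun h => hy' (h.trans (orderOf_map_dvd _ _)))
  have : Nontrivial α := ⟨_, _, ha⟩
  have h5 := (Nat.factorization_le_iff_dvd (Nat.factorial_ne_zero _)
    (mul_ne_zero two_ne_zero Nat.card_pos.ne')).2 C.factorial_dvd 2
  rw [Nat.factorization_mul two_ne_zero Nat.card_pos.ne', Finsupp.add_apply,
    Nat.prime_two.factorization_self] at h5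
  refine hD.robGoal_of_lt hM hB hχ (k := w - 1) (by omega) (lt_of_lt_of_le (hlt
    (E := (bas (π x)).comap π) (fun d hd => ?_) fun h => ?_) ((hcard _).trans ?_))
  · have h6 := hfix d fun v hv => (hd.2 v (hE hv)).symm
    obtain ⟨e, he, h7⟩ := exists_bas_agree (hcx d hd.1) fun a ha => by
      rcases h6 a ha with h | h <;> rw [h]
      exact ⟨1, by simp⟩
    refine hag hE d hd.1 e he (by_contra fun hA => ?_) h7
    have he2 := bas_pow he hσ
    have hdc : D ≤ Subgroup.centralizer {d} := fun g hg =>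
      Subgroup.mem_centralizer_singleton_iff.2 (hd.2 g hg)
    have hdg : ∀ g ∈ D, π g * π d = π d * π g := fun g hg => by
      rw [← map_mul, hd.2 g hg, map_mul]
    have hd2 : π d ^ 2 = 1 := by
      rw [← map_pow, hm (d ^ 2) (pow_mem hd.1 2) fun a ha => by
        rw [map_pow, pow_two, Perm.mul_apply, ← h7 _ ((apply_ne_of_comm (hcx d hd.1)).2 ha),
          ← h7 a ha, apply_apply_of_sq he2], map_one]
    have hge : ∀ g ∈ D, π g * e = e * π g := fun g hg => by
      ext a
      by_cases ha : π x a = a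
      · rw [Perm.mul_apply, Perm.mul_apply, bas_apply he ha, bas_apply he
          (not_not.1 (mt (apply_ne_of_comm (hcx g hg)).1 (not_not.2 ha)))]
      · rw [Perm.mul_apply, Perm.mul_apply, h7 a ha, h7 _ ((apply_ne_of_comm (hcx g hg)).2 ha),
          ← Perm.mul_apply, hdg g hg, Perm.mul_apply]
    obtain ⟨a, ha, h8⟩ := exists_fixed_swap hD.isPGroup (π.comp D.subtype) he2 hA
      fun g => hge g g.2
    obtain ⟨c, hc, h9⟩ := exists_fixed_swap hD.isPGroup (π.comp D.subtype) (σ := π d * e)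
      (by rw [Commute.mul_pow (hge d hd.1), hd2, he2, mul_one])
      (by rwa [mul_mem_cancel_left (C.mem d)]) fun g => Commute.mul_right (hdg g g.2) (hge g g.2)
    have ha' : π x a ≠ a := mt (bas_apply he) ha
    have hc' : π x c = c := by
      by_contra h
      exact hc (by rw [Perm.mul_apply, ← h7 _ ((apply_ne_of_comm he.1).2 h), apply_apply_of_sq he2])
    rw [Perm.mul_apply, bas_apply he hc'] at hc h9
    rw [h7 a ha'] at ha h8
    refine not_fix_two_pairs C hi hM hB hD hd.1 hdc hd2 (nodup_pairs hd2 ha hc ?_ ?_)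
      (fun g hg => h8 ⟨g, hg⟩) fun g hg => h9 ⟨g, hg⟩
    · rintro rfl; exact ha' hc'
    · rintro rfl; exact (apply_ne_of_comm (hcx d hd.1)).2 ha' hc'
  · have k : ∀ g ∈ D, ∀ a, π x a ≠ a → π g * swap a (π x a) = swap a (π x a) * π g :=
      fun g hg a ha => comm_swap hσ (hcx g hg) (hfix g (fun v hv => h hv g hg) a ha)
    exact not_fix_two_pairs C hi hM hB hD hx hc hσ hn (fun g hg => k g hg a ha)
      fun g hg => k g hg c hc'
  · have h6 := Nat.le_of_dvd Nat.card_pos (mul_card_dvd_of_lt_of_isPGroup (p := 2)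
      (K := bas (π x)) (fun e => ⟨1, Subtype.ext (by simpa using bas_pow e.2 hσ)⟩)
      (lt_of_le_of_ne (inf_le_left (b := alternatingGroup α)) fun e => by
        have := (e.ge (swap_mem_bas hσ a)).2
        simp [Perm.sign_swap ha.symm] at this))
    have h7 := card_bas_le (π x)
    rw [hw, Multiset.prod_replicate, ← Nat.sub_add_cancel (show 1 ≤ w by omega), pow_succ] at h7
    omega

end

end AltCov
end Cfsg
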