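import Cfsg.Agent.Spin.Odd
import Cfsg.Agent.Spin.PermTwo

/-! Centres of defect groups of `2`-blocks of the double covers of alternating groups. -/

set_option autoImplicit false
set_option linter.unusedSectionVars false

namespace Cfsg
namespace AltCov

open Equiv Finset Cliff

theorem eq_one_of_conj_eq_mul {Y : Type*} [Group Y] [Finite Y] {t z g : Y}
    (hi : ¬ 2 ∣ (Subgroup.centralizer {t}).index) (hz : ∀ x, x * z = z * x) (hz2 : z * z = 1)
    (h : g * t * g⁻¹ = z * t) : z = 1 := by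
  classical
  have := Fintype.ofFinite Y
  let f : Function.End {x // IsConj t x} := fun x => ⟨z * x, by
    obtain ⟨u, hu⟩ := isConj_iff.1 x.2
    exact isConj_iff.2 ⟨u * g, by
      calc u * g * t * (u * g)⁻¹ = u * (g * t * g⁻¹) * u⁻¹ := by group
        _ = _ := by rw [← hu, h, ← mul_assoc, hz]; group⟩⟩
  have h1 := Perm.card_fixedPoints_modEq (f := f) (p := 2) (n := 1) (by
    funext x
    exact Subtype.ext (by change z * (z * x) = x; rw [← mul_assoc, hz2, one_mul]))
  rw [← card_isConj_eq_index_centralizer, Nat.card_eq_fintype_card] at hi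
  obtain ⟨x, hx⟩ := Fintype.card_pos_iff.1 (Nat.pos_of_ne_zero fun e =>
    hi ((Nat.modEq_zero_iff_dvd).1 (e ▸ h1)))
  simpa [f] using congrArg Subtype.val hx

variable {α : Type} [Fintype α] [DecidableEq α] {H : Type*} [Group H] [Finite H]
  {π : H →* Perm α}

theorem _root_.Cfsg.Cliff.Lifts.exists_smul' {κ β : Type} [Fintype κ] [DecidableEq κ]
    {γ : α ⊕ β → Matrix κ κ ℂ} (hγ : Gamma γ) {σ : Perm α} {M N N' : Matrix κ κ ℂ}
    (h : Lifts γ σ M) (h' : Lifts γ σ N) (e : N * N' = 1) : ∃ c : ℂ, M = c • N := by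
  obtain ⟨c, hc⟩ := (mul_inv_cancel σ ▸ h.mul (h'.inv e)).exists_smul hγ
  exact ⟨c, by rw [← Matrix.mul_one M, ← mul_eq_one_comm.1 e, ← Matrix.mul_assoc, hc]; simp⟩

theorem IsCov.spin_comm (C : IsCov π) (h8 : 8 ≤ Fintype.card α) (hp : commutator H = ⊤) {z : H}
    (hz : π z = 1) (hz1 : z ≠ 1) {t : H} (ht : π t ^ 2 = 1) {a c : α}
    (h : [a, π t a, c, π t c].Nodup) :
    (∀ g, π g = swap a (π t a) * swap c (π t c) → g * t = t * g) ∧
      ∀ g, π g = swap a c * swap (π t a) (π t c) → g * t ≠ t * g := by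
  obtain ⟨κ, _, _, γ, hκ, hγ⟩ := exists_gamma (Fintype.card α)
    (α ⊕ Fin (Fintype.card α + 1)) (by simp; omega)
  have : Nonempty κ := Fintype.card_pos_iff.1 (by rw [hκ]; positivity)
  obtain ⟨G, _, _, φ, ρ, w, S⟩ := exists_isSpin hγ h8
  have := Fintype.ofFinite G
  have hw1 : w ≠ 1 := fun e => neg_one_ne_one_mat (κ := κ) (by rw [← S.ρz, e, map_one])
  obtain ⟨e, he⟩ := C.exists_mulEquiv S.isCov h8 hp S.perf hz (z₂ := ⟨w, by simp [S.πz]⟩) S.πz hz1
    (by simpa [Subtype.ext_iff] using hw1)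
  let R : H →* Matrix _ _ ℂ := ρ.comp ((Subgroup.subtype _).comp e.toMonoidHom)
  have hl : ∀ g, Lifts γ (π g) (R g) := fun g => he g ▸ S.lifts (e g)
  have hi : Function.Injective R := (injective_iff_map_eq_one R).2 fun g hg => by
    obtain ⟨c, hc⟩ : ∃ c : G, c = e g := ⟨_, rfl⟩
    have h1 : φ c = 1 := by
      ext i
      have := S.lifts c (Sum.inl i)
      rw [show ρ c = 1 from hc ▸ hg, sC_of_mem (hc ▸ (e g).2)] at this
      by_contra hne
      have h2 := hγ.anti' hne
      simp only [Matrix.one_mul, Matrix.mul_one, one_smul, Sum.map_inl] at this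
      rw [← this, Perm.one_apply, hγ.sq] at h2
      exact neg_one_ne_one_mat h2.symm
    rcases S.ker c h1 with h | h
    · simpa [hc] using h
    · exact (neg_one_ne_one_mat (κ := κ) (by rw [← S.ρz, ← h, hc]; exact hg)).elim
  have h' := h
  simp only [List.nodup_cons, List.mem_cons, List.not_mem_nil, or_false, not_or] at h'
  obtain ⟨⟨hab, hac, had⟩, ⟨hbc, hbd⟩, hcd, -⟩ := h'
  have sw : ∀ a b, tt γ b a = -tt γ a b := fun a b => by simp [tt, ← smul_neg]
  have inv : ∀ {a b c d}, a ≠ b → c ≠ d → tt γ a b * tt γ c d * (tt γ c d * tt γ a b) = 1 :=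
    fun h1 h2 => by
      rw [Matrix.mul_assoc, ← Matrix.mul_assoc (tt γ _ _) (tt γ _ _) (tt γ _ _),
        hγ.tt_mul_self h2, Matrix.one_mul, hγ.tt_mul_self h1]
  have m := (hl t).mul_tt (C.mem t)
  refine ⟨fun g hg => hi ?_, fun g hg hc => ?_⟩
  · obtain ⟨k, hk⟩ := (hg ▸ hl g).exists_smul' hγ ((hγ.lifts_tt hab).mul (hγ.lifts_tt hcd))
      (inv hab hcd)
    rw [map_mul, map_mul, hk, Matrix.mul_smul, ← Matrix.mul_assoc, m, Matrix.mul_assoc, m,
      apply_apply_of_sq ht, apply_apply_of_sq ht, sw a, sw c]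
    simp [Matrix.mul_assoc]
  · obtain ⟨k, hk⟩ := (hg ▸ hl g).exists_smul' hγ ((hγ.lifts_tt hac).mul (hγ.lifts_tt hbd))
      (inv hac hbd)
    have : R (t * g) = -R (g * t) := by
      rw [map_mul, map_mul, hk, Matrix.mul_smul, ← Matrix.mul_assoc, m, Matrix.mul_assoc, m,
        apply_apply_of_sq ht, apply_apply_of_sq ht, ← Matrix.mul_assoc,
        hγ.tt_anti (Ne.symm hab) hbc (Ne.symm had) (Ne.symm hcd)]
      simp
    rw [← hc] at this
    have h2 := congrArg (· * R (g * t)⁻¹) this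
    simp only [Matrix.neg_mul, ← map_mul, mul_inv_cancel, map_one] at h2
    exact neg_one_ne_one_mat h2.symm

theorem comm_dbl_of_odd {ν : Perm α} (hν : ¬ 2 ∣ orderOf ν) {a b c d : α} (h : [a, b, c, d].Nodup)
    (hc : ν * (swap a b * swap c d) = swap a b * swap c d * ν) :
    ν * (swap a c * swap b d) = swap a c * swap b d * ν := by
  have h1 := (dbl_sq h).1
  have h2 := V4_cases h (V4_conj hc (dbl_mem_V4 h).2)
  generalize swap a b * swap c d = x at *
  generalize swap a c * swap b d = y at *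
  rcases h2 with e | e | e | e
  · simp [show y = 1 by simpa using e]
  · rwa [mul_left_cancel ((mul_inv_eq_iff_eq_mul.1 e).trans hc.symm)]
  · exact mul_inv_eq_iff_eq_mul.1 e
  · obtain ⟨k, hk⟩ := exists_pow_eq_self_of_coprime (x := ν) (n := 2)
      ((Nat.Prime.coprime_iff_not_dvd Nat.prime_two).2 hν)
    rw [← hk]
    refine Commute.pow_left (show ν ^ 2 * y = y * ν ^ 2 from ?_) k
    rw [mul_inv_eq_iff_eq_mul] at e
    rw [pow_two, mul_assoc, e, ← mul_assoc, ← mul_assoc, hc, mul_assoc x, e, ← mul_assoc,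
      ← mul_assoc, ← pow_two, h1, one_mul, mul_assoc]

theorem IsCov.robGoal_two_spin (C : IsCov π) (h8 : 8 ≤ Fintype.card α) (hp : commutator H = ⊤)
    (hi : ¬ Function.Injective π) {M : Ideal AlgInt} {B : Set (IrrCharacter H)} {D : Subgroup H}
    (hM : IsPModular 2 M) (hB : IsPBlock M B) (hD : IsDefectGroup 2 M B D) {χ : IrrCharacter H}
    (hχ : χ ∈ B) : RobGoal 2 B D χ := by
  obtain ⟨z, hz1, hz2, hz⟩ := C.exists_ker_pair h8 hp
  have hz0 : z ≠ 1 := fun e => hi ((injective_iff_map_eq_one π).2 fun h hh => by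
    simpa [e] using hz h hh)
  have hk : ∀ h, π h = 1 → h * h = 1 := fun h hh => by rcases hz h hh with rfl | rfl <;> simp [hz2]
  refine hD.robGoal_of_center_le hM hB hχ ?_
  rw [card_center_eq]
  suffices ∀ u ∈ D ⊓ Subgroup.centralizer (D : Set H), π u = 1 from
    (Set.ncard_le_ncard (t := {1, z}) fun u hu => hz u (this u hu)).trans
      ((Set.ncard_pair hz0.symm).le)
  intro u hu
  by_contra hu1
  obtain ⟨t, ht, ht1, ht2⟩ : ∃ t ∈ D ⊓ Subgroup.centralizer (D : Set H),
      π t ≠ 1 ∧ π t ^ 2 = 1 := by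
    obtain ⟨k, hk⟩ := hD.isPGroup ⟨u, hu.1⟩
    have hk' : π u ^ 2 ^ k = 1 := by
      rw [← map_pow, show u ^ 2 ^ k = 1 from congrArg Subtype.val hk, map_one]
    clear hk
    induction k generalizing u with
    | zero => exact (hu1 (by simpa using hk')).elim
    | succ k ih =>
      by_cases h : π u ^ 2 = 1
      · exact ⟨u, hu, hu1, h⟩
      · exact ih _ (pow_mem hu 2) (by rwa [map_pow]) (by rwa [map_pow, ← pow_mul, ← pow_succ'])
  have hc : D ≤ Subgroup.centralizer {t} := fun d hd =>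
    Subgroup.mem_centralizer_singleton_iff.2 (ht.2 d hd)
  have hQ : (bas (π t)).comap π ⊓ Subgroup.centralizer {t} ≤ D :=
    hD.le_of_central hM hB ht.1 hc (fun e => ⟨2, Subtype.ext (by
      have := hk (e ^ 2) (by rw [map_pow]; exact bas_pow e.2.1 ht2)
      rwa [← pow_add] at this)⟩) inf_le_right fun g hg e he =>
        Subgroup.mem_inf.2 ⟨by
          have := congrArg π (Subgroup.mem_centralizer_singleton_iff.1 hg)
          simpa using bas_conj (by simpa using this) he.1,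
        mul_mem (mul_mem hg (Subgroup.mem_inf.1 he).2) (inv_mem hg)⟩
  obtain ⟨a, ha⟩ : ∃ a, π t a ≠ a := by
    by_contra! h
    exact ht1 (Equiv.ext h)
  obtain ⟨c, -, hn⟩ := exists_pairs ht2 (C.mem t) ha
  obtain ⟨m1, m2⟩ := dbl_mem_V4 hn
  obtain ⟨x, hx⟩ := C.surj _ m1.1
  obtain ⟨g, hg⟩ := C.surj _ m2.1
  obtain ⟨h1, h2⟩ := C.spin_comm h8 hp hz1 hz0 ht2 hn
  have hxD : x ∈ D := hQ (Subgroup.mem_inf.2 ⟨by
    rw [Subgroup.mem_comap, hx]; exact mul_mem (swap_mem_bas ht2 _) (swap_mem_bas ht2 _),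
    Subgroup.mem_centralizer_singleton_iff.2 (h1 x hx)⟩)
  obtain ⟨y, hy, P, hP⟩ := hD
  have hyo := hy.not_dvd_orderOf hM hB
  have hDy : D ≤ Subgroup.centralizer {y} := hP ▸ Subgroup.map_subtype_le _
  have hgy : g * y = y * g := C.comm_of_odd hk (by
    rw [hg]
    refine (comm_dbl_of_odd (fun h => hyo (h.trans (orderOf_map_dvd _ _))) hn ?_).symm
    rw [← hx, ← map_mul, ← Subgroup.mem_centralizer_singleton_iff.1 (hDy hxD), map_mul])
    (Nat.odd_iff.2 (Nat.two_dvd_ne_zero.1 hyo)) (pow_orderOf_eq_one y)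
  have hgt : g * t * g⁻¹ = z * t := by
    refine mul_inv_eq_iff_eq_mul.1 ((hz _ ?_).resolve_left fun e => h2 g hg ?_)
    · have : π t * π g = π g * π t := by
        rw [hg, ← mul_assoc, mul_swap_eq_swap_mul (π t), mul_assoc,
          mul_swap_eq_swap_mul (π t),
          apply_apply_of_sq ht2, apply_apply_of_sq ht2, ← mul_assoc]
        simp only [List.nodup_cons, List.mem_cons, List.not_mem_nil, or_false, not_or] at hn
        refine congrArg (· * π t) (Equiv.ext fun y => ?_)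
        simp only [Perm.mul_apply, swap_apply_def]
        grind
      simp [← this]
    · rwa [mul_inv_eq_one, mul_inv_eq_iff_eq_mul] at e
  refine hz0 (congrArg Subtype.val (eq_one_of_conj_eq_mul (Y := Subgroup.centralizer {y})
    (t := ⟨t, hDy ht.1⟩) (z := ⟨z, Subgroup.mem_centralizer_singleton_iff.2 (C.cen z hz1 y).symm⟩)
    (g := ⟨g, Subgroup.mem_centralizer_singleton_iff.2 hgy⟩)
    (fun h => P.not_dvd_index (h.trans (Subgroup.index_dvd_of_le fun d hd => ?_)))
    (fun x => Subtype.ext (C.cen z hz1 x)) (Subtype.ext hz2) (Subtype.ext hgt)))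
  exact Subgroup.mem_centralizer_singleton_iff.2 (Subtype.ext (ht.2 d (hP ▸ ⟨d, hd, rfl⟩)))

end AltCov
end Cfsg
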