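import Cfsg.Agent.Blk.SecCentral

/-! General block theory for the height bound `p^ht ≤ |D : Z(D)|`. -/

set_option autoImplicit false

namespace Cfsg

open scoped ComplexConjugate MonoidAlgebra

universe u

variable {G : Type u} [Group G] [Finite G] {p : ℕ} {M : Ideal AlgInt}
  {B : Set (IrrCharacter G)} {D : Subgroup G}

/-- the height bound with its equality case -/
def RobGoal (p : ℕ) (B : Set (IrrCharacter G)) (D : Subgroup G) (χ : IrrCharacter G) : Prop :=
  blockHeight p B χ.1 ≤ ((Subgroup.center D).index).factorization p ∧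
    (blockHeight p B χ.1 = ((Subgroup.center D).index).factorization p ↔ IsMulCommutative D)

theorem IsDefectGroup.exists_major (hM : IsPModular p M) (hB : IsPBlock M B)
    (hD : IsDefectGroup p M B D) {x : G} (hx : x ∈ D)
    (hc : D ≤ Subgroup.centralizer ({x} : Set G)) :
    ∃ b : Set (IrrCharacter (Subgroup.centralizer ({x} : Set G))), IsInducedBlock M _ b B ∧
      IsDefectGroup p M b (D.subgroupOf _) ∧ blockDefect p b = blockDefect p B := by
  obtain ⟨e, S⟩ := hD.exists_starSetup hM hB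
  refine ⟨S.below ⟨x, hx⟩, S.isInducedBlock_below _, S.isDefectGroup_below (v := ⟨x, hx⟩) hc, ?_⟩
  have h1 := S.card_eq_pow_below (v := ⟨x, hx⟩) hc
  rw [hD.card_eq hM hB] at h1
  exact (Nat.pow_right_injective hM.prime.two_le h1).symm

theorem IsDefectGroup.le_of_central (hM : IsPModular p M) (hB : IsPBlock M B)
    (hD : IsDefectGroup p M B D) {x : G} (hx : x ∈ D)
    (hc : D ≤ Subgroup.centralizer ({x} : Set G)) {Q : Subgroup G} (hQ : IsPGroup p Q)
    (hQC : Q ≤ Subgroup.centralizer ({x} : Set G))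
    (hn : ∀ g ∈ Subgroup.centralizer ({x} : Set G), ∀ q ∈ Q, g * q * g⁻¹ ∈ Q) : Q ≤ D := by
  obtain ⟨b, hb, hbD, -⟩ := hD.exists_major hM hB hx hc
  have : (Q.subgroupOf (Subgroup.centralizer ({x} : Set G))).Normal :=
    ⟨fun q hq g => hn g g.2 q hq⟩
  have := hbD.le_of_normal hM hb.1 (P := Q.subgroupOf _) (hQ.comap_subtype)
  intro q hq
  exact this (x := ⟨q, hQC hq⟩) hq

theorem IsDefectGroup.pElement (hM : IsPModular p M) (hD : IsDefectGroup p M B D) {x : G}
    (hx : x ∈ D) : ∃ k : ℕ, orderOf x = p ^ k := by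
  have := Fact.mk hM.prime
  obtain ⟨k, hk⟩ := (IsPGroup.iff_orderOf.1 hD.isPGroup) ⟨x, hx⟩
  exact ⟨k, by rw [← hk]; exact (Subgroup.orderOf_mk x hx).symm⟩

theorem exists_of_classInner_secProj_ne_zero [Fintype G] {x : G}
    {b : Set (IrrCharacter (Subgroup.centralizer ({x} : Set G)))} {θ Ψ : G → ℂ}
    (hΨ : IsClassFunction G Ψ) (h : classInner (secProj p x b θ) Ψ ≠ 0) :
    ∃ y, Commute x y ∧ ¬ p ∣ orderOf y ∧ Ψ (x * y) ≠ 0 := by
  have := Fintype.ofFinite (Subgroup.centralizer ({x} : Set G))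
  by_contra hn
  push Not at hn
  apply h
  rw [classInner_secProj _ hΨ, classInner_def, Finset.sum_eq_zero, mul_zero]
  intro c _
  by_cases hc : p ∣ orderOf c
  · rw [pRegularPart_of_dvd hc, zero_mul]
  · rw [hn c (commute_of_mem_centralizer_eq rfl c) (by rwa [Subgroup.orderOf_coe]), map_zero,
      mul_zero]

theorem IsDefectGroup.exists_section_ne_zero (hM : IsPModular p M) (hB : IsPBlock M B)
    (hD : IsDefectGroup p M B D) {x : G} (hx : x ∈ D)
    (hc : D ≤ Subgroup.centralizer ({x} : Set G)) {χ : IrrCharacter G} (hχ : χ ∈ B) :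
    ∃ y, Commute x y ∧ ¬ p ∣ orderOf y ∧ χ.1 (x * y) ≠ 0 := by
  have := Fintype.ofFinite G
  obtain ⟨b, hb, -, hd⟩ := hD.exists_major hM hB hx hc
  obtain ⟨ξ, hξ, h0⟩ := exists_blockHeight_eq_zero (p := p) (hB.nonempty hM)
  have h := hb.secCon_ne_zero_of_major hM (hD.pElement hM hx) rfl hd hξ hχ h0
  rw [secCon_eq] at h
  exact exists_of_classInner_secProj_ne_zero χ.isClassFunction (right_ne_zero_of_mul h)

theorem IsDefectGroup.exists_section_add_ne_zero (hM : IsPModular p M) (hB : IsPBlock M B)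
    (hD : IsDefectGroup p M B D) (hp : p ≠ 2) {x : G} (hx : x ∈ D)
    (hc : D ≤ Subgroup.centralizer ({x} : Set G)) {χ : IrrCharacter G} (hχ : χ ∈ B)
    (χ' : IrrCharacter G) (h1 : χ'.1 1 = χ.1 1) :
    ∃ y, Commute x y ∧ ¬ p ∣ orderOf y ∧ χ.1 (x * y) + χ'.1 (x * y) ≠ 0 := by
  have := Fintype.ofFinite G
  have := Fact.mk hM.prime
  obtain ⟨b, hb, -, hd⟩ := hD.exists_major hM hB hx hc
  obtain ⟨ξ, hξ, h0⟩ := exists_blockHeight_eq_zero (p := p) (hB.nonempty hM)
  have hu := hD.pElement hM hx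
  refine exists_of_classInner_secProj_ne_zero (p := p) (b := b) (θ := ξ.1) (Ψ := χ.1 + χ'.1)
    (χ.isClassFunction.add χ'.isClassFunction) ?_
  rw [classInner_add_right]
  have h := hb.secCon_ne_zero_of_major hM hu rfl hd hξ hχ h0
  by_cases hχ' : χ' ∈ B
  · intro h2
    have h3 : secCon p x b ξ.1 χ.1 + secCon p x b ξ.1 χ'.1 = 0 := by
      rw [secCon_eq, secCon_eq, ← mul_add, h2, mul_zero]
    have hdeg : redDeg p B χ'.1 = redDeg p B χ.1 := by
      unfold redDeg
      congr 1
      exact charDegree_eq_of_one_eq (h1.trans χ.one_eq_charDegree)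
    have hv := secProj_mem_valO (M := M) hu rfl b ξ.isCharacter.isGeneralizedCharacter
    have h4 := (hb.valM_secCon_eq_one_iff hM hu rfl hξ hξ).2 ⟨h0, h0⟩
    rw [secCon_eq_kappa hd _ hξ, map_mul, hM.valM_redDeg hξ, h0, pow_zero, mul_one,
      ← red_ne_zero_iff] at h4
    rw [secCon_eq_kappa hd _ hχ, secCon_eq_kappa hd _ hχ', hdeg, ← add_mul, mul_eq_zero] at h3
    rcases h3 with h3 | h3
    · have h5 := congrArg (red M) h3
      rw [red_add (hM.kappa_mem (isClassFunction_secProj _) hv _)
        (hM.kappa_mem (isClassFunction_secProj _) hv _),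
        hB.red_kappa_eq hM (isClassFunction_secProj _) hv hχ hξ,
        hB.red_kappa_eq hM (isClassFunction_secProj _) hv hχ' hξ, ← two_mul, red_zero,
        mul_eq_zero] at h5
      rcases h5 with h5 | h5
      · have := hM.charP
        have h6 : ((2 : ℕ) : resK M) = 0 := by simpa using h5
        rw [CharP.cast_eq_zero_iff (resK M) p] at h6
        exact hp ((Nat.prime_dvd_prime_iff_eq hM.prime Nat.prime_two).1 h6)
      · exact h4 h5
    · exact redDeg_ne_zero hχ (by exact_mod_cast h3)
  · rw [(hb.1.isBlockUnion hM).classInner_secProj_comm hM ξ.isClassFunction χ'.isClassFunction,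
      hB.secProj_irr_of_notMem hM hu rfl (hb.1.isBlockUnion hM) hb.subset_inducingChars hχ',
      classInner_zero_right, add_zero]
    rw [secCon_eq] at h
    exact right_ne_zero_of_mul h

theorem isMulCommutative_iff_center_eq_top {K : Type*} [Group K] :
    IsMulCommutative K ↔ Subgroup.center K = ⊤ := by
  constructor
  · intro h
    rw [eq_top_iff]
    intro x _
    exact Subgroup.mem_center_iff.2 fun g => h.is_comm.comm g x
  · intro h
    refine ⟨⟨fun a b => ?_⟩⟩
    have : b ∈ Subgroup.center K := h ▸ Subgroup.mem_top b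
    exact Subgroup.mem_center_iff.1 this a

theorem IsDefectGroup.exists_center_pow (hM : IsPModular p M) (hB : IsPBlock M B)
    (hD : IsDefectGroup p M B D) : ∃ a, Nat.card (Subgroup.center D) = p ^ a ∧
      a + ((Subgroup.center D).index).factorization p = blockDefect p B := by
  have := Fact.mk hM.prime
  have h1 := (Subgroup.center D).card_mul_index
  rw [hD.card_eq hM hB] at h1
  obtain ⟨a, ha, h2⟩ := (Nat.dvd_prime_pow hM.prime).1 (Dvd.intro _ h1)
  refine ⟨a, h2, ?_⟩
  have h3 : (Subgroup.center D).index = p ^ (blockDefect p B - a) := by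
    apply Nat.eq_of_mul_eq_mul_left (pow_pos hM.prime.pos a)
    rw [← h2, h1, h2, ← pow_add]
    congr 1; omega
  rw [h3, hM.prime.factorization_pow]
  simp only [Finsupp.single_eq_same]
  omega

theorem IsDefectGroup.robGoal_of_lt (hM : IsPModular p M) (hB : IsPBlock M B)
    (hD : IsDefectGroup p M B D) {χ : IrrCharacter G} (hχ : χ ∈ B) {k : ℕ}
    (hk : (charDegree χ.1).factorization p + k ≤ (Nat.card G).factorization p)
    (hZ : Nat.card (Subgroup.center D) < p ^ k) : RobGoal p B D χ := by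
  have := Fact.mk hM.prime
  obtain ⟨a, ha, h⟩ := hD.exists_center_pow hM hB
  have h1 := factorization_charDegree_eq (p := p) hχ
  rw [ha] at hZ
  have h2 := (Nat.pow_lt_pow_iff_right hM.prime.one_lt).1 hZ
  refine ⟨by omega, ⟨fun _ => by omega, fun hc => ?_⟩⟩
  rw [isMulCommutative_iff_center_eq_top] at hc
  rw [hc, Subgroup.index_top] at h
  simp at h
  omega

theorem IsDefectGroup.robGoal_of_comm (hM : IsPModular p M) (hB : IsPBlock M B)
    (hD : IsDefectGroup p M B D) {χ : IrrCharacter G} (hχ : χ ∈ B) {k : ℕ}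
    (hk : (charDegree χ.1).factorization p + k ≤ (Nat.card G).factorization p)
    (hc : IsMulCommutative D) (hZ : Nat.card D ≤ p ^ k) : RobGoal p B D χ := by
  have := Fact.mk hM.prime
  have h1 := factorization_charDegree_eq (p := p) hχ
  rw [hD.card_eq hM hB] at hZ
  have h2 := (Nat.pow_le_pow_iff_right hM.prime.one_lt).1 hZ
  have h3 : blockHeight p B χ.1 = 0 := by omega
  have h4 := isMulCommutative_iff_center_eq_top.1 hc
  refine ⟨by omega, ⟨fun _ => hc, fun _ => ?_⟩⟩
  rw [h3, h4, Subgroup.index_top]; simp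

theorem IsDefectGroup.robGoal_of_card_le (hM : IsPModular p M) (hB : IsPBlock M B)
    (hD : IsDefectGroup p M B D) {χ : IrrCharacter G} (hχ : χ ∈ B)
    (hZ : Nat.card D ≤ p ^ 2) : RobGoal p B D χ := by
  have := Fact.mk hM.prime
  have hc : IsMulCommutative D := by
    have h := hD.card_eq hM hB
    rw [h] at hZ
    have h2 := (Nat.pow_le_pow_iff_right hM.prime.one_lt).1 hZ
    rcases h2.eq_or_lt with h3 | h3
    · exact IsPGroup.isMulCommutative_of_card_eq_prime_sq (p := p) (by rw [h, h3])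
    · have : IsCyclic D := isCyclic_of_card_dvd_prime (p := p)
        (by rw [h]; exact (pow_dvd_pow p (by omega : _ ≤ 1)).trans (by simp))
      infer_instance
  rw [hD.card_eq hM hB] at hZ
  have h2 := (Nat.pow_le_pow_iff_right hM.prime.one_lt).1 hZ
  have h3 := hB.blockHeight_eq_zero_of_blockDefect_le_two hM h2 hχ
  have h4 := isMulCommutative_iff_center_eq_top.1 hc
  refine ⟨by omega, ⟨fun _ => hc, fun _ => ?_⟩⟩
  rw [h3, h4, Subgroup.index_top]; simp

theorem IsDefectGroup.robGoal_of_center_le (hM : IsPModular p M) (hB : IsPBlock M B)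
    (hD : IsDefectGroup p M B D) {χ : IrrCharacter G} (hχ : χ ∈ B)
    (hZ : Nat.card (Subgroup.center D) ≤ p) : RobGoal p B D χ := by
  have := Fact.mk hM.prime
  by_cases hc : IsMulCommutative D
  · refine hD.robGoal_of_card_le hM hB hχ ?_
    rw [isMulCommutative_iff_center_eq_top.1 hc, Subgroup.card_top] at hZ
    exact hZ.trans (by nlinarith [hM.prime.pos])
  obtain ⟨a, ha, h⟩ := hD.exists_center_pow hM hB
  have h2 : a ≤ 1 := by
    rw [ha] at hZ
    exact (Nat.pow_le_pow_iff_right hM.prime.one_lt).1 (by simpa using hZ)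
  have h3 : ((Subgroup.center D).index).factorization p ≠ 0 := by
    intro h0
    apply hc
    rw [isMulCommutative_iff_center_eq_top, ← Subgroup.card_eq_iff_eq_top, ha, hD.card_eq hM hB,
      ← h, h0, add_zero]
  have h4 : blockHeight p B χ.1 < ((Subgroup.center D).index).factorization p := by
    by_cases h0 : blockHeight p B χ.1 = 0
    · omega
    · have := hB.blockHeight_add_two_le hM hχ h0
      omega
  exact ⟨h4.le, ⟨fun h => by omega, fun h => (hc h).elim⟩⟩

end Cfsg
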