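import Cfsg.Agent.CT.Indicator

/-! Gamma matrices and lifts of permutations. -/

set_option autoImplicit false
set_option linter.unusedSectionVars false

namespace Cfsg
namespace Cliff

open Equiv Finset Matrix

variable {κ : Type} [Fintype κ] [DecidableEq κ]

/-- an irreducible family of anticommuting involutions -/
structure Gamma {ι : Type} (γ : ι → Matrix κ κ ℂ) : Prop where
  sq : ∀ i, γ i * γ i = 1
  anti : ∀ i j, i ≠ j → γ i * γ j = -(γ j * γ i)
  irr : ∀ A, (∀ i, A * γ i = γ i * A) → ∃ c : ℂ, A = c • 1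

theorem Gamma.comp {ι ι' : Type} {γ : ι → Matrix κ κ ℂ} (h : Gamma γ) (e : ι' ≃ ι) :
    Gamma (γ ∘ e) :=
  ⟨fun _ => h.sq _, fun _ _ hij => h.anti _ _ (e.injective.ne hij),
    fun A hA => h.irr A fun i => by simpa using hA (e.symm i)⟩

/-- doubling -/
noncomputable def dbl {ι : Type} (γ : ι → Matrix κ κ ℂ) :
    ι ⊕ Bool → Matrix (κ ⊕ κ) (κ ⊕ κ) ℂ
  | Sum.inl i => fromBlocks 0 (-Complex.I • γ i) (Complex.I • γ i) 0
  | Sum.inr true => fromBlocks 0 1 1 0
  | Sum.inr false => fromBlocks 1 0 0 (-1)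

theorem Gamma.dbl {ι : Type} {γ : ι → Matrix κ κ ℂ} (h : Gamma γ) : Gamma (dbl γ) := by
  refine ⟨?_, ?_, ?_⟩
  · rintro (i | _ | _) <;>
      simp [Cliff.dbl, fromBlocks_multiply, smul_smul, h.sq, fromBlocks_one]
  · rintro (i | _ | _) (j | _ | _) hij <;>
      simp [Cliff.dbl, fromBlocks_multiply, smul_smul, fromBlocks_neg] at hij ⊢
    exact h.anti i j hij
  · intro A hA
    rw [← fromBlocks_toBlocks A] at hA ⊢
    generalize A.toBlocks₁₁ = a, A.toBlocks₁₂ = b, A.toBlocks₂₁ = c, A.toBlocks₂₂ = d at hA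
    have h1 := hA (Sum.inr true)
    have h2 := hA (Sum.inr false)
    simp only [Cliff.dbl, fromBlocks_multiply, Matrix.mul_zero, Matrix.mul_one, zero_add, add_zero,
      Matrix.zero_mul, Matrix.one_mul, fromBlocks_inj, Matrix.mul_neg, Matrix.neg_mul] at h1 h2
    have hb : b = 0 := by
      have : (2 : ℂ) • b = 0 := by rw [two_smul]; nth_rw 1 [← h2.2.1]; simp
      simpa using this
    obtain ⟨rfl, rfl, -, -⟩ := h1
    subst hb
    obtain ⟨x, hx⟩ := h.irr a fun i => by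
      have := hA (Sum.inl i)
      simp only [Cliff.dbl, fromBlocks_multiply, Matrix.mul_zero, zero_add, add_zero,
        Matrix.zero_mul, fromBlocks_inj, Matrix.mul_smul, Matrix.smul_mul] at this
      exact smul_right_injective _ Complex.I_ne_zero this.2.2.1
    exact ⟨x, by rw [hx, ← fromBlocks_one, fromBlocks_smul]; simp⟩

theorem exists_gamma (k : ℕ) (ι : Type) [Fintype ι] (h : Fintype.card ι = 2 * k + 1) :
    ∃ (κ : Type) (_ : Fintype κ) (_ : DecidableEq κ) (γ : ι → Matrix κ κ ℂ),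
      Fintype.card κ = 2 ^ k ∧ Gamma γ := by
  induction k generalizing ι with
  | zero =>
    refine ⟨Unit, inferInstance, inferInstance, fun _ => 1, by simp, fun _ => by simp,
      fun i j hij => (hij ((Fintype.card_le_one_iff.1 h.le) i j)).elim, fun A _ => ⟨A () (), ?_⟩⟩
    ext; simp
  | succ k ih =>
    obtain ⟨κ, _, _, γ, h1, h2⟩ := ih (Fin (2 * k + 1)) (by simp)
    exact ⟨κ ⊕ κ, inferInstance, inferInstance, _, by simp [h1]; ring,
      h2.dbl.comp (Fintype.equivOfCardEq (by simp [h]; ring))⟩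

theorem trace_eq_zero_of_anti {u A : Matrix κ κ ℂ} (hu : u * u = 1) (h : u * A = -(A * u)) :
    A.trace = 0 := by
  have h1 : A.trace = (u * A * u).trace := by rw [trace_mul_cycle, hu, Matrix.one_mul]
  rw [h, Matrix.neg_mul, Matrix.mul_assoc, hu, Matrix.mul_one, trace_neg] at h1
  linear_combination h1 / 2

theorem exists_proj {J : Type} [DecidableEq J] (u : J → Matrix κ κ ℂ) (m : ℕ) (s : Finset J)
    (hs : 2 * m ≤ #s) (h1 : ∀ j ∈ s, u j * u j = 1)
    (h2 : ∀ i ∈ s, ∀ j ∈ s, i ≠ j → u i * u j = -(u j * u i)) :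
    ∃ P : Matrix κ κ ℂ, P * P = P ∧
      (∀ (A : Matrix κ κ ℂ) (ε : ℂ), ε * ε = 1 → (∀ j ∈ s, A * u j = ε • (u j * A)) →
        A * P = P * A) ∧
      ∀ A : Matrix κ κ ℂ, (∀ j ∈ s, A * u j = u j * A) → (A * P).trace = A.trace / 2 ^ m := by
  induction m generalizing s with
  | zero => exact ⟨1, by simp, by simp, by simp⟩
  | succ m ih =>
    obtain ⟨i, hi, j, hj, hij⟩ := one_lt_card.1 (by omega : 1 < #s)
    have hsub : (s.erase i).erase j ⊆ s := (erase_subset _ _).trans (erase_subset _ _)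
    obtain ⟨P, hP1, hP2, hP3⟩ := ih ((s.erase i).erase j)
      (by rw [card_erase_of_mem (mem_erase.2 ⟨hij.symm, hj⟩), card_erase_of_mem hi]; omega)
      (fun k hk => h1 k (hsub hk)) fun k hk l hl => h2 k (hsub hk) l (hsub hl)
    have hi' : u i * P = P * u i := hP2 _ (-1) (by ring) fun k hk => by
      rw [h2 i hi k (hsub hk) (ne_of_mem_erase (mem_of_mem_erase hk)).symm]; simp
    have hj' : u j * P = P * u j := hP2 _ (-1) (by ring) fun k hk => by
      rw [h2 j hj k (hsub hk) (ne_of_mem_erase hk).symm]; simp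
    set w := Complex.I • (u i * u j) with hw
    have hww : w * w = 1 := by
      rw [hw, Matrix.smul_mul, Matrix.mul_smul, smul_smul, Complex.I_mul_I, Matrix.mul_assoc,
        ← Matrix.mul_assoc (u j), h2 j hj i hi hij.symm, Matrix.neg_mul, Matrix.mul_assoc,
        h1 j hj, Matrix.mul_one, Matrix.mul_neg, h1 i hi]
      simp
    have hwP : w * P = P * w := by
      rw [hw, Matrix.smul_mul, Matrix.mul_smul, Matrix.mul_assoc, hj', ← Matrix.mul_assoc, hi',
        Matrix.mul_assoc]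
    have hA : ∀ (A : Matrix κ κ ℂ) (ε : ℂ), ε * ε = 1 → (∀ j ∈ s, A * u j = ε • (u j * A)) →
        A * w = w * A := fun A ε hε hA => by
      rw [hw, Matrix.smul_mul, Matrix.mul_smul, ← Matrix.mul_assoc, hA i hi, Matrix.smul_mul,
        Matrix.mul_assoc, hA j hj, Matrix.mul_smul, smul_smul ε, hε, one_smul, Matrix.mul_assoc]
    refine ⟨(2⁻¹ : ℂ) • (P + P * w), ?_, fun A ε hε h => ?_, fun A h => ?_⟩
    · have : P * w * (P * w) = P := by
        rw [Matrix.mul_assoc, ← Matrix.mul_assoc w, hwP, Matrix.mul_assoc, hww, Matrix.mul_one, hP1]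
      rw [Matrix.smul_mul, Matrix.mul_smul, Matrix.add_mul, Matrix.mul_add, Matrix.mul_add, this,
        hP1, ← Matrix.mul_assoc, hP1, Matrix.mul_assoc, hwP, ← Matrix.mul_assoc, hP1]
      module
    · have h3 := hP2 A ε hε fun k hk => h k (hsub hk)
      rw [Matrix.smul_mul, Matrix.mul_smul, Matrix.add_mul, Matrix.mul_add, ← Matrix.mul_assoc, h3,
        Matrix.mul_assoc, hA A ε hε h, Matrix.mul_assoc]
    · have h3 : (A * (P * w)).trace = 0 := by
        refine trace_eq_zero_of_anti (h1 i hi) ?_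
        have : u i * w = -(w * u i) := by
          rw [hw, Matrix.smul_mul, Matrix.mul_smul, Matrix.mul_assoc, h2 j hj i hi hij.symm]
          simp
        rw [← Matrix.mul_assoc, ← h i hi, Matrix.mul_assoc, ← Matrix.mul_assoc (u i), hi',
          Matrix.mul_assoc, this]
        simp only [Matrix.mul_neg, Matrix.mul_assoc]
      rw [Matrix.mul_smul, Matrix.mul_add, trace_smul, trace_add, h3,
        hP3 A fun k hk => h k (hsub hk), smul_eq_mul]
      ring

theorem isCharacter_trace_div {K : Type*} [Group K] (ρ : K →* Matrix κ κ ℂ) {J : Type}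
    [DecidableEq J] (u : J → Matrix κ κ ℂ) (m : ℕ) (s : Finset J)
    (hs : 2 * m ≤ #s) (h1 : ∀ j ∈ s, u j * u j = 1)
    (h2 : ∀ i ∈ s, ∀ j ∈ s, i ≠ j → u i * u j = -(u j * u i))
    (h3 : ∀ g, ∀ j ∈ s, ρ g * u j = u j * ρ g) :
    IsCharacter K fun g => (ρ g).trace / 2 ^ m := by
  obtain ⟨P, hP1, hP2, hP3⟩ := exists_proj u m s hs h1 h2
  have := isCharacter_trace_mul_proj
    ((Matrix.toLinAlgEquiv' (R := ℂ) (n := κ)).toAlgHom.toMonoidHom.comp ρ)
    (Matrix.toLinAlgEquiv' P) (by rw [← map_mul, hP1]) fun g => by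
      change Matrix.toLinAlgEquiv' (ρ g) * _ = _ * Matrix.toLinAlgEquiv' (ρ g)
      rw [← map_mul, ← map_mul, hP2 _ 1 (by ring) fun j hj => by rw [h3 g j hj, one_smul]]
  convert this using 2 with g
  change _ = LinearMap.trace ℂ _ (Matrix.toLinAlgEquiv' (ρ g) * _)
  rw [← map_mul, ← hP3 _ (h3 g)]
  exact (Matrix.trace_toLin'_eq _).symm

variable {α β : Type} [Fintype α] [DecidableEq α] {γ : α ⊕ β → Matrix κ κ ℂ}

/-- the sign as a complex number -/
def sC (σ : Perm α) : ℂ := ((Perm.sign σ : ℤ) : ℂ)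

theorem sC_mul (σ τ : Perm α) : sC (σ * τ) = sC σ * sC τ := by simp [sC]

theorem sC_mul_self (σ : Perm α) : sC σ * sC σ = 1 := by
  unfold sC
  rcases Int.units_eq_one_or (Perm.sign σ) with h | h <;> simp [h]

theorem sC_of_mem {σ : Perm α} (h : σ ∈ alternatingGroup α) : sC σ = 1 := by
  rw [sC, Perm.mem_alternatingGroup.1 h]; simp

theorem sC_of_notMem {σ : Perm α} (h : σ ∉ alternatingGroup α) : sC σ = -1 := by
  rw [sC, (Int.units_eq_one_or (Perm.sign σ)).resolve_left h]; simp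

/-- `M` induces the permutation `σ` on the gamma matrices -/
def Lifts (γ : α ⊕ β → Matrix κ κ ℂ) (σ : Perm α) (M : Matrix κ κ ℂ) : Prop :=
  ∀ i, M * γ i = sC σ • (γ (Sum.map σ id i) * M)

theorem Lifts.one : Lifts γ 1 1 := fun i => by simp [sC]

theorem Lifts.mul {σ τ : Perm α} {M N : Matrix κ κ ℂ} (h : Lifts γ σ M) (h' : Lifts γ τ N) :
    Lifts γ (σ * τ) (M * N) := fun i => by
  rw [Matrix.mul_assoc, h', Matrix.mul_smul, ← Matrix.mul_assoc, h, Matrix.smul_mul, smul_smul,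
    sC_mul, mul_comm, Sum.map_map, Matrix.mul_assoc]
  rfl

theorem Lifts.neg {σ : Perm α} {M : Matrix κ κ ℂ} (h : Lifts γ σ M) : Lifts γ σ (-M) :=
  fun i => by simp [h i]

theorem Lifts.inv {σ : Perm α} {M M' : Matrix κ κ ℂ} (h : Lifts γ σ M) (h1 : M * M' = 1) :
    Lifts γ σ⁻¹ M' := fun i => by
  have h2 := mul_eq_one_comm.1 h1
  have h3 := h (Sum.map (⇑σ⁻¹) id i)
  have h4 : Sum.map σ id (Sum.map (⇑σ⁻¹) id i) = i := by cases i <;> simp
  rw [h4] at h3
  have h5 : sC σ⁻¹ = sC σ := by simp [sC]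
  have h6 := congrArg (fun X => sC σ • (M' * X * M')) h3
  simp only [← Matrix.mul_assoc, h2, Matrix.one_mul, Matrix.mul_smul, Matrix.smul_mul, smul_smul,
    sC_mul_self, one_smul] at h6
  rw [h5, h6, Matrix.mul_assoc, h1, Matrix.mul_one]

theorem Lifts.comm_of_fix {σ : Perm α} {M : Matrix κ κ ℂ} (h : Lifts γ σ M) {a : α}
    (ha : σ a = a) : M * γ (Sum.inl a) = sC σ • (γ (Sum.inl a) * M) := by
  rw [h, Sum.map_inl, ha]

theorem Lifts.exists_smul (hγ : Gamma γ) {M : Matrix κ κ ℂ} (h : Lifts γ 1 M) :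
    ∃ c : ℂ, M = c • 1 :=
  hγ.irr M fun i => by simpa [sC] using h i

/-- the lift of a transposition -/
noncomputable def tt (γ : α ⊕ β → Matrix κ κ ℂ) (a b : α) : Matrix κ κ ℂ :=
  ((√2 : ℝ) : ℂ)⁻¹ • (γ (Sum.inl a) - γ (Sum.inl b))

theorem inv_sqrt_two_mul_self : ((√2 : ℝ) : ℂ)⁻¹ * ((√2 : ℝ) : ℂ)⁻¹ = 2⁻¹ := by
  rw [← mul_inv, ← Complex.ofReal_mul, Real.mul_self_sqrt (by norm_num)]; simp

omit [Fintype α] [DecidableEq α] in
theorem tt_mul_tt (a b c d : α) : tt γ a b * tt γ c d = (2⁻¹ : ℂ) •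
    ((γ (Sum.inl a) - γ (Sum.inl b)) * (γ (Sum.inl c) - γ (Sum.inl d))) := by
  rw [tt, tt, Matrix.smul_mul, Matrix.mul_smul, smul_smul, inv_sqrt_two_mul_self]

namespace Gamma

variable (hγ : Gamma γ)
include hγ

omit [Fintype α] [DecidableEq α] in
theorem anti' {a b : α} (h : a ≠ b) :
    γ (Sum.inl a) * γ (Sum.inl b) = -(γ (Sum.inl b) * γ (Sum.inl a)) :=
  hγ.anti _ _ (by simpa using h)

omit [Fintype α] [DecidableEq α] in
theorem tt_mul_self {a b : α} (h : a ≠ b) : tt γ a b * tt γ a b = 1 := by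
  rw [tt_mul_tt]
  simp only [Matrix.mul_sub, Matrix.sub_mul, hγ.sq, hγ.anti' h]
  module

theorem lifts_tt {a b : α} (h : a ≠ b) : Lifts γ (swap a b) (tt γ a b) := by
  intro i
  have h1 : sC (swap a b) = -1 := by simp [sC, Perm.sign_swap h]
  rw [h1, tt, Matrix.smul_mul, Matrix.mul_smul, smul_comm]
  congr 1
  by_cases ha : i = Sum.inl a
  · simp only [ha, Sum.map_inl, swap_apply_left, Matrix.mul_sub, Matrix.sub_mul, hγ.sq]
    module
  by_cases hb : i = Sum.inl b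
  · simp only [hb, Sum.map_inl, swap_apply_right, Matrix.mul_sub, Matrix.sub_mul, hγ.sq]
    module
  have : Sum.map (swap a b) id i = i := by
    rcases i with i | i
    · simp only [Sum.inl.injEq] at ha hb
      simp [swap_apply_of_ne_of_ne ha hb]
    · rfl
  rw [this, Matrix.mul_sub, Matrix.sub_mul, hγ.anti _ _ ha, hγ.anti _ _ hb]
  module

theorem exists_lifts (σ : Perm α) : ∃ M M', Lifts γ σ M ∧ M * M' = 1 := by
  induction σ using Perm.swap_induction_on with
  | one => exact ⟨1, 1, Lifts.one, by simp⟩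
  | swap_mul σ a b hab h =>
    obtain ⟨M, M', h1, h2⟩ := h
    refine ⟨_, M' * tt γ a b, (hγ.lifts_tt hab).mul h1, ?_⟩
    rw [Matrix.mul_assoc, ← Matrix.mul_assoc M, h2, Matrix.one_mul, hγ.tt_mul_self hab]

omit [Fintype α] [DecidableEq α] in
theorem tt_anti {a b c d : α} (h1 : a ≠ c) (h2 : a ≠ d) (h3 : b ≠ c) (h4 : b ≠ d) :
    tt γ a b * tt γ c d = -(tt γ c d * tt γ a b) := by
  rw [tt_mul_tt, tt_mul_tt]
  simp only [Matrix.mul_sub, Matrix.sub_mul, hγ.anti' h1, hγ.anti' h2, hγ.anti' h3, hγ.anti' h4]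
  module

omit [Fintype α] [DecidableEq α] in
theorem trace_gg_mul {x y : α} (hxy : x ≠ y) {M : Matrix κ κ ℂ}
    (h : M * γ (Sum.inl x) = γ (Sum.inl x) * M) :
    (γ (Sum.inl x) * γ (Sum.inl y) * M).trace = 0 := by
  refine trace_eq_zero_of_anti (hγ.sq (Sum.inl x)) ?_
  rw [Matrix.mul_assoc _ M, h, Matrix.mul_assoc _ (γ (Sum.inl y)) (_ * M),
    ← Matrix.mul_assoc (γ (Sum.inl y)), hγ.anti' hxy.symm]
  simp only [Matrix.mul_neg, Matrix.neg_mul, neg_neg, Matrix.mul_assoc]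

omit [Fintype α] [DecidableEq α] in
theorem trace_tt_tt_mul {x y w : α} (hxy : x ≠ y) (hxw : x ≠ w) (hyw : y ≠ w)
    {M : Matrix κ κ ℂ} (hx : M * γ (Sum.inl x) = γ (Sum.inl x) * M)
    (hy : M * γ (Sum.inl y) = γ (Sum.inl y) * M) :
    (tt γ x y * tt γ y w * M).trace = -2⁻¹ * M.trace ∧
      (M * (tt γ y w * tt γ x y)).trace = -2⁻¹ * M.trace := by
  have e1 := hγ.trace_gg_mul hxy hx
  have e2 := hγ.trace_gg_mul hxw hx
  have e3 := hγ.trace_gg_mul hyw hy
  constructor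
  · rw [tt_mul_tt]
    simp only [Matrix.mul_sub, Matrix.sub_mul, hγ.sq, Matrix.smul_mul, trace_smul, trace_sub, e1,
      e2, e3, Matrix.one_mul, smul_eq_mul]
    ring
  · rw [trace_mul_comm, tt_mul_tt]
    simp only [Matrix.mul_sub, Matrix.sub_mul, hγ.sq, Matrix.smul_mul, trace_smul, trace_sub,
      hγ.anti' hxy.symm, hγ.anti' hxw.symm, hγ.anti' hyw.symm, Matrix.neg_mul, trace_neg, e1,
      e2, e3, Matrix.one_mul, smul_eq_mul]
    ring

end Gamma

/-- the product of the traces of a lift and its inverse -/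
def NN (γ : α ⊕ β → Matrix κ κ ℂ) (σ : Perm α) (x : ℂ) : Prop :=
  ∀ M M', Lifts γ σ M → M * M' = 1 → M.trace * M'.trace = x

namespace Gamma

variable (hγ : Gamma γ)
include hγ

theorem nn_one : NN γ 1 ((Fintype.card κ : ℂ) ^ 2) := by
  intro M M' h h1
  obtain ⟨c, rfl⟩ := h.exists_smul hγ
  have h2 := congrArg trace h1
  rw [Matrix.smul_mul, Matrix.one_mul, trace_smul, trace_one, smul_eq_mul] at h2
  rw [trace_smul, trace_one, smul_eq_mul]
  linear_combination (Fintype.card κ : ℂ) * h2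

theorem nn_step {σ : Perm α} (hσ : σ ∈ alternatingGroup α) {x y w : α} (hxy : x ≠ y)
    (hxw : x ≠ w) (hyw : y ≠ w) (hx : σ x = x) (hy : σ y = y) {c : ℂ} (h : NN γ σ c) :
    NN γ (swap x y * (swap y w * σ)) (c / 4) := by
  intro M M' h1 h2
  have h3 := (hγ.lifts_tt hyw).mul ((hγ.lifts_tt hxy).mul h1)
  rw [swap_mul_self_mul, swap_mul_self_mul] at h3
  have h4 : tt γ y w * (tt γ x y * M) * (M' * (tt γ x y * tt γ y w)) = 1 := by
    rw [Matrix.mul_assoc, Matrix.mul_assoc, ← Matrix.mul_assoc M, h2, Matrix.one_mul,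
      ← Matrix.mul_assoc (tt γ x y), hγ.tt_mul_self hxy, Matrix.one_mul, hγ.tt_mul_self hyw]
  have h5 := h3.inv h4
  have e1 := (hγ.trace_tt_tt_mul hxy hxw hyw (M := tt γ y w * (tt γ x y * M))
    (by rw [h3.comm_of_fix hx, sC_of_mem hσ, one_smul])
    (by rw [h3.comm_of_fix hy, sC_of_mem hσ, one_smul])).1
  have e2 := (hγ.trace_tt_tt_mul hxy hxw hyw (M := M' * (tt γ x y * tt γ y w))
    (by rw [h5.comm_of_fix (Perm.inv_eq_iff_eq.2 hx.symm), sC_of_mem (inv_mem hσ), one_smul])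
    (by rw [h5.comm_of_fix (Perm.inv_eq_iff_eq.2 hy.symm), sC_of_mem (inv_mem hσ), one_smul])).2
  rw [Matrix.mul_assoc, ← Matrix.mul_assoc (tt γ y w), hγ.tt_mul_self hyw, Matrix.one_mul,
    ← Matrix.mul_assoc, hγ.tt_mul_self hxy, Matrix.one_mul] at e1
  rw [Matrix.mul_assoc, Matrix.mul_assoc, ← Matrix.mul_assoc (tt γ y w), hγ.tt_mul_self hyw,
    Matrix.one_mul, hγ.tt_mul_self hxy, Matrix.mul_one] at e2
  rw [e1, e2, ← h _ _ h3 h4]
  ring

theorem nn_swap {σ : Perm α} (hσ : σ ∉ alternatingGroup α) {x y : α} (hxy : x ≠ y)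
    (hx : σ x = x) (hy : σ y = y) : NN γ (swap x y * σ) 0 := by
  intro M M' h1 _
  have h3 := (hγ.lifts_tt hxy).mul h1
  rw [swap_mul_self_mul] at h3
  have h4 : ∀ a, σ a = a → (γ (Sum.inl a) * (tt γ x y * M)).trace = 0 := fun a ha => by
    refine trace_eq_zero_of_anti (hγ.sq (Sum.inl a)) ?_
    rw [Matrix.mul_assoc, h3.comm_of_fix ha, sC_of_notMem hσ]
    simp
  have h5 : M = tt γ x y * (tt γ x y * M) := by
    rw [← Matrix.mul_assoc, hγ.tt_mul_self hxy, Matrix.one_mul]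
  generalize tt γ x y * M = N at h4 h5
  rw [h5, tt, Matrix.smul_mul, Matrix.sub_mul, trace_smul, trace_sub, h4 x hx, h4 y hy]
  simp

theorem nn_cycle {σ : Perm α} {c : ℂ} {τ : Perm α} (hτ : τ.IsCycle) (hd : τ.Disjoint σ)
    (hσ : τ * σ ∈ alternatingGroup α) (h : σ ∈ alternatingGroup α → NN γ σ c) :
    NN γ (τ * σ) ((if Odd #τ.support then 2 / 2 ^ #τ.support else 0) * c) := by
  induction hn : #τ.support using Nat.strong_induction_on generalizing τ with
  | _ n ih =>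
  obtain ⟨x, hx, -⟩ := id hτ
  have hfix : ∀ a, τ a ≠ a → σ a = a := fun a ha => (hd a).resolve_left ha
  have hy : τ (τ x) ≠ τ x := τ.injective.ne hx
  by_cases h1 : τ (τ x) = x
  · have h2 := hτ.eq_swap_of_apply_apply_eq_self hx h1
    have h3 : n = 2 := by rw [← hn, h2, Perm.card_support_swap hx.symm]
    rw [h3, if_neg (by decide), zero_mul]
    rw [h2] at hσ ⊢
    refine hγ.nn_swap (fun h4 => ?_) hx.symm (hfix _ hx) (hfix _ hy)
    have := (mul_mem_cancel_right h4).1 hσ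
    simp [Perm.mem_alternatingGroup, Perm.sign_swap hx.symm] at this
  have c1 := hτ.swap_mul hx h1
  have s1 := Perm.support_swap_mul_eq τ x h1
  set τ₁ := swap x (τ x) * τ with hτ₁
  have v1 : τ₁ (τ x) = τ (τ x) := by
    rw [hτ₁, Perm.mul_apply, swap_apply_of_ne_of_ne h1 hy]
  have v2 : τ₁ x = x := by simp [hτ₁]
  have hy1 : τ₁ (τ x) ≠ τ x := by rwa [v1]
  set τ₂ := swap (τ x) (τ₁ (τ x)) * τ₁ with hτ₂
  have e : τ * σ = swap x (τ x) * (swap (τ x) (τ (τ x)) * (τ₂ * σ)) := by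
    rw [hτ₂, v1, mul_assoc, swap_mul_self_mul, hτ₁, mul_assoc, swap_mul_self_mul]
  have he : τ₂ * σ ∈ alternatingGroup α := by
    rw [e, ← mul_assoc] at hσ
    refine (mul_mem_cancel_left ?_).1 hσ
    simp [Perm.mem_alternatingGroup, Perm.sign_swap hx.symm, Perm.sign_swap hy.symm]
  have f1 : (τ₂ * σ) x = x := by
    rw [Perm.mul_apply, hfix _ hx, hτ₂, Perm.mul_apply, v2, v1,
      swap_apply_of_ne_of_ne hx.symm (Ne.symm h1)]
  have f2 : (τ₂ * σ) (τ x) = τ x := by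
    rw [Perm.mul_apply, hfix _ hy, hτ₂, Perm.mul_apply, swap_apply_right]
  have n1 : #τ₁.support + 1 = n := by
    rw [s1, sdiff_singleton_eq_erase, card_erase_add_one (Perm.mem_support.2 hx), hn]
  rw [e]
  by_cases h2 : τ₁ (τ₁ (τ x)) = τ x
  · have h3 := c1.eq_swap_of_apply_apply_eq_self hy1 h2
    have h4 : τ₂ = 1 := by rw [hτ₂]; nth_rw 2 [h3]; exact swap_mul_self _ _
    have h5 : n = 3 := by rw [← n1, h3, Perm.card_support_swap hy1.symm]
    rw [h4, one_mul] at he f1 f2 ⊢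
    convert hγ.nn_step he hx.symm (Ne.symm h1) hy.symm f1 f2 (h he) using 1
    rw [h5, if_pos (by decide)]; ring
  · have c2 := c1.swap_mul hy1 h2
    have s2 := Perm.support_swap_mul_eq τ₁ _ h2
    rw [← hτ₂] at c2 s2
    have n2 : #τ₂.support + 2 = n := by
      rw [← n1, s2, sdiff_singleton_eq_erase, ← card_erase_add_one (Perm.mem_support.2 hy1)]
    have d2 : τ₂.Disjoint σ := hd.mono (by rw [s2, s1]; exact sdiff_le.trans sdiff_le) le_rfl
    convert hγ.nn_step he hx.symm (Ne.symm h1) hy.symm f1 f2 (ih _ (by omega) c2 d2 he rfl) using 1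
    rw [← n2]
    simp only [Nat.odd_add, even_two, iff_true]
    split_ifs <;> ring

theorem nn_prod {σ : Perm α} (hσ : σ ∈ alternatingGroup α) : NN γ σ ((σ.cycleType.map
    fun r => if Odd r then (2 / 2 ^ r : ℂ) else 0).prod * (Fintype.card κ : ℂ) ^ 2) := by
  induction σ using Perm.cycle_induction_on with
  | base_one => simpa using hγ.nn_one
  | base_cycles τ hτ =>
    have := hγ.nn_cycle hτ (Perm.disjoint_one_right τ) (by simpa using hσ) fun _ => hγ.nn_one
    simpa [hτ.cycleType] using this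
  | induction_disjoint τ σ hd hτ _ ih =>
    have := hγ.nn_cycle hτ hd hσ ih
    simpa [hd.cycleType_mul, hτ.cycleType, mul_assoc] using this

theorem trace_eq_zero_of_odd [Nonempty β] {σ : Perm α} (hσ : σ ∉ alternatingGroup α)
    {M : Matrix κ κ ℂ} (h : Lifts γ σ M) : M.trace = 0 := by
  obtain ⟨b⟩ := ‹Nonempty β›
  refine trace_eq_zero_of_anti (hγ.sq (Sum.inr b)) ?_
  rw [h, sC_of_notMem hσ]
  simp

end Gamma

end Cliff
end Cfsg
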