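import Cfsg.Agent.CT.SymChar
import Cfsg.Agent.Grp.Basic

/-! The base group of the centralizer of a permutation. -/

set_option autoImplicit false
set_option linter.unusedSectionVars false

namespace Cfsg
namespace AltCov

open Equiv Finset SymCh

variable {α : Type} [Fintype α] [DecidableEq α] {σ τ τ' g : Perm α}

/-- the group generated by the cycles of `σ` -/
def bas (σ : Perm α) : Subgroup (Perm α) where
  carrier := {τ | τ * σ = σ * τ ∧ ∀ a, σ.SameCycle a (τ a)}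
  one_mem' := ⟨by simp, fun a => Perm.SameCycle.refl _ _⟩
  mul_mem' := fun {τ τ'} h h' => ⟨by rw [mul_assoc, h'.1, ← mul_assoc, h.1, mul_assoc],
    fun a => (h'.2 a).trans (h.2 _)⟩
  inv_mem' := fun {τ} h => ⟨(Commute.inv_left h.1 :), fun a => by simpa using (h.2 (τ⁻¹ a)).symm⟩

theorem apply_zpow_of_comm (h : τ * σ = σ * τ) (k : ℤ) (a : α) :
    τ ((σ ^ k) a) = (σ ^ k) (τ a) :=
  congrArg (fun f : Perm α => f a) (Commute.zpow_right h k).eq

theorem bas_conj (hg : g * σ = σ * g) (hτ : τ ∈ bas σ) : g * τ * g⁻¹ ∈ bas σ := by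
  refine ⟨((Commute.mul_left hg hτ.1).mul_left (Commute.inv_left hg) :), fun a => ?_⟩
  obtain ⟨k, hk⟩ := hτ.2 (g⁻¹ a)
  exact ⟨k, by rw [Perm.mul_apply, Perm.mul_apply, ← hk, apply_zpow_of_comm hg]; simp⟩

theorem bas_comm (hτ : τ ∈ bas σ) (hτ' : τ' ∈ bas σ) : τ * τ' = τ' * τ := by
  ext a
  obtain ⟨k, hk⟩ := hτ.2 a
  obtain ⟨l, hl⟩ := hτ'.2 a
  rw [Perm.mul_apply, Perm.mul_apply, ← hk, ← hl, apply_zpow_of_comm hτ.1,
    apply_zpow_of_comm hτ'.1, ← hk, ← hl, ← Perm.mul_apply, ← Perm.mul_apply (σ ^ k), ← zpow_add,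
    ← zpow_add, add_comm]

theorem bas_pow (hτ : τ ∈ bas σ) {N : ℕ} (hσ : σ ^ N = 1) : τ ^ N = 1 := by
  ext a
  obtain ⟨k, hk⟩ := hτ.2 a
  have : ∀ m : ℕ, (τ ^ m) a = ((σ ^ k) ^ m) a := fun m => by
    induction m with
    | zero => rfl
    | succ m ih =>
      rw [pow_succ', Perm.mul_apply, ih, ← zpow_natCast, ← zpow_mul, apply_zpow_of_comm hτ.1, ← hk,
        pow_succ, Perm.mul_apply, zpow_mul, zpow_natCast]
  rw [this, ← zpow_natCast, ← zpow_mul, mul_comm, zpow_mul, zpow_natCast, hσ, one_zpow]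

theorem bas_apply (hτ : τ ∈ bas σ) {a : α} (ha : σ a = a) : τ a = a := by
  obtain ⟨k, hk⟩ := hτ.2 a
  rw [← hk, Perm.zpow_apply_eq_self_of_apply_eq_self ha]

theorem cycleOf_mem_bas (σ : Perm α) (a : α) : σ.cycleOf a ∈ bas σ := by
  refine ⟨?_, fun b => ?_⟩
  · by_cases h : σ a = a
    · simp [(Perm.cycleOf_eq_one_iff σ).2 h]
    · exact Perm.self_mem_cycle_factors_commute
        (Perm.cycleOf_mem_cycleFactorsFinset_iff.2 (Perm.mem_support.2 h))
  · rw [Perm.cycleOf_apply]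
    split_ifs
    · exact ⟨1, by simp⟩
    · exact Perm.SameCycle.refl _ _

theorem card_bas_le (σ : Perm α) : Nat.card (bas σ) ≤ σ.cycleType.prod := by
  obtain ⟨b⟩ := Perm.Basis.nonempty σ
  have hm : ∀ (τ : bas σ) (c : σ.cycleFactorsFinset), τ.1 (b c) ∈ c.1.support := fun τ c => by
    rw [← b.cycleOf_eq c, Perm.mem_support_cycleOf_iff]
    exact ⟨τ.2.2 _, Perm.mem_cycleFactorsFinset_support_le c.2 (b.mem_support_self c)⟩
  let f : bas σ → ∀ c : σ.cycleFactorsFinset, c.1.support := fun τ c => ⟨_, hm τ c⟩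
  have hf : Function.Injective f := fun τ τ' h => by
    ext a
    rcases b.mem_fixedPoints_or_exists_zpow_eq a with ha | ⟨c, -, k, rfl⟩
    · rw [bas_apply τ.2 ha, bas_apply τ'.2 ha]
    · rw [apply_zpow_of_comm τ.2.1, apply_zpow_of_comm τ'.2.1]
      exact congrArg _ (congrArg Subtype.val (congrFun h c))
  refine (Nat.card_le_card_of_injective f hf).trans (le_of_eq ?_)
  rw [Nat.card_pi, Perm.cycleType_def, ← prod_eq_multiset_prod,
    ← prod_coe_sort σ.cycleFactorsFinset]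
  simp only [Nat.card_eq_fintype_card, Fintype.card_coe, Function.comp_apply]

theorem apply_ne_of_comm (hτ : τ * σ = σ * τ) {a : α} : σ (τ a) ≠ τ a ↔ σ a ≠ a := by
  rw [← Perm.mul_apply, ← hτ, Perm.mul_apply, τ.injective.ne_iff]

theorem exists_bas_agree (hτ : τ * σ = σ * τ) (h : ∀ a, σ a ≠ a → σ.SameCycle a (τ a)) :
    ∃ e ∈ bas σ, ∀ a, σ a ≠ a → e a = τ a := by
  have h1 : ∀ a, σ (τ a) ≠ τ a ↔ σ a ≠ a := fun a => apply_ne_of_comm hτ
  have h2 : ∀ a, σ a ≠ a → Perm.ofSubtype (τ.subtypePerm (p := fun a => σ a ≠ a) h1) a = τ a :=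
    fun a ha => Perm.ofSubtype_subtypePerm_of_mem _ ha
  have h3 : ∀ a, σ a = a → Perm.ofSubtype (τ.subtypePerm (p := fun a => σ a ≠ a) h1) a = a :=
    fun a ha => Perm.ofSubtype_apply_of_not_mem _ (by simpa using ha)
  refine ⟨_, ⟨?_, fun a => ?_⟩, h2⟩
  · ext a
    by_cases ha : σ a = a
    · simp [ha, h3 a ha]
    · rw [Perm.mul_apply, Perm.mul_apply, h2 a ha, h2 _ (σ.injective.ne ha), ← Perm.mul_apply, hτ,
        Perm.mul_apply]
  · by_cases ha : σ a = a
    · rw [h3 a ha]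
    · rw [h2 a ha]; exact h a ha

theorem sameCycle_of_comm_cycleOf {a : α} (h : τ * σ.cycleOf a = σ.cycleOf a * τ) (ha : σ a ≠ a) :
    σ.SameCycle a (τ a) := by
  have := (apply_ne_of_comm h (a := a)).2 (by simpa using ha)
  exact (Perm.mem_support_cycleOf_iff.1 (Perm.mem_support.2 this)).1

theorem card_support_le_sum_filter {p : ℕ} (hp : p.Prime) (hσ : σ ^ p = 1) (hc : Commute σ τ)
    (hτ : ¬ p ∣ orderOf τ) : #σ.support ≤ ((σ * τ).cycleType.filter (p ∣ ·)).sum := by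
  have key : ∀ a m, ((σ * τ) ^ m) a = a → σ a ≠ a → p ∣ m := fun a m h ha => by
    by_contra hm
    have h1 := Perm.pow_apply_eq_self_of_apply_eq_self h (orderOf τ)
    rw [← pow_mul, hc.mul_pow, mul_comm m, pow_mul τ, pow_orderOf_eq_one, one_pow, mul_one] at h1
    obtain ⟨k, hk⟩ := exists_pow_eq_self_of_coprime (x := σ) (n := orderOf τ * m)
      ((((Nat.Prime.coprime_iff_not_dvd hp).2 (mt hp.dvd_mul.1 (by tauto))).symm).of_dvd_right
        (orderOf_dvd_of_pow_eq_one hσ))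
    exact ha (hk ▸ Perm.pow_apply_eq_self_of_apply_eq_self h1 k)
  rw [Perm.cycleType_def, Multiset.filter_map, ← filter_val, ← sum_eq_multiset_sum]
  refine (card_le_card fun a ha => ?_).trans card_biUnion_le
  rw [Perm.mem_support] at ha
  have h1 : (σ * τ) a ≠ a := fun h => hp.one_lt.ne' (Nat.dvd_one.1 (key a 1 (by simpa) ha))
  refine mem_biUnion.2 ⟨(σ * τ).cycleOf a, mem_filter.2
    ⟨Perm.cycleOf_mem_cycleFactorsFinset_iff.2 (Perm.mem_support.2 h1), key a _ ?_ ha⟩, ?_⟩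
  · rw [Function.comp_apply, ← Perm.cycleOf_pow_apply_self,
      ← (Perm.isCycle_cycleOf _ h1).orderOf, pow_orderOf_eq_one, Perm.one_apply]
  · simpa using h1

theorem typ_eq_add (g : Perm α) (P : ℕ → Prop) [DecidablePred P] :
    ∃ μ, typ g = g.cycleType.filter P + μ :=
  ⟨_, by rw [typ_def, ← Multiset.filter_add_not P g.cycleType, add_assoc,
    Multiset.filter_add_not]⟩

theorem exists_cycleType_eq {p : ℕ} (hp : p.Prime) (hσ : σ ^ p = 1) :
    ∃ w, σ.cycleType = Multiset.replicate w p ∧ #σ.support = p * w := by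
  have := Fact.mk hp
  have h := Perm.cycleType_of_pow_prime_eq_one hσ
  exact ⟨_, h, by rw [← Perm.sum_cycleType, h]; simp [mul_comm]⟩

/-- a central element of order dividing `p` with maximal support -/
theorem exists_max_support {H : Type*} [Group H] [Finite H] (π : H →* Perm α) {p : ℕ}
    [hp : Fact p.Prime] (hπ : ∀ h, π h = 1 → h ^ p = 1 → h = 1) {D : Subgroup H}
    (hD : IsPGroup p D) : ∃ x ∈ D, D ≤ Subgroup.centralizer {x} ∧ x ^ p = 1 ∧
      ∀ d ∈ D, (∀ a, π x a ≠ a → π d a = a) → d = 1 := by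
  obtain ⟨x, ⟨hx, hc, hxp⟩, hm⟩ := Set.exists_max_image
    {x ∈ D | D ≤ Subgroup.centralizer {x} ∧ x ^ p = 1} (fun x => #(π x).support) (Set.toFinite _)
    ⟨1, one_mem _, fun _ _ => by simp [Subgroup.mem_centralizer_singleton_iff], one_pow _⟩
  refine ⟨x, hx, hc, hxp, ?_⟩
  let N : Subgroup H :=
    { carrier := {d ∈ D | ∀ a, π x a ≠ a → π d a = a}
      one_mem' := ⟨one_mem _, by simp⟩
      mul_mem' := fun h h' => ⟨mul_mem h.1 h'.1, fun a ha => by simp [h.2 a ha, h'.2 a ha]⟩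
      inv_mem' := fun h => ⟨inv_mem h.1, fun a ha => by
        rw [map_inv, Perm.inv_eq_iff_eq, h.2 a ha]⟩ }
  suffices N = ⊥ from fun d hd h => (Subgroup.eq_bot_iff_forall _).1 this d ⟨hd, h⟩
  by_contra hN
  have hn : ∀ g ∈ D, ∀ d ∈ N, g * d * g⁻¹ ∈ N := fun g hg d hd =>
    ⟨mul_mem (mul_mem hg hd.1) (inv_mem hg), fun a ha => by
      have e : π g⁻¹ * π x = π x * π g⁻¹ := by
        rw [← map_mul, ← map_mul, Subgroup.mem_centralizer_singleton_iff.1 (hc (inv_mem hg))]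
      simp only [map_mul, Perm.mul_apply]
      rw [hd.2 _ ((apply_ne_of_comm e).2 ha)]
      simp⟩
  obtain ⟨y, hy, hy1⟩ := (Subgroup.bot_or_exists_ne_one _).resolve_left
    (inf_centralizer_ne_bot_of_isPGroup hD (hD.to_le fun d (hd : d ∈ N) => hd.1)
      (fun g hg => Subgroup.mem_normalizer_iff.2 fun d => ⟨hn g hg d, fun h => by
        simpa [mul_assoc] using hn _ (inv_mem hg) _ h⟩) hN)
  obtain ⟨k, hk⟩ := IsPGroup.iff_orderOf.1 hD ⟨y, hy.1.1⟩
  rw [← Subgroup.orderOf_coe] at hk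
  have hk0 : k ≠ 0 := by rintro rfl; exact hy1 (by simpa using hk)
  have h1 : y ^ p ^ (k - 1) ≠ 1 := pow_ne_one_of_lt_orderOf (pow_pos hp.out.pos _).ne'
    (hk ▸ Nat.pow_lt_pow_right hp.out.one_lt (by omega))
  have h2 : (y ^ p ^ (k - 1)) ^ p = 1 := by
    rw [← pow_mul, ← pow_succ, Nat.sub_add_cancel (by omega), ← hk, pow_orderOf_eq_one]
  have h3 := pow_mem hy (p ^ (k - 1))
  generalize y ^ p ^ (k - 1) = u at h1 h2 h3
  have h4 : Commute x u := h3.2 x hx
  have := hm (x * u) ⟨mul_mem hx h3.1.1, fun d hd => Subgroup.mem_centralizer_singleton_iff.2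
    (Commute.mul_right (Subgroup.mem_centralizer_singleton_iff.1 (hc hd)) (h3.2 d hd)),
    by rw [h4.mul_pow, hxp, h2, mul_one]⟩
  have h5 : Perm.Disjoint (π x) (π u) := fun a => (em _).imp_right (h3.1.2 a)
  simp only [map_mul, h5.card_support_mul, add_le_iff_nonpos_right, Nat.le_zero,
    Perm.card_support_eq_zero] at this
  exact h1 (hπ u this h2)

end AltCov
end Cfsg
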