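import Cfsg.Agent.Spin.SpinChar
import Cfsg.Agent.Spin.PermBase
import Cfsg.Agent.Spin.Blk

/-! Robinson's bound for covers of alternating groups, odd primes. -/

set_option autoImplicit false
set_option linter.unusedSectionVars false

namespace Cfsg
namespace AltCov

open Equiv Finset SymCh

variable {α : Type} [Fintype α] [DecidableEq α] {H : Type*} [Group H] {π : H →* Perm α}

theorem eq_one_of_odd {c : H} (h : c * c = 1) {N : ℕ} (hN : Odd N) (h' : c ^ N = 1) : c = 1 := by
  obtain ⟨k, rfl⟩ := hN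
  rwa [pow_succ, pow_mul, pow_two, h, one_pow, one_mul] at h'

theorem IsCov.comm_of_odd (C : IsCov π) (hz : ∀ z, π z = 1 → z * z = 1) {g h : H}
    (e : π g * π h = π h * π g) {N : ℕ} (hN : Odd N) (hh : h ^ N = 1) : g * h = h * g := by
  have h1 : π (g * h * g⁻¹ * h⁻¹) = 1 := by simp [e]
  have h2 : (g * h * g⁻¹ * h⁻¹ * h) ^ N = 1 := by
    rw [inv_mul_cancel_right, conj_pow, hh]; simp
  rw [(Commute.symm (C.cen _ h1 h)).mul_pow, hh, mul_one] at h2
  have := eq_one_of_odd (hz _ h1) hN h2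
  rwa [mul_inv_eq_one, mul_inv_eq_iff_eq_mul] at this

theorem IsCov.factorial_dvd (C : IsCov π) [Nontrivial α] :
    (Fintype.card α).factorial ∣ 2 * Nat.card H := by
  rw [← Fintype.card_perm, ← Nat.card_eq_fintype_card, ← two_mul_nat_card_alternatingGroup]
  exact mul_dvd_mul_left _ (Subgroup.card_dvd_of_surjective _ C.surjective_codRestrict)

theorem card_center_eq {D : Subgroup H} : Nat.card (Subgroup.center D) =
    Nat.card (D ⊓ Subgroup.centralizer (D : Set H) : Subgroup H) := by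
  rw [← Subgroup.card_map_of_injective D.subtype_injective]
  congr 2
  ext x
  simp only [Subgroup.mem_map, Subgroup.mem_center_iff, Subgroup.mem_inf,
    Subgroup.mem_centralizer_iff]
  constructor
  · rintro ⟨y, hy, rfl⟩
    exact ⟨y.2, fun g hg => congrArg Subtype.val (hy ⟨g, hg⟩)⟩
  · rintro ⟨h1, h2⟩
    exact ⟨⟨x, h1⟩, fun g => Subtype.ext (h2 g g.2), rfl⟩

variable [Finite H] {p : ℕ} {M : Ideal AlgInt} {B : Set (IrrCharacter H)} {D : Subgroup H}

/-- a self-centralizing abelian subgroup of small order -/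
theorem robGoal_of_self_cent (hM : IsPModular p M) (hB : IsPBlock M B)
    (hD : IsDefectGroup p M B D) {χ : IrrCharacter H} (hχ : χ ∈ B) {k : ℕ}
    (hk : (charDegree χ.1).factorization p + k ≤ (Nat.card H).factorization p) {E : Subgroup H}
    (hE : E ≤ D) (hc : ∀ a ∈ E, ∀ b ∈ E, a * b = b * a)
    (hs : ∀ d ∈ D, (∀ e ∈ E, d * e = e * d) → d ∈ E) (hcard : Nat.card E ≤ p ^ k) :
    RobGoal p B D χ := by
  by_cases h : E ≤ Subgroup.centralizer (D : Set H)
  · obtain rfl : E = D := le_antisymm hE fun d hd => hs d hd fun e he => h he d hd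
    exact hD.robGoal_of_comm hM hB hχ hk ⟨⟨fun a b => Subtype.ext (hc a a.2 b b.2)⟩⟩ hcard
  · refine hD.robGoal_of_lt hM hB hχ hk (lt_of_lt_of_le ?_ hcard)
    rw [card_center_eq]
    refine Set.Finite.card_lt_card (Set.toFinite _) (SetLike.coe_ssubset_coe.2 (lt_of_le_of_ne
      (fun d hd => hs d hd.1 fun e he => (hd.2 e (hE he)).symm) fun e => h (e ▸ inf_le_right)))

theorem IsCov.robGoal_odd (C : IsCov π) (h8 : 8 ≤ Fintype.card α) (hp : commutator H = ⊤)
    (hM : IsPModular p M) (hp2 : p ≠ 2) (hB : IsPBlock M B) (hD : IsDefectGroup p M B D)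
    {χ : IrrCharacter H} (hχ : χ ∈ B) : RobGoal p B D χ := by
  have hpp := hM.prime
  have := Fact.mk hpp
  have : Nontrivial α := Fintype.one_lt_card_iff_nontrivial.1 (by omega)
  have ho : Odd p := hpp.odd_of_ne_two hp2
  obtain ⟨z, hz1, hz2, hz⟩ := C.exists_ker_pair h8 hp
  have hk : ∀ h, π h = 1 → h * h = 1 := fun h hh => by rcases hz h hh with rfl | rfl <;> simp [hz2]
  have hk' : ∀ h, π h = 1 → h ^ p = 1 → h = 1 := fun h hh => eq_one_of_odd (hk h hh) ho
  obtain ⟨x, hx, hc, hxp, hm⟩ := exists_max_support π hk' hD.isPGroup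
  have hσ : π x ^ p = 1 := by rw [← map_pow, hxp, map_one]
  obtain ⟨w, hw, hw'⟩ := exists_cycleType_eq hpp hσ
  have hcm : ∀ {a b}, π a ∈ bas (π x) → π b ∈ bas (π x) → b ^ p = 1 → a * b = b * a :=
    fun ha hb => C.comm_of_odd hk (bas_comm ha hb) ho
  let E : Subgroup H :=
    { carrier := {h | π h ∈ bas (π x) ∧ h ^ p = 1}
      one_mem' := by simp
      mul_mem' := fun h h' => ⟨map_mul π _ _ ▸ mul_mem h.1 h'.1, by
        rw [Commute.mul_pow (hcm h.1 h'.1 h'.2), h.2, h'.2, mul_one]⟩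
      inv_mem' := fun h => ⟨map_inv π _ ▸ inv_mem h.1, by rw [inv_pow, h.2, inv_one]⟩ }
  have hl : ∀ e ∈ bas (π x), ∃ h ∈ E, π h = e := fun e he => by
    have h1 := bas_pow he hσ
    obtain ⟨h, rfl⟩ := C.surj e (by
      have := congrArg Perm.sign h1
      rw [map_pow, map_one] at this
      exact eq_one_of_odd (Int.units_mul_self _) ho this)
    rcases hz _ (map_pow π h p ▸ h1) with h2 | h2
    · exact ⟨h, ⟨he, h2⟩, rfl⟩
    · refine ⟨h * z, ⟨by simpa [hz1] using he, ?_⟩, by simp [hz1]⟩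
      obtain ⟨k, rfl⟩ := ho
      rw [Commute.mul_pow (C.cen z hz1 h), h2, pow_succ', pow_mul, pow_two, hz2]
      simp [hz2]
  have hE : E ≤ D := hD.le_of_central hM hB hx hc (fun e => ⟨1, Subtype.ext (by simpa using e.2.2)⟩)
    (fun e he => Subgroup.mem_centralizer_singleton_iff.2 (C.comm_of_odd hk he.1.1 ho hxp))
    fun g hg e he => ⟨by
      have := congrArg π (Subgroup.mem_centralizer_singleton_iff.1 hg)
      simpa using bas_conj (by simpa using this) he.1, by rw [conj_pow, he.2]; simp⟩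
  obtain ⟨χ', h1, h2⟩ := C.exists_pair h8 hp χ
  obtain ⟨y, hy, hy', h0⟩ := hD.exists_section_add_ne_zero hM hB hp2 hx hc hχ χ' h1
  obtain ⟨μ, hμ⟩ := typ_eq_add (π (x * y)) (p ∣ ·)
  have h3 := h2 p hpp hp2 _ h0 _ _ hμ (fun r hr => (Multiset.mem_filter.1 hr).2) w (by
    rw [← hw', map_mul]
    exact card_support_le_sum_filter hpp hσ (hy.map π) fun h => hy' (h.trans (orderOf_map_dvd _ _)))
  refine robGoal_of_self_cent hM hB hD hχ (h3.trans ?_) hE (fun a ha b hb => hcm ha.1 hb.1 hb.2)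
    (fun d hd h => ?_) ?_
  · have := (Nat.factorization_le_iff_dvd (Nat.factorial_ne_zero _)
      (mul_ne_zero two_ne_zero Nat.card_pos.ne')).2 C.factorial_dvd p
    rwa [Nat.factorization_mul two_ne_zero Nat.card_pos.ne', Finsupp.add_apply,
      Nat.prime_two.factorization, Finsupp.single_eq_of_ne hp2, zero_add] at this
  · obtain ⟨e, he, h4⟩ := exists_bas_agree (τ := π d) (σ := π x) (by
      simpa using congrArg π (Subgroup.mem_centralizer_singleton_iff.1 (hc hd))) fun a ha => by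
        obtain ⟨c, hc, e⟩ := hl _ (cycleOf_mem_bas (π x) a)
        exact sameCycle_of_comm_cycleOf (by rw [← e, ← map_mul, h c hc, map_mul]) ha
    obtain ⟨e, he', rfl⟩ := hl e he
    have := hm (e⁻¹ * d) (mul_mem (inv_mem (hE he')) hd) fun a ha => by simp [← h4 a ha]
    rwa [← inv_mul_eq_one.1 this]
  · refine (Nat.card_le_card_of_injective (fun e : E => (⟨π e, e.2.1⟩ : bas (π x)))
      fun a b h => ?_).trans ((card_bas_le _).trans (by simp [hw]))
    have := hk' (a * (b : H)⁻¹) (by simpa [mul_inv_eq_one] using h) (mul_mem a.2 (inv_mem b.2)).2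
    exact Subtype.ext (mul_inv_eq_one.1 this)

end AltCov
end Cfsg
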