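import Cfsg.Agent.Spin.QFun

/-! The spin character values `X^α_ρ`: Murnaghan–Nakayama rule, Pieri rule, orthogonality. -/

set_option autoImplicit false

namespace Cfsg
namespace SpinQ

open Finset SymCh

/-- the functional `f ↦ ⟨Q_α, f⟩` -/
noncomputable def XX : List ℤ → Gam →ₗ[ℚ] ℚ
  | [] => MvPolynomial.lcoeff ℚ 0
  | a :: α => XX α ∘ₗ BB a

theorem XX_cons (a : ℤ) (α : List ℤ) (f : Gam) : XX (a :: α) f = XX α (BB a f) := rfl

theorem XX_nil (f : Gam) : XX [] f = MvPolynomial.constantCoeff f := rfl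

theorem XX_nil_px_mul (r : ℕ) (f : Gam) : XX [] (px r * f) = 0 := by simp [XX_nil]

theorem XX_nil_one : XX [] 1 = 1 := by simp [XX_nil]

theorem constantCoeff_qq {k : ℕ} (h : k ≠ 0) : MvPolynomial.constantCoeff (qq k) = 0 := by
  have h1 := congrArg MvPolynomial.constantCoeff (newton' k)
  rw [map_mul, map_natCast, map_sum, sum_eq_zero, mul_eq_zero] at h1
  · exact h1.resolve_left (by exact_mod_cast h)
  · intro r _
    split_ifs <;> simp

theorem XX_nil_qz_mul {k : ℤ} (h : k ≠ 0) (f : Gam) : XX [] (qz k * f) = 0 := by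
  rw [XX_nil, map_mul, qz]
  split_ifs
  · simp
  · rw [constantCoeff_qq (by omega), zero_mul]

theorem XX_swap (l₁ l₂ : List ℤ) (a b : ℤ) (f : Gam) :
    XX (l₁ ++ a :: b :: l₂) f + XX (l₁ ++ b :: a :: l₂) f =
      if a + b = 0 then 2 * sz a * XX (l₁ ++ l₂) f else 0 := by
  induction l₁ generalizing f with
  | nil =>
    simp only [List.nil_append, XX_cons]
    rw [← map_add, BB_BB]
    split_ifs <;> simp
  | cons c l ih => exact ih _

theorem XX_singleton_neg {a : ℤ} (h : a < 0) (f : Gam) : XX [a] f = 0 := by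
  induction f using Gam_induction generalizing a with
  | h1 => rw [XX_cons, BB_one, sq, map_smul, ← mul_one (qz _), XX_nil_qz_mul (by omega), smul_zero]
  | hs c f hf => rw [map_smul, hf h, smul_zero]
  | ha f g hf hg => rw [map_add, hf h, hg h, add_zero]
  | hm r f hf =>
    rw [XX_cons, BB_px_mul, map_add, XX_nil_px_mul, zero_add]
    split_ifs
    · exact hf (by omega)
    · simp

theorem XX_singleton_zero (f : Gam) : XX [0] f = XX [] f := by
  induction f using Gam_induction with
  | h1 => rw [XX_cons, BB_one, neg_zero, sq_zero]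
  | hs c f hf => rw [map_smul, hf, map_smul]
  | ha f g hf hg => rw [map_add, hf, hg, map_add]
  | hm r f hf =>
    rw [XX_cons, BB_px_mul, map_add, XX_nil_px_mul, XX_nil_px_mul, zero_add]
    split_ifs with h
    · exact XX_singleton_neg (by have := h.pos; omega) f
    · simp

theorem XX_concat_neg (l : List ℤ) {a : ℤ} (h : a < 0) (f : Gam) : XX (l ++ [a]) f = 0 := by
  induction l generalizing f with
  | nil => exact XX_singleton_neg h f
  | cons c l ih => exact ih _

theorem XX_concat_zero (l : List ℤ) (f : Gam) : XX (l ++ [0]) f = XX l f := by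
  induction l generalizing f with
  | nil => exact XX_singleton_zero f
  | cons c l ih => exact ih _

/-- all lists obtained by lowering one entry by `r` -/
def shifts (r : ℤ) : List ℤ → List (List ℤ)
  | [] => []
  | a :: α => ((a - r) :: α) :: (shifts r α).map (a :: ·)

/-- the Murnaghan–Nakayama–Morris rule -/
theorem XX_px_mul (α : List ℤ) (r : ℕ) (f : Gam) :
    XX α (px r * f) = if Odd r then ((shifts r α).map (XX · f)).sum else 0 := by
  induction α generalizing f with
  | nil => simp [XX_nil_px_mul, shifts]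
  | cons a α ih =>
    rw [XX_cons, BB_px_mul, map_add, ih]
    split_ifs
    · simp only [shifts, List.map_cons, List.sum_cons, List.map_map]
      rw [add_comm]; rfl
    · simp

theorem lt_of_mem_shifts {r m : ℤ} (hr : 0 ≤ r) {α β : List ℤ} (h : ∀ a ∈ α, a < m)
    (hβ : β ∈ shifts r α) : ∀ b ∈ β, b < m := by
  induction α generalizing β with
  | nil => simp [shifts] at hβ
  | cons a α ih =>
    simp only [shifts, List.mem_cons, List.mem_map, forall_eq_or_imp] at hβ h
    rcases hβ with rfl | ⟨γ, hγ, rfl⟩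
    · simp only [List.mem_cons, forall_eq_or_imp]
      exact ⟨by omega, h.2⟩
    · simp only [List.mem_cons, forall_eq_or_imp]
      exact ⟨h.1, ih h.2 hγ⟩

theorem XX_neg_cons {a : ℤ} (ha : a < 0) {α : List ℤ} (h : -a ∉ α) (f : Gam) :
    XX (a :: α) f = 0 := by
  induction α generalizing f with
  | nil => exact XX_singleton_neg ha f
  | cons b α ih =>
    rw [List.mem_cons, not_or] at h
    have h1 := XX_swap [] α a b f
    rw [if_neg (by omega), List.nil_append, List.nil_append, XX_cons b, ih h.2, add_zero] at h1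
    exact h1

theorem XX_qz_mul_of_lt {m : ℤ} (hm : 0 < m) {α : List ℤ} (h : ∀ a ∈ α, a < m) (f : Gam) :
    XX α (qz m * f) = 0 := by
  induction f using Gam_induction generalizing α with
  | h1 =>
    have h1 := XX_neg_cons (a := -m) (by omega) (α := α) (fun h' => by have := h _ h'; omega) 1
    rw [XX_cons, BB_one, neg_neg, sq, map_smul, smul_eq_mul, mul_eq_zero] at h1
    rw [mul_one]
    exact h1.resolve_left (sz_ne_zero _)
  | hs c f hf => rw [mul_smul_comm, map_smul, hf h, smul_zero]
  | ha f g hf hg => rw [mul_add, map_add, hf h, hg h, add_zero]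
  | hm r f hf =>
    rw [mul_left_comm, XX_px_mul]
    split_ifs
    · refine List.sum_eq_zero fun x hx => ?_
      obtain ⟨β, hβ, rfl⟩ := List.mem_map.1 hx
      exact hf (lt_of_mem_shifts (by omega) h hβ)
    · rfl

theorem XX_cons_qz_mul {m : ℤ} (hm : 0 < m) {α : List ℤ} (h : ∀ a ∈ α, a < m) (f : Gam) :
    XX (m :: α) (qz m * f) = 2 * XX α f := by
  induction f using Gam_induction generalizing α with
  | h1 =>
    have h1 := XX_swap [] α (-m) m 1
    rw [if_pos (by omega), List.nil_append, List.nil_append, List.nil_append, XX_cons m,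
      XX_neg_cons (α := α) (by omega) (fun h' => by have := h _ h'; omega), add_zero, XX_cons,
      BB_one,
      neg_neg, sq, map_smul, smul_eq_mul, sz_neg, mul_comm 2, mul_assoc] at h1
    rw [mul_one]
    exact mul_left_cancel₀ (sz_ne_zero _) h1
  | hs c f hf => rw [mul_smul_comm, map_smul, hf h, map_smul, smul_eq_mul, smul_eq_mul]; ring
  | ha f g hf hg => rw [mul_add, map_add, hf h, hg h, map_add, mul_add]
  | hm r f hf =>
    rw [mul_left_comm, XX_px_mul, XX_px_mul]
    split_ifs with hr
    · simp only [shifts, List.map_cons, List.sum_cons, List.map_map]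
      rw [XX_qz_mul_of_lt hm, zero_add, ← List.sum_map_mul_left]
      · congr 1
        exact List.map_congr_left fun β hβ => hf (lt_of_mem_shifts (by omega) h hβ)
      · have := hr.pos
        simp only [List.mem_cons, forall_eq_or_imp]
        exact ⟨by omega, h⟩
    · simp

theorem XX_cons_one_of_pos {a : ℤ} (h : 0 < a) (δ : List ℤ) : XX (a :: δ) 1 = 0 := by
  rw [XX_cons, BB_one, sq_of_neg (by omega), map_zero]

theorem XX_zero_cons_one (δ : List ℤ) : XX (0 :: δ) 1 = XX δ 1 := by
  rw [XX_cons, BB_one, neg_zero, sq_zero]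

/-! ### integrality -/

/-- the subring generated by the `q`'s -/
noncomputable def Lam : Subring Gam := Subring.closure (Set.range qq)

theorem qq_mem (k : ℕ) : qq k ∈ Lam := Subring.subset_closure ⟨k, rfl⟩

theorem sq_mem (k : ℤ) : sq k ∈ Lam := by
  by_cases h : k < 0
  · rw [sq_of_neg h]; exact zero_mem _
  obtain ⟨k, rfl⟩ := Int.eq_ofNat_of_zero_le (not_lt.1 h)
  rw [sq, qz_natCast, sz_natCast]
  rcases neg_one_pow_eq_or ℚ k with h | h <;> rw [h]
  · simpa using qq_mem k
  · simpa using neg_mem (qq_mem k)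

theorem LL_map_mem (a : ℤ) (P : Polynomial Lam) : LL a (P.map Lam.subtype) ∈ Lam := by
  induction P using Polynomial.induction_on' with
  | add P Q hP hQ => rw [Polynomial.map_add, map_add]; exact add_mem hP hQ
  | monomial j c =>
    rw [Polynomial.map_monomial, LL_monomial]
    exact mul_mem c.2 (sq_mem _)

theorem exists_SS_eq {f : Gam} (hf : f ∈ Lam) : ∃ P : Polynomial Lam,
    SS f = Polynomial.C f + Polynomial.C 2 * (Polynomial.X ^ 1 * P.map Lam.subtype) := by
  induction hf using Subring.closure_induction with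
  | mem f hf =>
    obtain ⟨k, rfl⟩ := hf
    refine ⟨∑ j ∈ range k, Polynomial.monomial j ⟨qq (k - (j + 1)), qq_mem _⟩, ?_⟩
    rw [SS_qq, sum_range_succ', add_comm, Polynomial.map_sum, mul_sum, mul_sum]
    refine congrArg₂ (· + ·) ?_ ?_
    · simp [cz]
    · refine sum_congr rfl fun j _ => ?_
      rw [Polynomial.map_monomial, Polynomial.X_pow_mul_monomial, Polynomial.C_mul_monomial, cz,
        if_neg (by omega), if_neg (by omega), two_smul, two_mul]
      rfl
  | zero => exact ⟨0, by simp⟩
  | one => exact ⟨0, by simp⟩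
  | add f g _ _ hf hg =>
    obtain ⟨P, hP⟩ := hf
    obtain ⟨Q, hQ⟩ := hg
    exact ⟨P + Q, by rw [map_add, hP, hQ, map_add, Polynomial.map_add]; ring⟩
  | neg f _ hf =>
    obtain ⟨P, hP⟩ := hf
    exact ⟨-P, by rw [map_neg, hP, map_neg, Polynomial.map_neg]; ring⟩
  | mul f g hf' hg' hf hg =>
    obtain ⟨P, hP⟩ := hf
    obtain ⟨Q, hQ⟩ := hg
    refine ⟨Polynomial.C ⟨f, hf'⟩ * Q + P * Polynomial.C ⟨g, hg'⟩ +
      2 * Polynomial.X * P * Q, ?_⟩
    rw [map_mul, hP, hQ, map_mul]
    simp only [Polynomial.map_add, Polynomial.map_mul, Polynomial.map_C, Polynomial.map_X,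
      Polynomial.map_ofNat, Subring.subtype_apply, map_ofNat]
    ring

theorem exists_BB_eq {f : Gam} (hf : f ∈ Lam) (a : ℤ) :
    ∃ g ∈ Lam, BB a f = f * sq (-a) + (2 : ℚ) • g := by
  obtain ⟨P, hP⟩ := exists_SS_eq hf
  refine ⟨_, LL_map_mem (a - (1 : ℕ)) P, ?_⟩
  rw [BB_apply, hP, map_add, LL_C_mul, LL_X_pow_mul, ← Polynomial.monomial_zero_left, LL_monomial,
    two_smul, two_mul]
  simp

theorem exists_int_XX (δ : List ℤ) {f : Gam} (hf : f ∈ Lam) :
    ∃ z : ℤ, XX δ f = 2 ^ δ.countP (0 < ·) * z := by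
  induction δ generalizing f with
  | nil =>
    simp only [XX_nil, List.countP_nil, pow_zero, one_mul]
    induction hf using Subring.closure_induction with
    | mem f hf =>
      obtain ⟨k, rfl⟩ := hf
      rcases eq_or_ne k 0 with rfl | h
      · exact ⟨1, by simp⟩
      · exact ⟨0, by simp [constantCoeff_qq h]⟩
    | zero => exact ⟨0, by simp⟩
    | one => exact ⟨1, by simp⟩
    | add f g _ _ hf hg =>
      obtain ⟨P, hP⟩ := hf
      obtain ⟨Q, hQ⟩ := hg
      exact ⟨P + Q, by simp [hP, hQ]⟩
    | neg f _ hf =>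
      obtain ⟨P, hP⟩ := hf
      exact ⟨-P, by simp [hP]⟩
    | mul f g hf' hg' hf hg =>
      obtain ⟨P, hP⟩ := hf
      obtain ⟨Q, hQ⟩ := hg
      exact ⟨P * Q, by simp [hP, hQ]⟩
  | cons a δ ih =>
    obtain ⟨g, hg, h⟩ := exists_BB_eq hf a
    obtain ⟨z, hz⟩ := ih hg
    rw [XX_cons, h, map_add, map_smul, hz, List.countP_cons]
    by_cases ha : 0 < a
    · refine ⟨z, ?_⟩
      rw [sq_of_neg (by omega)]
      simp [ha]; ring
    · obtain ⟨w, hw⟩ := ih (mul_mem hf (sq_mem (-a)))
      refine ⟨w + 2 * z, ?_⟩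
      rw [hw]
      simp [ha]; ring

end SpinQ
end Cfsg
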