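import Cfsg.Agent.Spin.Wt

/-! Degrees of spin characters and the bar-weight bound on their defects. -/

set_option autoImplicit false

namespace Cfsg
namespace SpinQ

open Finset SymCh

theorem XX_ne_zero_cases {a : ℤ} (ha : a ≤ 0) (l₁ l₂ : List ℤ) {f : Gam}
    (h : XX (l₁ ++ a :: l₂) f ≠ 0) : (a = 0 ∧ XX (l₁ ++ l₂) f ≠ 0) ∨
      ∃ l₃ l₄, l₂ = l₃ ++ -a :: l₄ ∧ XX (l₁ ++ (l₃ ++ l₄)) f ≠ 0 := by
  induction l₂ generalizing l₁ with
  | nil =>
    rcases ha.eq_or_lt with rfl | ha
    · exact Or.inl ⟨rfl, by rwa [XX_concat_zero, ← List.append_nil l₁] at h⟩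
    · exact (h (XX_concat_neg _ ha f)).elim
  | cons b l ih =>
    have h1 := XX_swap l₁ l a b f
    by_cases h2 : XX (l₁ ++ b :: a :: l) f = 0
    · rw [h2, add_zero] at h1
      rw [h1] at h
      split_ifs at h with h3
      · exact Or.inr ⟨[], l, by rw [show b = -a by omega]; rfl, right_ne_zero_of_mul h⟩
      · exact (h rfl).elim
    · rw [← List.singleton_append, ← List.append_assoc] at h2
      rcases ih _ h2 with h3 | ⟨l₃, l₄, rfl, h3⟩
      · exact Or.inl ⟨h3.1, by simpa using h3.2⟩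
      · exact Or.inr ⟨b :: l₃, l₄, rfl, by simpa using h3⟩

theorem XX_eq_zero_of_mem {a : ℤ} (ha : 0 < a) (l₁ : List ℤ) {l₂ : List ℤ} (h : ∀ b ∈ l₂, 0 ≤ b)
    (h' : a ∈ l₂) (f : Gam) : XX (l₁ ++ a :: l₂) f = 0 := by
  induction l₂ generalizing l₁ with
  | nil => simp at h'
  | cons b l ih =>
    simp only [List.mem_cons, forall_eq_or_imp] at h
    have h1 := XX_swap l₁ l a b f
    rw [if_neg (by omega)] at h1
    rcases List.mem_cons.1 h' with rfl | h2
    · linarith
    · have := ih (l₁ ++ [b]) h.2 h2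
      rw [List.append_assoc, List.singleton_append] at this
      linarith

theorem nodup_of_XX_ne_zero (l₁ : List ℤ) {l : List ℤ} (h : ∀ b ∈ l, 0 < b) {f : Gam}
    (h0 : XX (l₁ ++ l) f ≠ 0) : l.Nodup := by
  induction l generalizing l₁ with
  | nil => simp
  | cons a l ih =>
    simp only [List.mem_cons, forall_eq_or_imp] at h
    refine List.nodup_cons.2 ⟨fun h' => h0 (XX_eq_zero_of_mem h.1 _ (fun b hb => (h.2 b hb).le) h' f),
      ih (l₁ ++ [a]) h.2 (by simpa using h0)⟩

theorem WW_nonneg {p : ℕ} (hp : p.Prime) (hp2 : p ≠ 2) {l : List ℤ} {f : Gam} (h : XX l f ≠ 0) :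
    0 ≤ WW p l := by
  induction hn : l.length using Nat.strong_induction_on generalizing l with
  | _ n ih =>
  by_cases h1 : ∀ b ∈ l, 0 < b
  · have := Wm_nonneg p (nodup_of_XX_ne_zero [] h1 h) fun b hb => (h1 b hb).le
    rw [WW]; omega
  push Not at h1
  obtain ⟨a, ha, ha0⟩ := h1
  obtain ⟨l₁, l₂, rfl⟩ := List.append_of_mem ha
  rw [WW_perm _ List.perm_middle]
  rcases XX_ne_zero_cases ha0 l₁ l₂ h with ⟨rfl, h2⟩ | ⟨l₃, l₄, rfl, h2⟩
  · rw [WW_zero_cons]
    exact ih _ (by rw [← hn]; simp) h2 rfl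
  · rw [WW_perm _ (((List.perm_middle.append_left l₁).trans List.perm_middle).cons a),
      WW_neg_cons hp hp2]
    exact ih _ (by rw [← hn]; simp) h2 rfl

theorem sum_le_mul_WW {p : ℕ} (hp : p.Prime) (hp2 : p ≠ 2) {ν : Multiset ℕ} (hν : ∀ r ∈ ν, p ∣ r)
    {l : List ℤ} {f : Gam} (h : XX l (pw ν * f) ≠ 0) : (ν.sum : ℤ) ≤ p * WW p l := by
  induction ν using Multiset.induction_on generalizing l with
  | empty => simpa using mul_nonneg (Nat.cast_nonneg p) (WW_nonneg hp hp2 h)
  | cons r ν ih =>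
    rw [pw_cons, mul_assoc, XX_px_mul] at h
    split_ifs at h
    · obtain ⟨x, hx, hx0⟩ : ∃ x ∈ (shifts r l).map (XX · (pw ν * f)), x ≠ 0 := by
        by_contra hc
        push Not at hc
        exact h (List.sum_eq_zero hc)
      obtain ⟨β, hβ, rfl⟩ := List.mem_map.1 hx
      obtain ⟨k, rfl⟩ := hν r (Multiset.mem_cons_self _ _)
      have h1 := ih (fun s hs => hν s (Multiset.mem_cons_of_mem hs)) hx0
      push_cast at hβ
      rw [WW, Wm_of_mem_shifts (by exact_mod_cast hp.ne_zero) hβ, Ep_of_mem_shifts hβ] at h1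
      rw [Multiset.sum_cons, WW, Nat.cast_add, Nat.cast_mul]
      linarith
    · exact (h rfl).elim

/-- the reduced degree -/
noncomputable def GG (l : List ℤ) : ℚ := DM l / (DP l * FF l)

theorem GG_perm {l l' : List ℤ} (h : l.Perm l') : GG l = GG l' := by
  rw [GG, GG, DM_perm h, DP_perm h, FF_perm h]

theorem GG_cons (a : ℤ) (l : List ℤ) : GG (a :: l) =
    GG l * (l.map fun b : ℤ => (|(a : ℚ) - b| / |(a : ℚ) + b|)).prod / a.toNat.factorial := by
  have h : (l.map fun b : ℤ => (|(a : ℚ) - b| / |(a : ℚ) + b|)).prod =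
      ((l.map fun b => (a - b).natAbs).prod : ℕ) / ((l.map fun b => (a + b).natAbs).prod : ℕ) := by
    induction l with
    | nil => simp
    | cons c l ih =>
      rw [List.map_cons, List.prod_cons, ih]
      simp only [List.map_cons, List.prod_cons, Nat.cast_mul, Nat.cast_natAbs, Int.cast_abs,
        Int.cast_sub, Int.cast_add]
      ring
  rw [h, GG, GG, DM, DP, FF_cons]
  push_cast
  ring

theorem sum_map_shifts_perm (r : ℤ) {l : List ℤ} (hl : l.Nodup) (F : List ℤ → ℚ)
    (hF : ∀ l l', l.Perm l' → F l = F l') :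
    ((shifts r l).map F).sum = ∑ a ∈ l.toFinset, F ((a - r) :: l.erase a) := by
  induction l generalizing F with
  | nil => simp [shifts]
  | cons c l ih =>
    rw [List.nodup_cons] at hl
    rw [shifts, List.map_cons, List.sum_cons, List.map_map, List.toFinset_cons,
      sum_insert (by simpa using hl.1), List.erase_cons_head,
      ih hl.2 (F ∘ fun x => c :: x) fun l l' h => hF _ _ (h.cons c)]
    congr 1
    refine sum_congr rfl fun a ha => ?_
    have : c ≠ a := by rintro rfl; exact hl.1 (by simpa using ha)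
    rw [List.erase_cons_tail (by simpa using this)]
    exact hF _ _ (List.Perm.swap _ _ _)

theorem sum_prod_div_prod {ι : Type*} [DecidableEq ι] (s : Finset ι) (u v : ι → ℚ)
    (hu : Set.InjOn u s) :
    ∑ i ∈ s, (∏ j ∈ s, (u i - v j)) / ∏ j ∈ s.erase i, (u i - u j) = ∑ i ∈ s, (u i - v i) := by
  rcases s.eq_empty_or_nonempty with rfl | hs
  · simp
  have hm : ∀ w : ι → ℚ, (∏ j ∈ s, (Polynomial.X - Polynomial.C (w j))).Monic := fun w =>
    Polynomial.monic_prod_of_monic _ _ fun j _ => Polynomial.monic_X_sub_C _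
  have hd : ∀ w : ι → ℚ, (∏ j ∈ s, (Polynomial.X - Polynomial.C (w j))).degree = ((#s : ℕ) : WithBot ℕ) :=
      fun w => by
    rw [Polynomial.degree_prod]
    simp only [Polynomial.degree_X_sub_C, sum_const, nsmul_eq_mul, mul_one]
  have h := Lagrange.coeff_eq_sum hu (P := ∏ j ∈ s, (Polynomial.X - Polynomial.C (v j)) -
    ∏ j ∈ s, (Polynomial.X - Polynomial.C (u j))) (by
      rw [← hd v]
      exact Polynomial.degree_sub_lt_left (by rw [hd, hd]) (hm v).ne_zero
        (by rw [(hm u).leadingCoeff, (hm v).leadingCoeff]))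
  rw [Polynomial.coeff_sub, Polynomial.prod_X_sub_C_coeff_card_pred _ _ hs.card_pos,
    Polynomial.prod_X_sub_C_coeff_card_pred _ _ hs.card_pos] at h
  rw [sum_sub_distrib, show ∑ i ∈ s, u i - ∑ i ∈ s, v i = -∑ i ∈ s, v i - -∑ i ∈ s, u i by ring, h]
  refine sum_congr rfl fun i hi => ?_
  simp only [Polynomial.eval_sub, Polynomial.eval_prod, Polynomial.eval_X, Polynomial.eval_C]
  rw [prod_eq_zero (f := fun j => u i - u j) hi (sub_self (u i)), sub_zero]

theorem sum_map_shifts_GG {l : List ℤ} (hl : l.Nodup) (h0 : ∀ a ∈ l, 0 < a) :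
    ((shifts 1 l).map GG).sum = l.sum * GG l := by
  rw [sum_map_shifts_perm 1 hl GG fun _ _ => GG_perm]
  have hinj : Set.InjOn (fun a : ℤ => (a : ℚ) * (a - 1)) l.toFinset := by
    intro a ha b hb hab
    have ha' : (1 : ℚ) ≤ a := by exact_mod_cast h0 a (by simpa using ha)
    have hb' : (1 : ℚ) ≤ b := by exact_mod_cast h0 b (by simpa using hb)
    have : ((a : ℚ) - b) * (a + b - 1) = 0 := by simp only at hab; linear_combination hab
    rcases mul_eq_zero.1 this with h | h
    · exact_mod_cast sub_eq_zero.1 h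
    · linarith
  have h := sum_prod_div_prod l.toFinset _ (fun b => (b : ℚ) * (b + 1)) hinj
  have h1 : (l.sum : ℚ) = ∑ a ∈ l.toFinset, (a : ℚ) := by
    rw [List.sum_toFinset _ hl, Int.cast_list_sum]
  have h2 : ∑ a ∈ l.toFinset, ((a : ℚ) * (a - 1) - a * (a + 1)) = -2 * l.sum := by
    rw [h1, mul_sum]; exact sum_congr rfl fun a _ => by ring
  have h3 : (l.sum : ℚ) * GG l = (-2 * l.sum) * (-GG l / 2) := by ring
  rw [h3, ← h2, ← h, sum_mul]
  refine sum_congr rfl fun a ha => ?_
  have ha' : a ∈ l := by simpa using ha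
  have ha0 := h0 a ha'
  have hnd : (l.erase a).Nodup := hl.erase a
  have hfs : (l.erase a).toFinset = l.toFinset.erase a := by
    ext b; simp [hl.mem_erase_iff]
  rw [GG_perm (List.perm_cons_erase ha'), GG_cons, GG_cons, ← List.prod_toFinset _ hnd,
    ← List.prod_toFinset _ hnd, hfs, ← mul_prod_erase _ _ ha, mul_div_assoc (_ - _),
    ← prod_div_distrib]
  have h4 : (a.toNat.factorial : ℚ) = a * (a - 1).toNat.factorial := by
    rw [show a.toNat = (a - 1).toNat + 1 by omega, Nat.factorial_succ]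
    push_cast
    congr 1
    have : ((a - 1).toNat : ℤ) + 1 = a := by omega
    exact_mod_cast this
  have h5 : ∏ b ∈ l.toFinset.erase a, (|((a - 1 : ℤ) : ℚ) - b| / |((a - 1 : ℤ) : ℚ) + b|) =
      (∏ b ∈ l.toFinset.erase a, ((a : ℚ) * (a - 1) - b * (b + 1)) / (a * (a - 1) - b * (b - 1))) *
        ∏ b ∈ l.toFinset.erase a, (|(a : ℚ) - b| / |(a : ℚ) + b|) := by
    rw [← prod_mul_distrib]
    refine prod_congr rfl fun b hb => ?_
    rw [mem_erase, List.mem_toFinset] at hb
    have hb' : (1 : ℚ) ≤ b := by exact_mod_cast h0 b hb.2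
    have ha'' : (1 : ℚ) ≤ a := by exact_mod_cast ha0
    push_cast
    rw [abs_of_pos (by linarith : (0 : ℚ) < a - 1 + b), abs_of_pos (by linarith : (0 : ℚ) < a + b),
      show (a : ℚ) * (a - 1) - b * (b + 1) = (a - 1 - b) * (a + b) by ring,
      show (a : ℚ) * (a - 1) - b * (b - 1) = (a - b) * (a - 1 + b) by ring]
    have e1 : (a : ℚ) - 1 + b ≠ 0 := by linarith
    have e2 : (a : ℚ) + b ≠ 0 := by linarith
    rcases lt_or_gt_of_ne hb.1 with h | h
    · have h' : (b : ℚ) + 1 ≤ a := by exact_mod_cast h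
      have e3 : (a : ℚ) - b ≠ 0 := by linarith
      rw [abs_of_nonneg (by linarith), abs_of_nonneg (by linarith)]
      field_simp
    · have h' : (a : ℚ) + 1 ≤ b := by exact_mod_cast h
      have e3 : (a : ℚ) - b ≠ 0 := by linarith
      rw [abs_of_nonpos (by linarith), abs_of_nonpos (by linarith)]
      field_simp
  rw [h5, h4]
  have : (a : ℚ) ≠ 0 := by exact_mod_cast ha0.ne'
  have : ((a - 1).toNat.factorial : ℚ) ≠ 0 := by exact_mod_cast Nat.factorial_ne_zero _
  field_simp
  ring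

theorem of_mem_shifts_one {l β : List ℤ} (h : l.Pairwise (· > ·)) (hβ : β ∈ shifts 1 l) :
    β.sum = l.sum - 1 ∧ (∀ m, (∀ a ∈ l, m < a) → ∀ b ∈ β, m ≤ b) ∧
      (∀ m, (∀ a ∈ l, a < m) → ∀ b ∈ β, b < m) ∧
      (β.Pairwise (· > ·) ∨ ∃ l₁ a l₂, β = l₁ ++ a :: a :: l₂ ∧ a ∈ l) := by
  induction l generalizing β with
  | nil => simp [shifts] at hβ
  | cons a l ih =>
    refine ⟨?_, ?_, fun m hm => lt_of_mem_shifts zero_le_one hm hβ, ?_⟩
    all_goals
      simp only [shifts, List.mem_cons, List.mem_map] at hβ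
      rw [List.pairwise_cons] at h
      rcases hβ with rfl | ⟨γ, hγ, rfl⟩
    · simp only [List.sum_cons]; ring
    · simp only [List.sum_cons, (ih h.2 hγ).1]; ring
    · simp only [List.mem_cons, forall_eq_or_imp]
      exact fun m hm => ⟨by omega, fun b hb => (hm.2 b hb).le⟩
    · simp only [List.mem_cons, forall_eq_or_imp]
      exact fun m hm => ⟨hm.1.le, (ih h.2 hγ).2.1 m hm.2⟩
    · cases l with
      | nil => simp
      | cons b l =>
        have h1 := h.1 b List.mem_cons_self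
        rcases eq_or_ne b (a - 1) with rfl | h2
        · exact Or.inr ⟨[], a - 1, l, rfl, by simp⟩
        · refine Or.inl (List.pairwise_cons.2 ⟨fun c hc => ?_, h.2⟩)
          rcases List.mem_cons.1 hc with rfl | hc
          · omega
          · have := (List.pairwise_cons.1 h.2).1 c hc
            omega
    · rcases (ih h.2 hγ).2.2.2 with h1 | ⟨l₁, b, l₂, rfl, hb⟩
      · exact Or.inl (List.pairwise_cons.2 ⟨(ih h.2 hγ).2.2.1 a h.1, h1⟩)
      · exact Or.inr ⟨a :: l₁, b, l₂, rfl, List.mem_cons_of_mem _ hb⟩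

theorem GG_zero_cons {l : List ℤ} (h : ∀ a ∈ l, 0 < a) : GG (0 :: l) = GG l := by
  rw [GG_cons, List.prod_eq_one]
  · simp
  · intro x hx
    obtain ⟨b, hb, rfl⟩ := List.mem_map.1 hx
    have : (b : ℚ) ≠ 0 := by exact_mod_cast (h b hb).ne'
    simp [this]

theorem pos_or_concat_zero {l : List ℤ} (h : l.Pairwise (· > ·)) (h0 : ∀ a ∈ l, 0 ≤ a) :
    (∀ a ∈ l, 0 < a) ∨ ∃ l', l = l' ++ [0] ∧ StrictP l' := by
  rcases List.eq_nil_or_concat l with rfl | ⟨l', a, rfl⟩
  · simp
  rw [List.concat_eq_append] at h h0 ⊢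
  rw [List.pairwise_append] at h
  have h1 := h0 a (by simp)
  have h2 : ∀ b ∈ l', 0 < b := fun b hb => by have := h.2.2 b hb a (by simp); omega
  rcases h1.eq_or_lt with rfl | h1
  · exact Or.inr ⟨l', rfl, h.1, h2⟩
  · left
    intro b hb
    rcases List.mem_append.1 hb with hb | hb
    · exact h2 b hb
    · rwa [List.mem_singleton.1 hb]

/-- Schur's degree formula -/
theorem XX_px_pow (n : ℕ) {l : List ℤ} (h : StrictP l) (hs : l.sum = n) :
    XX l (px 1 ^ n) = n.factorial * GG l := by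
  induction n generalizing l with
  | zero =>
    cases l with
    | nil => simp [XX_nil_one, GG, DM, DP, FF]
    | cons a l =>
      have := h.tail.sum_nonneg
      have := h.2 a List.mem_cons_self
      rw [List.sum_cons] at hs
      omega
  | succ n ih =>
    have hq : ((n : ℚ) + 1) = l.sum := by exact_mod_cast hs.symm
    rw [pow_succ', XX_px_mul, if_pos odd_one, Nat.cast_one, Nat.factorial_succ, Nat.cast_mul,
      Nat.cast_succ, hq, mul_right_comm, ← sum_map_shifts_GG (h.1.imp ne_of_gt) h.2, mul_comm,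
      ← List.sum_map_mul_left]
    congr 1
    refine List.map_congr_left fun β hβ => ?_
    obtain ⟨h1, h2, -, h3⟩ := of_mem_shifts_one h.1 hβ
    replace h2 := h2 0 h.2
    rcases h3 with h3 | ⟨l₁, a, l₂, rfl, ha⟩
    · rcases pos_or_concat_zero h3 h2 with h4 | ⟨l', rfl, h4⟩
      · exact ih ⟨h3, h4⟩ (by omega)
      · rw [XX_concat_zero, GG_perm (List.perm_append_singleton _ _), GG_zero_cons h4.2]
        exact ih h4 (by rw [List.sum_append] at h1; simp at h1; omega)
    · rw [XX_eq_zero_of_mem (h.2 a ha) _ (fun b hb => h2 b (by simp_all)) List.mem_cons_self,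
        GG_perm List.perm_middle, GG_cons, List.prod_eq_zero]
      · simp
      · exact List.mem_map.2 ⟨a, by simp, by simp⟩

theorem pw_replicate (n r : ℕ) : pw (Multiset.replicate n r) = px r ^ n := by simp [pw]

theorem pw_add (ν ρ : Multiset ℕ) : pw (ν + ρ) = pw ν * pw ρ := by simp [pw]

theorem XX_px_pow_pos {n : ℕ} {l : List ℤ} (h : StrictP l) (hs : l.sum = n) :
    0 < XX l (px 1 ^ n) := by
  rw [XX_px_pow n h hs, GG]
  have := Nat.pos_of_ne_zero (DM_ne_zero (h.1.imp ne_of_gt))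
  have := Nat.pos_of_ne_zero (DP_ne_zero h.2)
  have := Nat.pos_of_ne_zero (FF_ne_zero l)
  positivity

/-- the defect of a spin character is at least the weight of any section it lives on -/
theorem spin_defect {p : ℕ} (hp : p.Prime) (hp2 : p ≠ 2) {n : ℕ} {l : List ℤ} (h : StrictP l)
    (hs : l.sum = n) {d a b : ℕ} (hd : (d : ℚ) * 2 ^ a = 2 ^ b * XX l (px 1 ^ n))
    {ν ρ : Multiset ℕ} (hν : ∀ r ∈ ν, p ∣ r) (h0 : XX l (pw (ν + ρ)) ≠ 0) {w : ℕ}
    (hw : p * w ≤ ν.sum) : d.factorization p + w ≤ n.factorial.factorization p := by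
  have hnd : l.Nodup := h.1.imp ne_of_gt
  have h1 := sum_le_mul_WW hp hp2 hν (by rwa [pw_add] at h0)
  have h2 : (w : ℤ) ≤ WW p l := by
    have : (p : ℤ) * w ≤ ν.sum := by exact_mod_cast hw
    exact le_of_mul_le_mul_left (this.trans h1) (by exact_mod_cast hp.pos)
  have h3 := factorization_DM_add_le hp hnd fun b hb => (h.2 b hb).le
  have h4 := Ep_le_factorization_DP hp h.2
  have hd0 : d ≠ 0 := by
    rintro rfl
    have := XX_px_pow_pos h hs
    rw [Nat.cast_zero, zero_mul] at hd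
    have : (0 : ℚ) < 2 ^ b * XX l (px 1 ^ n) := by positivity
    linarith
  have e1 := DM_ne_zero hnd
  have e2 := DP_ne_zero h.2
  have e3 := FF_ne_zero l
  have h5 : d * 2 ^ a * (DP l * FF l) = 2 ^ b * (n.factorial * DM l) := by
    apply Nat.cast_injective (R := ℚ)
    push_cast
    rw [hd, XX_px_pow n h hs, GG]
    field_simp
  have h6 := congrArg (fun x => x.factorization p) h5
  have h7 : (Nat.factorization 2) p = 0 :=
    Nat.factorization_eq_zero_of_not_dvd fun h =>
      hp2 ((Nat.prime_dvd_prime_iff_eq hp Nat.prime_two).1 h)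
  simp only [ne_eq, mul_eq_zero, hd0, pow_eq_zero_iff', OfNat.ofNat_ne_zero, false_and, or_self,
    not_false_eq_true, e1, e2, e3, Nat.factorization_mul, Nat.factorial_ne_zero,
    Nat.factorization_pow, Finsupp.add_apply, Finsupp.smul_apply, h7, smul_eq_mul, mul_zero] at h6
  rw [WW] at h2
  omega

end SpinQ
end Cfsg
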