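import Cfsg.Agent.CT.SymFrob

/-! Schur's `Q`-functions via Bernstein-type operators: the anticommutation relations. -/

set_option autoImplicit false

namespace Cfsg
namespace SpinQ

open Finset SymCh

/-- the ring generated by the power sums -/
abbrev Gam := MvPolynomial ℕ ℚ

/-- the power sum `p_r` -/
noncomputable abbrev px (r : ℕ) : Gam := MvPolynomial.X r

/-- the power sum `p_ρ` -/
noncomputable def pw (ρ : Multiset ℕ) : Gam := (ρ.map px).prod

theorem pw_cons (r : ℕ) (ρ : Multiset ℕ) : pw (r ::ₘ ρ) = px r * pw ρ := by simp [pw]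

@[simp] theorem pw_zero : pw 0 = 1 := by simp [pw]

/-- partitions into odd parts -/
def optn (m : ℕ) : Finset (Multiset ℕ) := (ptn m).filter fun ρ => ∀ r ∈ ρ, Odd r

theorem mem_optn {m : ℕ} {ρ : Multiset ℕ} : ρ ∈ optn m ↔ ρ.sum = m ∧ ∀ r ∈ ρ, Odd r := by
  rw [optn, mem_filter, mem_ptn]
  exact ⟨fun h => ⟨h.1.1, h.2⟩, fun h => ⟨⟨h.1, fun r hr => (h.2 r hr).pos⟩, h.2⟩⟩

theorem optn_zero : optn 0 = {0} := by
  ext ρ
  rw [mem_optn, mem_singleton]
  refine ⟨fun h => ?_, by rintro rfl; simp⟩
  refine Multiset.eq_zero_of_forall_notMem fun r hr => ?_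
  have := Multiset.single_le_sum (s := ρ) (by simp) r hr
  have := (h.2 r hr).pos
  omega

/-- the weight `2^l(ρ) / z_ρ` -/
noncomputable def wq (ρ : Multiset ℕ) : ℚ := 2 ^ Multiset.card ρ / zz ρ

theorem mul_sum_optn {V : Type*} [AddCommGroup V] [Module ℚ V] (m : ℕ) (F : Multiset ℕ → V) :
    (m : ℚ) • ∑ ρ ∈ optn m, wq ρ • F ρ = ∑ r ∈ Icc 1 m,
      if Odd r then (2 : ℚ) • ∑ ρ ∈ optn (m - r), wq ρ • F (r ::ₘ ρ) else 0 := by
  rw [← sub_eq_zero, ← Module.forall_dual_apply_eq_zero_iff ℚ]
  intro φ
  have h := mul_sum_ptn m fun ρ =>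
    if ∀ r ∈ ρ, Odd r then 2 ^ Multiset.card ρ * φ (F ρ) else 0
  rw [map_sub, sub_eq_zero, map_smul, map_sum, map_sum, smul_eq_mul]
  convert h using 2
  · rw [optn, sum_filter]
    refine sum_congr rfl fun ρ _ => ?_
    split_ifs
    · rw [map_smul, wq, smul_eq_mul]; ring
    · simp
  · rename_i r _
    split_ifs with hr
    · rw [map_smul, map_sum, optn, sum_filter, smul_eq_mul, mul_sum]
      refine sum_congr rfl fun ρ _ => ?_
      simp only [Multiset.mem_cons, forall_eq_or_imp, hr, true_and, Multiset.card_cons]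
      split_ifs
      · rw [map_smul, wq, smul_eq_mul]; ring
      · simp
    · rw [map_zero]
      exact (sum_eq_zero fun ρ _ => by simp [hr]).symm

/-- the generators `q_m` -/
noncomputable def qq (m : ℕ) : Gam := ∑ ρ ∈ optn m, wq ρ • pw ρ

@[simp] theorem qq_zero : qq 0 = 1 := by simp [qq, optn_zero, wq]

theorem newton (m : ℕ) : (m : ℚ) • qq m =
    ∑ r ∈ Icc 1 m, if Odd r then (2 : ℚ) • (px r * qq (m - r)) else 0 := by
  rw [qq, mul_sum_optn]
  refine sum_congr rfl fun r _ => ?_
  simp only [qq, pw_cons, mul_sum, mul_smul_comm]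

section ode

variable {R : Type*} [CommRing R] [Algebra ℚ R]

open PowerSeries

/-- the differential equation `t f' = A f` -/
def Ode (A f : R⟦X⟧) : Prop := X * d⁄dX R f = A * f

omit [Algebra ℚ R] in
theorem coeff_X_mul_derivative (f : R⟦X⟧) (k : ℕ) :
    coeff k (X * d⁄dX R f) = k * coeff k f := by
  cases k with
  | zero => simp
  | succ k => rw [coeff_succ_X_mul, coeff_derivative]; push_cast; ring

omit [Algebra ℚ R] in
theorem ode_mk {a f : ℕ → R} (h0 : a 0 = 0)
    (h : ∀ k : ℕ, (k : R) * f k = ∑ r ∈ Icc 1 k, a r * f (k - r)) : Ode (mk a) (mk f) := by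
  ext k
  rw [coeff_X_mul_derivative, coeff_mul, coeff_mk, h,
    Finset.Nat.sum_antidiagonal_eq_sum_range_succ_mk]
  simp only [coeff_mk]
  refine sum_subset (fun r hr => ?_) fun r hr hr' => ?_
  · rw [mem_Icc] at hr; rw [mem_range]; omega
  · rw [mem_Icc] at hr'; rw [mem_range] at hr
    rw [show r = 0 by omega, h0, zero_mul]

omit [Algebra ℚ R] in
theorem Ode.mul {A A' f g : R⟦X⟧} (h : Ode A f) (h' : Ode A' g) : Ode (A + A') (f * g) := by
  unfold Ode at *
  rw [Derivation.leibniz, smul_eq_mul, smul_eq_mul]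
  linear_combination g * h + f * h'

theorem Ode.eq {A f g : R⟦X⟧} (h : Ode A f) (h' : Ode A g) (hA : coeff 0 A = 0)
    (h0 : coeff 0 f = coeff 0 g) : f = g := by
  ext k
  induction k using Nat.strong_induction_on with
  | _ k ih =>
    rcases Nat.eq_zero_or_pos k with rfl | hk
    · exact h0
    have h1 := congrArg (coeff k) h
    have h2 := congrArg (coeff k) h'
    rw [coeff_X_mul_derivative, coeff_mul] at h1 h2
    have h3 : (k : R) * coeff k f = k * coeff k g := by
      rw [h1, h2]
      refine sum_congr rfl fun x hx => ?_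
      rw [HasAntidiagonal.mem_antidiagonal] at hx
      rcases Nat.eq_zero_or_pos x.1 with h4 | h4
      · rw [h4, hA, zero_mul, zero_mul]
      · rw [ih _ (by omega)]
    have h4 : IsUnit (k : R) := by
      have := (Ne.isUnit (by exact_mod_cast hk.ne' : (k : ℚ) ≠ 0)).map (algebraMap ℚ R)
      simpa using this
    exact h4.mul_left_cancel h3

end ode

theorem newton' (m : ℕ) : (m : Gam) * qq m =
    ∑ r ∈ Icc 1 m, (if Odd r then 2 * px r else 0) * qq (m - r) := by
  have h := newton m
  rw [Algebra.smul_def, map_natCast] at h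
  rw [h]
  refine sum_congr rfl fun r _ => ?_
  split_ifs
  · rw [two_smul]; ring
  · simp

theorem sum_qq_mul_qq (n : ℕ) :
    ∑ i ∈ range (n + 1), qq (n - i) * ((-1) ^ i * qq i) = if n = 0 then 1 else 0 := by
  have h1 : Ode (PowerSeries.mk fun r => if Odd r then 2 * px r else 0) (PowerSeries.mk qq) :=
    ode_mk (by simp) newton'
  have h2 : Ode (PowerSeries.mk fun r => -if Odd r then 2 * px r else 0)
      (PowerSeries.mk fun i => (-1) ^ i * qq i) := by
    refine ode_mk (by simp) fun k => ?_
    rw [mul_left_comm, newton', mul_sum]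
    refine sum_congr rfl fun r hr => ?_
    rw [mem_Icc] at hr
    split_ifs with h
    · rw [show k = r + (k - r) by omega, pow_add, h.neg_one_pow, Nat.add_sub_cancel_left]; ring
    · simp
  have h3 := h2.mul h1
  have h4 : Ode (0 : PowerSeries Gam) 1 := by simp [Ode]
  rw [show (PowerSeries.mk fun r => -if Odd r then 2 * px r else 0) +
      (PowerSeries.mk fun r => if Odd r then 2 * px r else 0) = 0 by ext k; simp] at h3
  have h5 := congrArg (PowerSeries.coeff n) (h3.eq h4 (by simp) (by simp))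
  rw [PowerSeries.coeff_mul, Finset.Nat.sum_antidiagonal_eq_sum_range_succ_mk,
    PowerSeries.coeff_one] at h5
  rw [← h5]
  refine sum_congr rfl fun i _ => ?_
  simp only [PowerSeries.coeff_mk]; ring

/-- adding one more variable -/
noncomputable def SS : Gam →ₐ[ℚ] Polynomial Gam := MvPolynomial.aeval fun r =>
  if Odd r then Polynomial.C (px r) + Polynomial.X ^ r else Polynomial.C (px r)

theorem SS_px (r : ℕ) : SS (px r) =
    if Odd r then Polynomial.C (px r) + Polynomial.X ^ r else Polynomial.C (px r) := by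
  simp [SS]

/-- coefficients of `(1+t)/(1-t)` -/
def cz (j : ℤ) : ℚ := if j < 0 then 0 else if j = 0 then 1 else 2

theorem cz_add_cz_neg (j : ℤ) : cz j + cz (-j) = 2 := by
  unfold cz
  split_ifs <;> first | omega | norm_num

theorem cz_newton (k : ℕ) :
    (k : ℚ) * cz k = ∑ r ∈ Icc 1 k, (if Odd r then 2 else 0) * cz ((k - r : ℕ) : ℤ) := by
  have h : ∀ m k : ℕ, m < k → ∑ r ∈ Icc 1 m, (if Odd r then 2 else 0) * cz ((k - r : ℕ) : ℤ) =
      2 * m + if Odd m then 2 else 0 := by
    intro m k
    induction m with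
    | zero => simp
    | succ m ih =>
      intro hm
      rw [sum_Icc_succ_top (by omega), ih (by omega)]
      have : cz ((k - (m + 1) : ℕ) : ℤ) = 2 := by
        unfold cz; rw [if_neg (by omega), if_neg (by omega)]
      rw [this]
      simp only [Nat.odd_add_one]
      push_cast
      split_ifs <;> ring
  cases k with
  | zero => simp
  | succ k =>
    rw [sum_Icc_succ_top (by omega), h k _ (by omega)]
    have : cz ((k + 1 : ℕ) : ℤ) = 2 := by
      unfold cz; rw [if_neg (by omega), if_neg (by omega)]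
    rw [this]
    simp only [Nat.odd_add_one, Nat.sub_self, Nat.cast_zero, cz]
    push_cast
    split_ifs <;> ring

theorem SS_qq (k : ℕ) : SS (qq k) =
    ∑ j ∈ range (k + 1), Polynomial.monomial j (cz j • qq (k - j)) := by
  have h1 : Ode (PowerSeries.mk fun r => if Odd r then 2 * Polynomial.C (px r) else 0)
      (PowerSeries.mk fun i => Polynomial.C (qq i)) := by
    refine ode_mk (by simp) fun k => ?_
    have := congrArg Polynomial.C (newton' k)
    rw [map_mul, map_natCast, map_sum] at this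
    rw [this]
    refine sum_congr rfl fun r _ => ?_
    split_ifs <;> simp [map_ofNat]
  have h2 : Ode (PowerSeries.mk fun r => if Odd r then 2 * (Polynomial.X : Polynomial Gam) ^ r else 0)
      (PowerSeries.mk fun i : ℕ => cz i • (Polynomial.X : Polynomial Gam) ^ i) := by
    refine ode_mk (by simp) fun k => ?_
    have h : (k : Polynomial Gam) * cz k • Polynomial.X ^ k =
        ((k : ℚ) * cz k) • Polynomial.X ^ k := by
      rw [mul_smul, Nat.cast_smul_eq_nsmul, nsmul_eq_mul]
    rw [h, cz_newton, sum_smul]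
    refine sum_congr rfl fun r hr => ?_
    rw [mem_Icc] at hr
    split_ifs
    · rw [mul_smul_comm, mul_assoc, ← pow_add, Nat.add_sub_cancel' hr.2, mul_comm, mul_smul,
        two_smul, two_mul]
    · simp
  have h3 : Ode (PowerSeries.mk fun r => SS (if Odd r then 2 * px r else 0))
      (PowerSeries.mk fun i => SS (qq i)) := by
    refine ode_mk (by simp) fun k => ?_
    have := congrArg SS (newton' k)
    rw [map_mul, map_natCast, map_sum] at this
    rw [this]
    simp only [map_mul]
  have h4 := h2.mul h1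
  rw [show (PowerSeries.mk fun r => if Odd r then 2 * (Polynomial.X : Polynomial Gam) ^ r else 0) +
      (PowerSeries.mk fun r => if Odd r then 2 * Polynomial.C (px r) else 0) =
      PowerSeries.mk fun r => SS (if Odd r then 2 * px r else 0) by
    ext k : 1
    simp only [map_add, PowerSeries.coeff_mk]
    split_ifs with h
    · rw [map_mul, SS_px, if_pos h, map_ofNat]; ring
    · simp] at h4
  have h5 := congrArg (PowerSeries.coeff k) (h3.eq h4 (by simp) (by simp [cz]))
  rw [PowerSeries.coeff_mul, Finset.Nat.sum_antidiagonal_eq_sum_range_succ_mk,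
    PowerSeries.coeff_mk] at h5
  rw [h5]
  refine sum_congr rfl fun i _ => ?_
  simp only [PowerSeries.coeff_mk]
  rw [← Polynomial.C_mul_X_pow_eq_monomial, smul_mul_assoc, mul_comm,
    ← smul_mul_assoc, Polynomial.smul_C]

/-- `q` with integer index -/
noncomputable def qz (k : ℤ) : Gam := if k < 0 then 0 else qq k.toNat

@[simp] theorem qz_natCast (k : ℕ) : qz k = qq k := by
  rw [qz, if_neg (by omega), Int.toNat_natCast]

theorem qz_of_neg {k : ℤ} (h : k < 0) : qz k = 0 := if_pos h

@[simp] theorem qz_zero : qz 0 = 1 := by simp [qz]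

/-- the sign `(-1)^k` -/
noncomputable def sz (k : ℤ) : ℚ := (-1) ^ k

theorem sz_add (a b : ℤ) : sz (a + b) = sz a * sz b := zpow_add₀ (by norm_num) _ _

theorem sz_mul_self (a : ℤ) : sz a * sz a = 1 := by
  rw [sz, ← mul_zpow]; simp

theorem sz_neg (a : ℤ) : sz (-a) = sz a := by
  rw [sz, zpow_neg]
  exact inv_eq_of_mul_eq_one_left (sz_mul_self a)

theorem sz_sub (a b : ℤ) : sz (a - b) = sz a * sz b := by rw [sub_eq_add_neg, sz_add, sz_neg]

theorem sz_natCast (k : ℕ) : sz k = (-1) ^ k := zpow_natCast _ _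

@[simp] theorem sz_zero : sz 0 = 1 := zpow_zero _

theorem sz_odd {r : ℕ} (h : Odd r) : sz r = -1 := by rw [sz_natCast, h.neg_one_pow]

theorem sz_ne_zero (a : ℤ) : sz a ≠ 0 := left_ne_zero_of_mul_eq_one (sz_mul_self a)

/-- `q` with sign -/
noncomputable def sq (k : ℤ) : Gam := sz k • qz k

theorem sq_of_neg {k : ℤ} (h : k < 0) : sq k = 0 := by rw [sq, qz_of_neg h, smul_zero]

@[simp] theorem sq_zero : sq 0 = 1 := by simp [sq]

theorem sum_qz_mul_sq (u v : ℤ) {K : ℕ} (hu : u ≤ K) (hv : v ≤ K) :
    ∑ j ∈ Icc (-K : ℤ) K, qz (u - j) * sq (v + j) = if u + v = 0 then 1 else 0 := by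
  by_cases hn : u + v < 0
  · rw [if_neg hn.ne]
    refine sum_eq_zero fun j _ => ?_
    by_cases h : u - j < 0
    · rw [qz_of_neg h, zero_mul]
    · rw [sq_of_neg (by omega), mul_zero]
  obtain ⟨n, hn'⟩ := Int.eq_ofNat_of_zero_le (not_lt.1 hn)
  have h := sum_qq_mul_qq n
  rw [show (if u + v = 0 then (1 : Gam) else 0) = if n = 0 then 1 else 0 by
    simp only [hn', Nat.cast_eq_zero], ← h]
  symm
  refine sum_bij_ne_zero (fun i _ _ => (i : ℤ) - v) ?_ ?_ ?_ ?_
  · intro i hi _
    rw [mem_range] at hi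
    rw [mem_Icc]; omega
  · intro a _ _ b _ _ hab
    omega
  · intro j _ hj
    have h1 : ¬ u - j < 0 := fun h => hj (by rw [qz_of_neg h, zero_mul])
    have h2 : ¬ v + j < 0 := fun h => hj (by rw [sq_of_neg h, mul_zero])
    obtain ⟨i, hi⟩ := Int.eq_ofNat_of_zero_le (not_lt.1 h2)
    have h3 : qq (n - i) * ((-1) ^ i * qq i) = qz (u - j) * sq (v + j) := by
      rw [hi, show u - j = ((n - i : ℕ) : ℤ) by omega, qz_natCast, sq, qz_natCast, sz_natCast,
        Algebra.smul_def]
      simp
    exact ⟨i, mem_range.2 (by omega), by rwa [h3], by omega⟩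
  · intro i hi _
    rw [mem_range] at hi
    rw [show u - (i - v) = ((n - i : ℕ) : ℤ) by omega, show v + (i - v) = (i : ℤ) by omega,
      qz_natCast, sq, qz_natCast, sz_natCast, Algebra.smul_def]
    simp

/-- contraction against the signed `q` -/
noncomputable def LL (a : ℤ) : Polynomial Gam →ₗ[Gam] Gam :=
  Polynomial.lsum fun j => LinearMap.mulRight Gam (sq (j - a))

theorem LL_monomial (a : ℤ) (j : ℕ) (c : Gam) :
    LL a (Polynomial.monomial j c) = c * sq (j - a) := by
  simp [LL, Polynomial.lsum_apply, Polynomial.sum_monomial_index]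

theorem LL_C_mul (a : ℤ) (c : Gam) (P : Polynomial Gam) :
    LL a (Polynomial.C c * P) = c * LL a P := by
  rw [← Polynomial.smul_eq_C_mul, map_smul, smul_eq_mul]

theorem LL_X_pow_mul (a : ℤ) (r : ℕ) (P : Polynomial Gam) :
    LL a (Polynomial.X ^ r * P) = LL (a - r) P := by
  induction P using Polynomial.induction_on' with
  | add P Q hP hQ => rw [mul_add, map_add, map_add, hP, hQ]
  | monomial j c =>
    rw [Polynomial.X_pow_mul_monomial, LL_monomial, LL_monomial]
    congr 2; push_cast; ring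

/-- the (adjoint) Bernstein operators -/
noncomputable def BB (a : ℤ) : Gam →ₗ[ℚ] Gam := (LL a).restrictScalars ℚ ∘ₗ SS.toLinearMap

theorem BB_apply (a : ℤ) (f : Gam) : BB a f = LL a (SS f) := rfl

theorem BB_one (a : ℤ) : BB a 1 = sq (-a) := by
  rw [BB_apply, map_one, ← Polynomial.monomial_zero_one, LL_monomial]; simp

theorem BB_px_mul (a : ℤ) (r : ℕ) (f : Gam) :
    BB a (px r * f) = px r * BB a f + if Odd r then BB (a - r) f else 0 := by
  rw [BB_apply, map_mul, SS_px]
  split_ifs
  · rw [add_mul, map_add, LL_C_mul, LL_X_pow_mul]; rfl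
  · rw [LL_C_mul, add_zero]; rfl

theorem BB_qz (b u : ℤ) {K : ℕ} (hu : u ≤ K) :
    BB b (qz u) = ∑ j ∈ Icc (-K : ℤ) K, cz j • (qz (u - j) * sq (j - b)) := by
  by_cases h : u < 0
  · rw [qz_of_neg h, map_zero]
    refine (sum_eq_zero fun j _ => ?_).symm
    by_cases hj : j < 0
    · rw [cz, if_pos hj, zero_smul]
    · rw [qz_of_neg (by omega), zero_mul, smul_zero]
  obtain ⟨k, rfl⟩ := Int.eq_ofNat_of_zero_le (not_lt.1 h)
  rw [qz_natCast, BB_apply, SS_qq, map_sum]
  simp only [LL_monomial]
  have key : ∀ i, i < k + 1 → cz i • qq (k - i) * sq (i - b) =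
      cz i • (qz (k - i) * sq (i - b)) := fun i hi => by
    rw [show (k : ℤ) - i = ((k - i : ℕ) : ℤ) by omega, qz_natCast, smul_mul_assoc]
  refine sum_bij_ne_zero (fun i _ _ => (i : ℤ)) ?_ ?_ ?_ ?_
  · intro i hi _
    rw [mem_range] at hi
    rw [mem_Icc]; omega
  · intro a _ _ b _ _ hab
    omega
  · intro j _ hj
    have h1 : ¬ (k : ℤ) - j < 0 := fun h => hj (by rw [qz_of_neg h, zero_mul, smul_zero])
    have h2 : ¬ j < 0 := fun h => hj (by rw [cz, if_pos h, zero_smul])
    obtain ⟨i, rfl⟩ := Int.eq_ofNat_of_zero_le (not_lt.1 h2)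
    exact ⟨i, mem_range.2 (by omega), by rwa [key i (by omega)], rfl⟩
  · intro i hi _
    exact key i (mem_range.1 hi)

theorem Gam_induction {P : Gam → Prop} (f : Gam) (h1 : P 1) (hs : ∀ (c : ℚ) f, P f → P (c • f))
    (ha : ∀ f g, P f → P g → P (f + g)) (hm : ∀ r f, P f → P (px r * f)) : P f := by
  induction f using MvPolynomial.induction_on with
  | C c => rw [show (MvPolynomial.C c : Gam) = c • 1 by rw [Algebra.smul_def, mul_one]; rfl]
           exact hs c 1 h1
  | add f g hf hg => exact ha f g hf hg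
  | mul_X f r hf => rw [mul_comm]; exact hm r f hf

/-- the anticommutation relation -/
theorem BB_BB (f : Gam) (a b : ℤ) :
    BB b (BB a f) + BB a (BB b f) = if a + b = 0 then (2 * sz a) • f else 0 := by
  induction f using Gam_induction generalizing a b with
  | h1 =>
    obtain ⟨K, hK⟩ : ∃ K : ℕ, -a ≤ K ∧ -b ≤ K := ⟨a.natAbs + b.natAbs, by omega⟩
    rw [BB_one, BB_one, sq, sq, map_smul, map_smul, BB_qz b _ hK.1, BB_qz a _ hK.2,
      ← sum_equiv (s := Icc (-K : ℤ) K) (t := Icc (-K : ℤ) K) (Equiv.neg ℤ)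
        (f := fun j => cz (-j) • (qz (-b + j) * sq (-j - a)))
        (g := fun j => cz j • (qz (-b - j) * sq (j - a))) (by simp; omega) (by simp),
      smul_sum, smul_sum, ← sum_add_distrib]
    have h := sum_qz_mul_sq (-a) (-b) hK.1 hK.2
    have h2 : (if a + b = 0 then (2 * sz a) • (1 : Gam) else 0) =
        (2 * sz a) • if -a + -b = 0 then 1 else 0 := by
      by_cases h : a + b = 0
      · rw [if_pos h, if_pos (by omega)]
      · rw [if_neg h, if_neg (by omega), smul_zero]
    rw [h2, ← h, smul_sum]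
    refine sum_congr rfl fun j _ => ?_
    rw [← cz_add_cz_neg j, show j - b = -b + j by ring, show -j - a = -a - j by ring]
    simp only [sq, sz_sub, sz_add, sz_neg, mul_smul_comm, smul_mul_assoc, smul_smul,
      mul_comm (qz (-b + j))]
    rw [← add_smul]
    congr 1
    ring
  | hs c f hf =>
    simp only [map_smul]
    rw [← smul_add, hf]
    split_ifs
    · rw [smul_comm]
    · simp
  | ha f g hf hg =>
    simp only [map_add]
    rw [add_add_add_comm, hf, hg]
    split_ifs
    · rw [smul_add]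
    · simp
  | hm r f hf =>
    have h0 := hf a b
    by_cases hr : Odd r
    · have h1 := hf (a - r) b
      have h2 := hf a (b - r)
      simp only [BB_px_mul, if_pos hr, map_add]
      have h3 : (if a - r + b = 0 then (2 * sz (a - r)) • f else 0) +
          (if a + (b - r) = 0 then (2 * sz a) • f else 0) = 0 := by
        by_cases h : a - r + b = 0
        · rw [if_pos h, if_pos (by omega), sz_sub, sz_odd hr, ← add_smul]; simp
        · rw [if_neg h, if_neg (by omega), add_zero]
      have h4 : (if a + b = 0 then (2 * sz a) • (px r * f) else 0) =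
          px r * if a + b = 0 then (2 * sz a) • f else 0 := by split_ifs <;> simp
      rw [h4, ← h0]
      rw [← h1, ← h2] at h3
      linear_combination h3
    · simp only [BB_px_mul, if_neg hr, add_zero]
      rw [← mul_add, h0]
      split_ifs <;> simp

end SpinQ
end Cfsg
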