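import Cfsg.Agent.Spin.QChar

/-! Orthogonality relations for the spin character values. -/

set_option autoImplicit false

namespace Cfsg
namespace SpinQ

open Finset SymCh

variable {N : ℕ}

theorem sum_map_shifts (r : ℤ) (α : Fin N → ℤ) (F : List ℤ → ℚ) :
    ((shifts r (List.ofFn α)).map F).sum = ∑ i, F (List.ofFn (α - Pi.single i r)) := by
  induction N generalizing F with
  | zero => simp [shifts]
  | succ N ih =>
    rw [List.ofFn_succ, shifts, List.map_cons, List.sum_cons, List.map_map, ih, Fin.sum_univ_succ]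
    congr 1
    · rw [List.ofFn_succ]; simp
    · refine sum_congr rfl fun i _ => ?_
      rw [List.ofFn_succ]
      simp only [Function.comp, Pi.sub_apply, ne_eq, Fin.succ_ne_zero, not_false_eq_true,
        Pi.single_eq_of_ne', sub_zero]
      congr 3
      funext j
      simp [Pi.single_apply]

theorem XX_ofFn_px_mul (α : Fin N → ℤ) {r : ℕ} (hr : Odd r) (f : Gam) :
    XX (List.ofFn α) (px r * f) = ∑ i, XX (List.ofFn (α - Pi.single i (r : ℤ))) f := by
  rw [XX_px_mul, if_pos hr, sum_map_shifts]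

/-- the coefficients of `∏ (1 - R_ij)/(1 + R_ij)` -/
noncomputable def ee (δ : Fin N → ℤ) : ℚ := XX (List.ofFn δ) 1

/-- the coefficient of `x^α` in `E · F` -/
noncomputable def EE (α : Fin N → ℤ) : LP N →ₗ[ℚ] ℚ :=
  Finsupp.linearCombination ℚ (fun γ => ee (α - γ)) ∘ₗ
    (AddMonoidAlgebra.coeffLinearEquiv ℚ).toLinearMap

theorem EE_apply (α : Fin N → ℤ) (F : LP N) : EE α F = F.coeff.sum fun γ c => c * ee (α - γ) :=
  rfl

theorem EE_single (α γ : Fin N → ℤ) (c : ℚ) :
    EE α (AddMonoidAlgebra.single γ c) = c * ee (α - γ) := by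
  rw [EE_apply, AddMonoidAlgebra.coeff_single, Finsupp.sum_single_index (zero_mul _)]

theorem EE_mul_ps (α : Fin N → ℤ) (F : LP N) (r : ℕ) :
    EE α (F * ps N r) = ∑ i, EE (α - Pi.single i (r : ℤ)) F := by
  induction F using AddMonoidAlgebra.induction_linear with
  | zero => simp
  | add F G hF hG => simp only [add_mul, map_add, hF, hG, sum_add_distrib]
  | single γ c =>
    simp only [ps, mul_sum, map_sum, AddMonoidAlgebra.single_mul_single, EE_single, mul_one]
    refine sum_congr rfl fun i _ => ?_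
    congr 2; abel

theorem XX_ofFn_pw (α : Fin N → ℤ) {ρ : Multiset ℕ} (h : ∀ r ∈ ρ, Odd r) :
    XX (List.ofFn α) (pw ρ) = EE α (pp N ρ) := by
  induction ρ using Multiset.induction_on generalizing α with
  | empty =>
    rw [pp, Multiset.map_zero, Multiset.prod_zero, AddMonoidAlgebra.one_def, EE_single, pw_zero]
    simp [ee]
  | cons r ρ ih =>
    rw [pw_cons, XX_ofFn_px_mul _ (h r (Multiset.mem_cons_self _ _)), pp_cons, EE_mul_ps]
    exact sum_congr rfl fun i _ => ih _ fun s hs => h s (Multiset.mem_cons_of_mem hs)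

theorem newton_qz (k : ℤ) {R : ℕ} (h : k ≤ R) : (k : ℚ) • qz k =
    ∑ r ∈ Icc 1 R, if Odd r then (2 : ℚ) • (px r * qz (k - r)) else 0 := by
  by_cases hk : k < 0
  · rw [qz_of_neg hk, smul_zero]
    refine (sum_eq_zero fun r _ => ?_).symm
    rw [qz_of_neg (by omega)]; simp
  obtain ⟨k, rfl⟩ := Int.eq_ofNat_of_zero_le (not_lt.1 hk)
  rw [qz_natCast, Int.cast_natCast, newton]
  refine sum_subset_zero_on_sdiff (Icc_subset_Icc_right (by omega)) (fun r hr => ?_) fun r hr => ?_
  · simp only [mem_sdiff, mem_Icc] at hr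
    rw [qz_of_neg (by omega)]; simp
  · rw [mem_Icc] at hr
    rw [show (k : ℤ) - r = ((k - r : ℕ) : ℤ) by omega, qz_natCast]

theorem prod_qz_sub_single (γ : Fin N → ℤ) (i : Fin N) (r : ℤ) :
    ∏ j, qz ((γ - Pi.single i r : Fin N → ℤ) j) = qz (γ i - r) * ∏ j ∈ univ.erase i, qz (γ j) := by
  rw [← mul_prod_erase univ _ (mem_univ i)]
  congr 1
  · simp
  · exact prod_congr rfl fun j hj => by simp [ne_of_mem_erase hj]

/-- the Cauchy identity -/
theorem cauchy (n : ℕ) (γ : Fin N → ℤ) :
    ∑ ρ ∈ optn n, wq ρ • ((pp N ρ).coeff γ • pw ρ) =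
      if ∑ i, γ i = n then ∏ i, qz (γ i) else 0 := by
  induction n using Nat.strong_induction_on generalizing γ with
  | _ n ih =>
  rcases Nat.eq_zero_or_pos n with rfl | hn
  · rw [optn_zero, sum_singleton, pw_zero, pp, Multiset.map_zero, Multiset.prod_zero,
      AddMonoidAlgebra.one_def, AddMonoidAlgebra.coeff_single, Finsupp.single_apply]
    by_cases h0 : 0 = γ
    · subst h0; simp [wq]
    · rw [if_neg h0, zero_smul, smul_zero]
      split_ifs with h
      · by_contra h1
        apply h0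
        have h2 : ∀ i, 0 ≤ γ i := fun i => by
          by_contra h3
          exact h1 (prod_eq_zero (mem_univ i) (qz_of_neg (not_le.1 h3))).symm
        funext i
        exact ((sum_eq_zero_iff_of_nonneg fun i _ => h2 i).1 h i (mem_univ i)).symm
      · rfl
  have hn' : (n : ℚ) ≠ 0 := by exact_mod_cast hn.ne'
  refine smul_right_injective _ hn' ?_
  simp only
  rw [mul_sum_optn]
  have h1 : ∀ r ∈ Icc 1 n, (if Odd r then (2 : ℚ) • ∑ ρ ∈ optn (n - r),
      wq ρ • ((pp N (r ::ₘ ρ)).coeff γ • pw (r ::ₘ ρ)) else 0) =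
      ∑ i, if ∑ i, γ i = n then (if Odd r then (2 : ℚ) • (px r * qz (γ i - r)) else 0) *
        ∏ j ∈ univ.erase i, qz (γ j) else 0 := by
    intro r hr
    rw [mem_Icc] at hr
    split_ifs with h h' h'
    · simp only [pp_cons, coeff_mul_ps, pw_cons, sum_smul, smul_sum]
      rw [sum_comm]
      refine sum_congr rfl fun i _ => ?_
      have := ih (n - r) (by omega) (γ - Pi.single i (r : ℤ))
      rw [if_pos (by rw [sum_sub_single, h']; omega), prod_qz_sub_single] at this
      rw [smul_mul_assoc, mul_assoc, ← this, mul_sum, smul_sum]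
      simp only [mul_smul_comm]
    · simp only [pp_cons, coeff_mul_ps, pw_cons, sum_smul, smul_sum]
      rw [sum_comm]
      refine sum_congr rfl fun i _ => ?_
      have := ih (n - r) (by omega) (γ - Pi.single i (r : ℤ))
      rw [if_neg (by rw [sum_sub_single]; omega)] at this
      rw [← smul_zero (2 : ℚ), ← mul_zero (px r), ← this, mul_sum, smul_sum]
      simp only [mul_smul_comm]
    · simp
    · simp
  rw [sum_congr rfl h1, sum_comm]
  split_ifs with h
  · by_cases h2 : ∀ i, 0 ≤ γ i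
    · have h3 : (n : ℚ) = ∑ i, (γ i : ℚ) := by exact_mod_cast h.symm
      rw [h3, sum_smul]
      refine sum_congr rfl fun i _ => ?_
      rw [← sum_mul, ← newton_qz _ (h ▸ single_le_sum (fun j _ => h2 j) (mem_univ i)),
        smul_mul_assoc, mul_prod_erase univ (fun j => qz (γ j)) (mem_univ i)]
    · push Not at h2
      obtain ⟨k, hk⟩ := h2
      rw [prod_eq_zero (mem_univ k) (qz_of_neg hk), smul_zero]
      refine sum_eq_zero fun i _ => sum_eq_zero fun r _ => ?_
      by_cases hik : i = k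
      · rw [hik, qz_of_neg (by omega)]; simp
      · rw [prod_eq_zero (mem_erase.2 ⟨Ne.symm hik, mem_univ k⟩) (qz_of_neg hk), mul_zero]
  · simp

/-- strict partitions as lists -/
def StrictP (l : List ℤ) : Prop := l.Pairwise (· > ·) ∧ ∀ a ∈ l, 0 < a

theorem StrictP.tail {a : ℤ} {l : List ℤ} (h : StrictP (a :: l)) : StrictP l :=
  ⟨(List.pairwise_cons.1 h.1).2, fun b hb => h.2 b (List.mem_cons_of_mem _ hb)⟩

theorem StrictP.sum_nonneg {l : List ℤ} (h : StrictP l) : 0 ≤ l.sum :=
  List.sum_nonneg fun a ha => (h.2 a ha).le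

theorem ee_mul_XX (α γ : Fin N → ℤ) {μ : List ℤ} (hα : StrictP (List.ofFn α)) (hμ : StrictP μ)
    (hs : (List.ofFn α).sum = μ.sum) (hle : ¬ List.ofFn α < μ) :
    ee (α - γ) * XX μ (∏ i, qz (γ i)) = if γ = α ∧ List.ofFn α = μ then 2 ^ N else 0 := by
  induction N generalizing μ with
  | zero =>
    cases μ with
    | nil => simp [ee, XX_nil_one, Subsingleton.elim γ α]
    | cons b μ => exact (hle (by simp)).elim
  | succ N ih =>
    rw [List.ofFn_succ] at hα hs hle ⊢
    have ha := hα.2 _ List.mem_cons_self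
    cases μ with
    | nil =>
      have := hα.tail.sum_nonneg
      rw [List.sum_cons, List.sum_nil] at hs
      omega
    | cons b μ =>
      rw [List.cons_lt_cons_iff] at hle
      push Not at hle
      have hb := hμ.2 _ List.mem_cons_self
      have hb' : ∀ c ∈ μ, c < b := (List.pairwise_cons.1 hμ.1).1
      rw [ee, List.ofFn_succ, Fin.prod_univ_succ]
      by_cases h1 : γ 0 < α 0
      · rw [XX_cons_one_of_pos (by simp only [Pi.sub_apply]; omega), zero_mul,
          if_neg (fun h => by rw [h.1] at h1; omega)]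
      by_cases h2 : b < γ 0
      · rw [XX_qz_mul_of_lt (by omega), mul_zero, if_neg]
        · rintro ⟨rfl, h⟩
          have := (List.cons.inj h).1
          omega
        · intro c hc
          rcases List.mem_cons.1 hc with rfl | hc
          · exact h2
          · exact (hb' c hc).trans h2
      have h3 : α 0 = b := by omega
      have h4 : γ 0 = b := by omega
      rw [h4, XX_cons_qz_mul hb hb', Pi.sub_apply, h3, h4, sub_self, XX_zero_cons_one,
        mul_left_comm]
      have := ih (fun i => α i.succ) (fun i => γ i.succ) hα.tail hμ.tail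
        (by simpa [h3] using hs) (not_lt.2 (hle.2 h3))
      rw [show (fun i : Fin N => (α - γ) i.succ) = (fun i => α i.succ) - fun i => γ i.succ from rfl]
      unfold ee at this
      rw [this]
      have h5 : (γ = α ∧ b :: List.ofFn (fun i : Fin N => α i.succ) = b :: μ) ↔
          ((fun i : Fin N => γ i.succ) = (fun i => α i.succ) ∧
            List.ofFn (fun i : Fin N => α i.succ) = μ) := by
        rw [List.cons.injEq]
        refine and_congr ⟨fun h => by rw [h], fun h => ?_⟩ (by simp)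
        funext i
        induction i using Fin.cases with
        | zero => omega
        | succ i => exact congrFun h i
      simp only [h5]
      split_ifs <;> ring

theorem sum_XX_mul_XX_of_le {n : ℕ} {l μ : List ℤ} (hl : StrictP l) (hμ : StrictP μ)
    (hs : l.sum = n) (hs' : μ.sum = n) (hle : ¬ l < μ) :
    ∑ ρ ∈ optn n, wq ρ * (XX l (pw ρ) * XX μ (pw ρ)) = if l = μ then 2 ^ l.length else 0 := by
  obtain ⟨N, α, rfl⟩ : ∃ (N : ℕ) (α : Fin N → ℤ), l = List.ofFn α :=
    ⟨_, l.get, (List.ofFn_get l).symm⟩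
  have h1 : ∑ ρ ∈ optn n, wq ρ * (XX (List.ofFn α) (pw ρ) * XX μ (pw ρ)) =
      EE α (∑ ρ ∈ optn n, (wq ρ * XX μ (pw ρ)) • pp N ρ) := by
    rw [map_sum]
    refine sum_congr rfl fun ρ hρ => ?_
    rw [XX_ofFn_pw _ (mem_optn.1 hρ).2, map_smul, smul_eq_mul]; ring
  have h2 : ∀ γ, (∑ ρ ∈ optn n, (wq ρ * XX μ (pw ρ)) • pp N ρ).coeff γ =
      if ∑ i, γ i = n then XX μ (∏ i, qz (γ i)) else 0 := by
    intro γ
    have := congrArg (XX μ) (cauchy n γ)
    rw [apply_ite (XX μ), map_zero, map_sum] at this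
    rw [← this, AddMonoidAlgebra.coeff_sum, Finsupp.finsetSum_apply]
    refine sum_congr rfl fun ρ _ => ?_
    simp only [AddMonoidAlgebra.coeff_smul, Finsupp.smul_apply, smul_eq_mul, map_smul]
    ring
  rw [h1, EE_apply, Finsupp.sum_eq_single α _ (by simp)]
  · rw [h2, if_pos (by rwa [List.sum_ofFn] at hs), mul_comm,
      ee_mul_XX α α hl hμ (hs.trans hs'.symm) hle]
    simp
  · intro γ _ hγ
    rw [h2]
    split_ifs
    · rw [mul_comm, ee_mul_XX α γ hl hμ (hs.trans hs'.symm) hle, if_neg fun h => hγ h.1]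
    · simp

theorem sum_XX_mul_XX {n : ℕ} {l μ : List ℤ} (hl : StrictP l) (hμ : StrictP μ)
    (hs : l.sum = n) (hs' : μ.sum = n) :
    ∑ ρ ∈ optn n, wq ρ * (XX l (pw ρ) * XX μ (pw ρ)) = if l = μ then 2 ^ l.length else 0 := by
  by_cases h : l < μ
  · simp only [mul_comm (XX l _)]
    rw [sum_XX_mul_XX_of_le hμ hl hs' hs (not_lt.2 h.le), if_neg h.ne', if_neg h.ne]
  · exact sum_XX_mul_XX_of_le hl hμ hs hs' h

/-- the sorted list of a multiset -/
def srt (ν : Multiset ℕ) : List ℤ := (ν.sort (· ≥ ·)).map Nat.cast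

theorem srt_injective : Function.Injective srt := by
  intro a b h
  have := List.map_injective_iff.2 (Nat.cast_injective (R := ℤ)) h
  rw [← Multiset.sort_eq a (· ≥ ·), this, Multiset.sort_eq]

/-- strict partitions -/
def sptn (n : ℕ) : Finset (List ℤ) := (Nat.Partition.distincts n).image fun ν => srt ν.parts

theorem of_mem_sptn {n : ℕ} {l : List ℤ} (h : l ∈ sptn n) : StrictP l ∧ l.sum = n := by
  obtain ⟨ν, hν, rfl⟩ := mem_image.1 h
  have hnd : ν.parts.Nodup := (mem_filter.1 hν).2
  refine ⟨⟨?_, ?_⟩, ?_⟩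
  · rw [srt, List.pairwise_map]
    have h1 := Multiset.pairwise_sort ν.parts (· ≥ ·)
    have h2 : (ν.parts.sort (· ≥ ·)).Nodup := by
      rw [← Multiset.coe_nodup, Multiset.sort_eq]; exact hnd
    exact (h1.and h2).imp fun h => by have := h.1; have := h.2; omega
  · intro a ha
    obtain ⟨b, hb, rfl⟩ := List.mem_map.1 ha
    exact_mod_cast ν.parts_pos ((Multiset.mem_sort _).1 hb)
  · rw [srt, ← Nat.cast_list_sum, ← Multiset.sum_coe, Multiset.sort_eq, ν.parts_sum]

theorem card_sptn (n : ℕ) : #(sptn n) = #(optn n) := by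
  have hi : Function.Injective (fun ν : n.Partition => ν.parts) := fun _ _ h => Nat.Partition.ext h
  rw [sptn, card_image_of_injective (f := fun ν : n.Partition => srt ν.parts) _
      (srt_injective.comp hi),
    ← Nat.Partition.card_odds_eq_card_distincts, ← card_image_of_injective _ hi]
  congr 1
  ext ρ
  simp only [optn, ptn, Nat.Partition.odds, Nat.Partition.restricted, mem_image, mem_filter,
    mem_univ, true_and, Nat.not_even_iff_odd]
  constructor
  · rintro ⟨ν, h, rfl⟩; exact ⟨⟨ν, rfl⟩, h⟩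
  · rintro ⟨⟨ν, rfl⟩, h⟩; exact ⟨ν, h, rfl⟩

/-- column orthogonality -/
theorem sum_sptn {n : ℕ} {ρ σ : Multiset ℕ} (hρ : ρ ∈ optn n) (hσ : σ ∈ optn n) :
    wq ρ * ∑ l ∈ sptn n, XX l (pw ρ) * XX l (pw σ) / 2 ^ l.length = if ρ = σ then 1 else 0 := by
  have h0 : (Matrix.of fun (l : sptn n) (ρ : optn n) => XX l (pw ρ) / 2 ^ l.1.length) *
      (Matrix.of fun (ρ : optn n) (l : sptn n) => wq ρ * XX l (pw ρ)) = 1 := by
    ext l μ
    simp only [Matrix.mul_apply, Matrix.of_apply, Matrix.one_apply, Subtype.ext_iff]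
    have h := sum_XX_mul_XX (of_mem_sptn l.2).1 (of_mem_sptn μ.2).1 (of_mem_sptn l.2).2
      (of_mem_sptn μ.2).2
    rw [← sum_coe_sort (optn n)] at h
    have h2 : (if l.1 = μ.1 then (1 : ℚ) else 0) =
        (if l.1 = μ.1 then 2 ^ l.1.length else 0) / 2 ^ l.1.length := by split_ifs <;> simp
    rw [h2, ← h, sum_div]
    exact sum_congr rfl fun ρ _ => by ring
  have h1 := (Matrix.mul_eq_one_comm_of_card_eq _ _ _ (by simp [card_sptn])).1 h0
  have h2 := congrFun (congrFun h1 ⟨ρ, hρ⟩) ⟨σ, hσ⟩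
  simp only [Matrix.mul_apply, Matrix.of_apply, Matrix.one_apply, Subtype.ext_iff] at h2
  rw [← h2, mul_sum, ← sum_coe_sort (sptn n)]
  exact sum_congr rfl fun l _ => by ring

end SpinQ
end Cfsg
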