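import Cfsg.Agent.Spin.Wt
import Cfsg.Agent.CT.SymChar

/-! The degree formula for symmetric groups and the weight bound on defects. -/

set_option autoImplicit false

namespace Cfsg
namespace SpinQ

open Finset SymCh Equiv

variable {N : ℕ}

/-- inverse factorials, zero at negative integers -/
noncomputable def ifac (k : ℤ) : ℚ := if k < 0 then 0 else (k.toNat.factorial : ℚ)⁻¹

theorem ifac_sub_one (k : ℤ) : ifac (k - 1) = k * ifac k := by
  unfold ifac
  rcases lt_trichotomy k 0 with h | rfl | h
  · rw [if_pos (by omega), if_pos h, mul_zero]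
  · simp
  · obtain ⟨m, rfl⟩ : ∃ m : ℕ, k = m + 1 := ⟨(k - 1).toNat, by omega⟩
    rw [if_neg (by omega), if_neg (by omega), show ((m : ℤ) + 1 - 1).toNat = m by omega,
      show ((m : ℤ) + 1).toNat = m + 1 by omega, Nat.factorial_succ]
    push_cast
    field_simp

theorem coeff_pp_replicate_one (n : ℕ) (γ : Fin N → ℤ) :
    (pp N (Multiset.replicate n 1)).coeff γ =
      if ∑ i, γ i = n then n.factorial * ∏ i, ifac (γ i) else 0 := by
  induction n generalizing γ with
  | zero =>
    rw [Multiset.replicate_zero, pp, Multiset.map_zero, Multiset.prod_zero,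
      AddMonoidAlgebra.one_def, AddMonoidAlgebra.coeff_single, Finsupp.single_apply]
    by_cases h0 : 0 = γ
    · subst h0; simp [ifac]
    · rw [if_neg h0]
      split_ifs with h
      · by_contra h1
        apply h0
        have h2 : ∀ i, 0 ≤ γ i := fun i => by
          by_contra h3
          exact h1 (by rw [prod_eq_zero (f := fun i => ifac (γ i)) (mem_univ i)
            (if_pos (not_le.1 h3)), mul_zero])
        funext i
        exact ((sum_eq_zero_iff_of_nonneg fun i _ => h2 i).1 h i (mem_univ i)).symm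
      · rfl
  | succ n ih =>
    rw [Multiset.replicate_succ, pp_cons, coeff_mul_ps]
    simp only [ih, sum_sub_single]
    split_ifs with h1 h2 h2
    · have h3 : ∀ i, ∏ j, ifac ((γ - Pi.single i ((1 : ℕ) : ℤ) : Fin N → ℤ) j) =
          γ i * ∏ j, ifac (γ j) := fun i => by
        rw [← mul_prod_erase univ _ (mem_univ i), ← mul_prod_erase univ _ (mem_univ i),
          ← mul_assoc, ← ifac_sub_one]
        congr 1
        · simp
        · exact prod_congr rfl fun j hj => by simp [ne_of_mem_erase hj]
      simp only [h3]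
      have h4 : ∑ i, (γ i : ℚ) = n + 1 := by exact_mod_cast h2
      rw [← mul_sum, ← sum_mul, h4, Nat.factorial_succ]
      push_cast; ring
    · omega
    · omega
    · simp

theorem ifac_sub {b : ℤ} (hb : 0 ≤ b) (j : ℕ) :
    ifac (b - j) = (descPochhammer ℚ j).eval (b : ℚ) * ifac b := by
  obtain ⟨b, rfl⟩ := Int.eq_ofNat_of_zero_le hb
  rw [Int.cast_natCast, descPochhammer_eval_eq_descFactorial]
  unfold ifac
  rw [if_neg (by omega : ¬ (b : ℤ) < 0), Int.toNat_natCast]
  split_ifs with h
  · rw [Nat.descFactorial_eq_zero_iff_lt.2 (by omega)]; simp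
  · rw [show ((b : ℤ) - j).toNat = b - j by omega,
      ← Nat.factorial_mul_descFactorial (by omega : j ≤ b)]
    have : (b.descFactorial j : ℚ) ≠ 0 := by
      exact_mod_cast Nat.descFactorial_eq_zero_iff_lt.not.2 (by omega)
    push_cast
    field_simp

theorem DM_ofFn (β : Fin N → ℤ) :
    (DM (List.ofFn β) : ℚ) = |∏ i, ∏ j ∈ Ioi i, ((β j : ℚ) - β i)| := by
  induction N with
  | zero => simp [DM]
  | succ N ih =>
    rw [List.ofFn_succ, DM, Nat.cast_mul, ih, Fin.prod_univ_succ, Fin.prod_Ioi_zero, abs_mul,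
      mul_comm, List.map_ofFn, List.prod_ofFn]
    simp only [Fin.prod_Ioi_succ]
    refine congrArg₂ (· * ·) ?_ rfl
    rw [abs_prod]
    push_cast
    refine prod_congr rfl fun i _ => ?_
    simp only [Function.comp, Nat.cast_natAbs, Int.cast_abs, Int.cast_sub]
    exact abs_sub_comm _ _

theorem abs_phi_replicate_one {β : Fin N → ℤ} (h0 : ∀ i, 0 ≤ β i) {n : ℕ}
    (hs : ∑ i, β i = n + ∑ i, del N i) :
    |phi β (Multiset.replicate n 1)| * FF (List.ofFn β) = n.factorial * DM (List.ofFn β) := by
  have h1 : phi β (Multiset.replicate n 1) = n.factorial * (∏ i, ifac (β i)) *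
      ∏ i, ∏ j ∈ Ioi i, ((β j : ℚ) - β i) := by
    rw [← Matrix.det_vandermonde (fun i => (β i : ℚ)),
      Matrix.det_eval_matrixOfPolynomials_eq_det_vandermonde _ (fun j => descPochhammer ℚ j)
        (fun j => descPochhammer_natDegree ℚ j) (fun j => monic_descPochhammer ℚ j),
      ← Matrix.det_transpose, Matrix.det_apply', mul_sum]
    simp only [phi, adel, sum_mul, AddMonoidAlgebra.coeff_sum, Finsupp.finsetSum_apply,
      AddMonoidAlgebra.coeff_single_mul_apply, coeff_pp_replicate_one, neg_add_eq_sub]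
    refine sum_congr rfl fun w _ => ?_
    rw [if_pos]
    · simp only [Pi.sub_apply, Function.comp, del, ifac_sub (h0 _), prod_mul_distrib, sg,
        Matrix.transpose_apply, Matrix.of_apply]
      ring
    · simp only [Pi.sub_apply, Function.comp, sum_sub_distrib, hs]
      rw [Equiv.sum_comp w (del N)]; ring
  have h2 : (∏ i, ifac (β i)) * FF (List.ofFn β) = 1 := by
    rw [FF, List.map_ofFn, List.prod_ofFn]
    push_cast
    rw [← prod_mul_distrib]
    refine prod_eq_one fun i _ => ?_
    rw [ifac, if_neg (not_lt.2 (h0 i))]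
    exact inv_mul_cancel₀ (by exact_mod_cast Nat.factorial_ne_zero _)
  have h3 : 0 ≤ ∏ i, ifac (β i) := prod_nonneg fun i _ => by
    unfold ifac; split_ifs <;> positivity
  rw [h1, abs_mul, abs_mul, ← DM_ofFn, abs_of_nonneg h3, Nat.abs_cast]
  linear_combination (n.factorial * DM (List.ofFn β) : ℚ) * h2

theorem sum_le_mul_Wm {p : ℕ} (hp : 0 < p) {ν ρ : Multiset ℕ} (hν : ∀ r ∈ ν, p ∣ r)
    {β : Fin N → ℤ} (h : phi β (ν + ρ) ≠ 0) : (ν.sum : ℤ) ≤ p * Wm p (List.ofFn β) := by
  induction ν using Multiset.induction_on generalizing β with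
  | empty =>
    have h1 : Function.Injective β := by
      by_contra h1; exact h (phi_eq_zero_of_not_injective h1 _)
    have h2 : ∀ b ∈ List.ofFn β, 0 ≤ b := by
      intro b hb
      obtain ⟨i, rfl⟩ := List.mem_ofFn.1 hb
      by_contra h2; exact h (phi_eq_zero_of_neg (not_le.1 h2) _)
    simpa using mul_nonneg (Nat.cast_nonneg p) (Wm_nonneg p (List.nodup_ofFn.2 h1) h2)
  | cons r ν ih =>
    rw [Multiset.cons_add, phi_cons] at h
    obtain ⟨i, -, hi⟩ := exists_ne_zero_of_sum_ne_zero h
    obtain ⟨k, rfl⟩ := hν r (Multiset.mem_cons_self _ _)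
    have h1 := ih (fun s hs => hν s (Multiset.mem_cons_of_mem hs)) hi
    have hβ := ofFn_sub_single_mem_shifts ((p * k : ℕ) : ℤ) β i
    rw [Nat.cast_mul] at hβ h1
    rw [Wm_of_mem_shifts (by exact_mod_cast hp.ne') hβ] at h1
    rw [Multiset.sum_cons, Nat.cast_add, Nat.cast_mul]
    linarith

variable {α : Type} [Fintype α] [DecidableEq α]

theorem typ_one : typ (1 : Perm α) = Multiset.replicate (Fintype.card α) 1 := by
  simp [typ_def]

/-- the defect of a character of a symmetric group is at least the weight of any section it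
lives on -/
theorem sym_defect {p : ℕ} (hp : p.Prime) (χ : IrrCharacter (Perm α)) {σ : Perm α}
    (h0 : χ.1 σ ≠ 0) {ν ρ : Multiset ℕ} (hσ : typ σ = ν + ρ) (hν : ∀ r ∈ ν, p ∣ r) {w : ℕ}
    (hw : p * w ≤ ν.sum) :
    (charDegree χ.1).factorization p + w ≤ (Fintype.card α).factorial.factorization p := by
  obtain ⟨X, hX, rfl⟩ := exists_irrB_eq le_rfl χ
  rw [irrB_ne_zero_iff hX, hσ, ph] at h0
  set β := lab (Fintype.card α) X
  have hβ0 : ∀ i, 0 ≤ β i := lab_nonneg X
  have hnd : (List.ofFn β).Nodup := List.nodup_ofFn.2 (lab_strictMono (mem_bs.1 hX).1).injective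
  have h1 := sum_le_mul_Wm hp.pos hν h0
  have h2 : (w : ℤ) ≤ Wm p (List.ofFn β) := by
    have : (p : ℤ) * w ≤ ν.sum := by exact_mod_cast hw
    exact le_of_mul_le_mul_left (this.trans h1) (by exact_mod_cast hp.pos)
  have h3 := factorization_DM_add_le hp hnd fun b hb => by
    obtain ⟨i, rfl⟩ := List.mem_ofFn.1 hb
    exact hβ0 i
  have h4 := abs_phi_replicate_one hβ0 (sum_lab_of_mem hX)
  obtain ⟨ε, hε, h5⟩ := isLab_irrB hX
  have h6 := h5 1
  rw [IrrCharacter.one_eq_charDegree, typ_one, ph] at h6
  have h7 : |phi β (Multiset.replicate (Fintype.card α) 1)| =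
      charDegree (irrB α (Fintype.card α) X).1 := by
    have h8 := congrArg norm h6
    have h9 : ‖ε‖ = 1 := by rcases hε with rfl | rfl <;> simp
    rw [norm_mul, h9, one_mul, Complex.norm_natCast, Complex.norm_ratCast] at h8
    exact_mod_cast h8.symm
  rw [h7] at h4
  have h8 : charDegree (irrB α (Fintype.card α) X).1 * FF (List.ofFn β) =
      (Fintype.card α).factorial * DM (List.ofFn β) := by exact_mod_cast h4
  have h9 := congrArg (fun x => x.factorization p) h8
  simp only [Nat.factorization_mul (IrrCharacter.charDegree_pos _).ne' (FF_ne_zero _),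
    Nat.factorization_mul (Nat.factorial_ne_zero _) (DM_ne_zero hnd), Finsupp.add_apply] at h9
  omega

end SpinQ
end Cfsg
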