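import Cfsg.Agent.Spin.SpinInt
import Cfsg.Agent.Spin.SpinGrp
import Cfsg.Agent.Spin.QDeg
import Cfsg.Agent.Spin.SymDeg
import Cfsg.Agent.Blk.IndexTwo

/-! The spin characters, and the weight bound for covers of alternating groups. -/

set_option autoImplicit false
set_option linter.unusedSectionVars false

namespace Cfsg
namespace AltCov

open Equiv Finset Cliff SpinQ SymCh ComplexConjugate

variable {κ α β : Type} [Fintype κ] [DecidableEq κ] [Fintype α] [DecidableEq α]
  [Fintype β] [DecidableEq β] [Nonempty β] {γ : α ⊕ β → Matrix κ κ ℂ}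

theorem prod_map_odd {ν : Multiset ℕ} (h : ∀ r ∈ ν, Odd r) :
    (ν.map fun r => if Odd r then (2 / 2 ^ r : ℂ) else 0).prod = 2 ^ ν.card / 2 ^ ν.sum := by
  induction ν using Multiset.induction_on with
  | empty => simp
  | cons r ν ih =>
    rw [Multiset.map_cons, Multiset.prod_cons, ih fun r hr => h r (Multiset.mem_cons_of_mem hr),
      if_pos (h r (Multiset.mem_cons_self _ _)), Multiset.card_cons, Multiset.sum_cons]
    field_simp
    ring

theorem mem_alt_of_typ {σ : Perm α} (h : ∀ r ∈ typ σ, Odd r) : σ ∈ alternatingGroup α := by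
  have h1 := sgn_typ σ
  rw [sgn, Multiset.map_congr rfl (g := fun _ => 1) fun r hr => by rw [(h r hr).neg_one_pow]; ring]
    at h1
  rw [Perm.mem_alternatingGroup]
  rcases Int.units_eq_one_or (Perm.sign σ) with h | h
  · exact h
  · norm_num [h] at h1

theorem trace_mul_conj (hγ : Gamma γ) {K : Type*} [Group K] [Finite K] {φ : K →* Perm α}
    {ρ : K →* Matrix κ κ ℂ} (hρ : ∀ g, Lifts γ (φ g) (ρ g)) (g : K) :
    (ρ g).trace * conj (ρ g).trace = if typ (φ g) ∈ optn (Fintype.card α) then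
      2 ^ (typ (φ g)).card / 2 ^ Fintype.card α * (Fintype.card κ : ℂ) ^ 2 else 0 := by
  have hs := (mem_ptn.1 (typ_mem (φ g))).1
  by_cases hA : φ g ∈ alternatingGroup α
  · rw [← matrix_trace_inv_eq_conj, hγ.nn_prod hA _ _ (hρ g) (by rw [← map_mul]; simp)]
    have e : ((φ g).cycleType.map fun r => if Odd r then (2 / 2 ^ r : ℂ) else 0).prod =
        ((typ (φ g)).map fun r => if Odd r then (2 / 2 ^ r : ℂ) else 0).prod := by
      simp [typ_def]
    rw [e]
    split_ifs with h
    · rw [prod_map_odd (mem_optn.1 h).2, hs]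
    · simp only [mem_optn, hs, true_and, not_forall] at h
      obtain ⟨r, hr, h⟩ := h
      rw [Multiset.prod_eq_zero (Multiset.mem_map.2 ⟨r, hr, if_neg h⟩), zero_mul]
  · rw [hγ.trace_eq_zero_of_odd hA (hρ g), zero_mul,
      if_neg fun h => hA (mem_alt_of_typ (mem_optn.1 h).2)]

theorem mem_optn_of_trace_ne_zero (hγ : Gamma γ) {K : Type*} [Group K] [Finite K]
    {φ : K →* Perm α} {ρ : K →* Matrix κ κ ℂ} (hρ : ∀ g, Lifts γ (φ g) (ρ g)) {g : K}
    (h : (ρ g).trace ≠ 0) : typ (φ g) ∈ optn (Fintype.card α) := by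
  by_contra h'
  have := trace_mul_conj hγ hρ g
  rw [if_neg h'] at this
  simp [h] at this

/-- the spin class functions -/
noncomputable def YY {K : Type*} [Group K] (φ : K →* Perm α) (ρ : K →* Matrix κ κ ℂ)
    (l : List ℤ) (m : ℕ) (g : K) : ℂ := (ρ g).trace / 2 ^ m * (XX l (pw (typ (φ g))) : ℚ)

theorem isGenChar_YY (hγ : Gamma γ) {K : Type*} [Group K] [Finite K] {φ : K →* Perm α}
    {ρ : K →* Matrix κ κ ℂ} (hρ : ∀ g, Lifts γ (φ g) (ρ g)) {l : List ℤ} (hl : StrictP l) {m : ℕ}
    (hm : ((∀ g, φ g ∈ alternatingGroup α) ∧ 2 * m ≤ l.length + Fintype.card β) ∨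
      2 * m + 1 ≤ l.length + Fintype.card β) : IsGeneralizedCharacter K (YY φ ρ l m) := by
  convert isGenChar_spin hγ φ ρ hρ (l := l.get) (fun i => hl.2 _ (List.get_mem _ _)) hm
    using 2 with g
  by_cases h : (ρ g).trace = 0
  · simp [YY, h]
  · rw [YY, ← XX_ofFn_pw _ (mem_optn.1 (mem_optn_of_trace_ne_zero hγ hρ h)).2, List.ofFn_get]

variable {G : Type} [Group G] [Fintype G] {π : G →* Perm α} {ρ : G →* Matrix κ κ ℂ} {z : G}

theorem IsSpin.classInner_YY (S : IsSpin γ π ρ z) (hκ : Fintype.card κ = 2 ^ Fintype.card α)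
    {l : List ℤ} (hl : StrictP l) (hs : l.sum = Fintype.card α) (m : ℕ) :
    classInner (YY π ρ l m) (YY π ρ l m) = 2 ^ (Fintype.card α + l.length) / 2 ^ (2 * m) := by
  set n := Fintype.card α with hn
  let F : Multiset ℕ → ℂ := fun ν => if ν ∈ optn n then
    2 ^ n / 2 ^ (2 * m) * ((2 ^ ν.card * (XX l (pw ν) * XX l (pw ν)) : ℚ) : ℂ) else 0
  have h1 : classInner (YY π ρ l m) (YY π ρ l m) =
      classInner (fun g => F (typ (π g))) (fun g => (fun _ => 1) (π g)) := by
    rw [classInner_def, classInner_def]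
    refine congrArg _ (sum_congr rfl fun g _ => ?_)
    have := trace_mul_conj S.gam S.lifts g
    simp only [YY, F, map_mul, map_div₀, map_pow, map_ratCast, map_ofNat, map_one, mul_one]
    split_ifs at this ⊢
    · rw [hκ, ← hn] at this
      push_cast at this ⊢
      rw [div_mul_eq_mul_div, pow_two, ← mul_assoc, mul_div_cancel_right₀ _ (by simp)] at this
      linear_combination (XX l (pw (typ (π g))) / 2 ^ m : ℂ) ^ 2 * this
    · linear_combination (XX l (pw (typ (π g))) / 2 ^ m : ℂ) ^ 2 * this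
  rw [h1, classInner_comp_surjective π S.surj (fun σ => F (typ σ)) fun _ => 1, classInner_def]
  simp only [map_one, mul_one]
  rw [inv_mul_sum_typ F]
  have h2 := sum_XX_mul_XX hl hl hs hs
  rw [if_pos rfl] at h2
  simp only [F, ite_div, zero_div]
  rw [← sum_filter, filter_mem_eq_inter, 
    inter_eq_right.2 (show optn n ⊆ ptn (Fintype.card α) from filter_subset _ _), pow_add,
    mul_div_right_comm, show (2 : ℂ) ^ l.length = ((2 ^ l.length : ℚ) : ℂ) by simp, ← h2]
  push_cast
  rw [mul_sum]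
  refine sum_congr rfl fun ν _ => ?_
  simp only [wq]
  push_cast
  ring

theorem IsSpin.exists_classInner_ne_zero (S : IsSpin γ π ρ z) [Nonempty κ] {A : Subgroup G}
    [Fintype A] {χ : A → ℂ} (hz : z ∈ A) (h : χ ⟨z, hz⟩ ≠ χ 1) :
    ∃ l ∈ sptn (Fintype.card α), ∀ m, classInner (fun g : A => YY π ρ l m g) χ ≠ 0 := by
  classical
  set n := Fintype.card α
  by_contra! H
  choose! m hm using H
  have h1 : Multiset.replicate n 1 ∈ optn n := by
    simp [mem_optn, Multiset.mem_replicate]
  have hw : wq (Multiset.replicate n 1) ≠ 0 := by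
    rw [wq, zz_replicate_one]; positivity
  have h2 := sum_eq_zero (s := sptn n) (f := fun l => (2 ^ m l * XX l (pw (Multiset.replicate n 1)) /
    2 ^ l.length : ℂ) * classInner (fun g : A => YY π ρ l (m l) g) χ) fun l hl => by rw [hm l hl, mul_zero]
  simp only [← classInner_const_mul_left] at h2
  rw [← classInner_sum_left, classInner_def] at h2
  have hz1 : (1 : A) ≠ ⟨z, hz⟩ := fun e => by
    have := S.ρz
    rw [← show (1 : G) = z from congrArg Subtype.val e, map_one] at this
    exact neg_one_ne_one_mat this.symm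
  have h3 : ∀ g : G, ∑ l ∈ sptn n, (2 ^ m l * XX l (pw (Multiset.replicate n 1)) /
      2 ^ l.length : ℂ) * YY π ρ l (m l) g =
      if π g = 1 then (ρ g).trace / wq (Multiset.replicate n 1) else 0 := by
    intro g
    by_cases h0 : (ρ g).trace = 0
    · simp [YY, h0]
    have h4 := mem_optn_of_trace_ne_zero S.gam S.lifts h0
    have h5 := sum_sptn h4 h1
    have h6 : typ (π g) = Multiset.replicate n 1 ↔ π g = 1 := by
      rw [← typ_one, typ_eq_iff, isConj_one_left]
    have hw' : wq (typ (π g)) ≠ 0 := by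
      have := zz_pos (mem_ptn.1 (typ_mem (π g))).2
      rw [wq]; positivity
    rw [← eq_inv_mul_iff_mul_eq₀ hw'] at h5
    have h7 : ∑ l ∈ sptn n, (2 ^ m l * XX l (pw (Multiset.replicate n 1)) /
        2 ^ l.length : ℂ) * YY π ρ l (m l) g = (ρ g).trace * ((∑ l ∈ sptn n,
        XX l (pw (typ (π g))) * XX l (pw (Multiset.replicate n 1)) / 2 ^ l.length : ℚ) : ℂ) := by
      push_cast
      rw [mul_sum]
      refine sum_congr rfl fun l _ => ?_
      rw [YY]
      field_simp
    rw [h7, h5]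
    simp only [h6]
    split_ifs with h8
    · rw [h6.2 h8]; simp [div_eq_mul_inv]
    · simp
  simp only [Finset.sum_apply, h3] at h2
  rw [← sum_subset (subset_univ {1, ⟨z, hz⟩}), sum_pair hz1] at h2
  · have hc : (Nat.card A : ℂ) ≠ 0 := by exact_mod_cast Nat.card_pos.ne'
    have hκ : (Fintype.card κ : ℂ) ≠ 0 := by exact_mod_cast Fintype.card_pos.ne'
    have hw' : (wq (Multiset.replicate n 1) : ℂ) ≠ 0 := by exact_mod_cast hw
    simp only [OneMemClass.coe_one, map_one, if_true, S.πz, S.ρz, Matrix.trace_neg,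
      Matrix.trace_one] at h2
    apply h
    apply (starRingEnd ℂ).injective
    field_simp at h2
    exact mul_left_cancel₀ hκ (by linear_combination -h2)
  · intro g _ hg
    rw [if_neg, zero_mul]
    intro h
    rcases S.ker g h with h | h <;> simp [Subtype.ext_iff, h] at hg

theorem IsSpin.exists_pair (S : IsSpin γ π ρ z) (hκ : Fintype.card κ = 2 ^ Fintype.card α)
    (hβ : Fintype.card β = Fintype.card α + 1) [Nontrivial α] {A : Subgroup G}
    (hA' : A = (alternatingGroup α).comap π) (χ : IrrCharacter A) (hz : z ∈ A)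
    (h : χ.1 ⟨z, hz⟩ ≠ χ.1 1) :
    ∃ l, StrictP l ∧ l.sum = Fintype.card α ∧ ∃ χ' : IrrCharacter A, χ'.1 1 = χ.1 1 ∧ ∃ (m a : ℕ) (ε : ℂ), (ε = 1 ∨ ε = -1) ∧
        ∀ g, χ.1 g + χ'.1 g = ε * 2 ^ a * YY π ρ l m g := by
  classical
  have : Nonempty κ := Fintype.card_pos_iff.1 (by rw [hκ]; positivity)
  have : A.Normal := hA' ▸ inferInstance
  have hA : A.index = 2 := by
    rw [hA', Subgroup.index_comap_of_surjective _ S.surj, alternatingGroup.index_eq_two]
  obtain ⟨l, hl, hne⟩ := S.exists_classInner_ne_zero hz h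
  obtain ⟨hl, hs⟩ := of_mem_sptn hl
  refine ⟨l, hl, hs, ?_⟩
  have sg : ∀ {K : Type} [Group K] {θ : K → ℂ} {ψ : IrrCharacter K}, θ = ψ.1 ∨ θ = -ψ.1 →
      ∃ ε : ℂ, (ε = 1 ∨ ε = -1) ∧ ∀ g, ψ.1 g = ε * θ g := by
    rintro K _ θ ψ (rfl | rfl)
    · exact ⟨1, Or.inl rfl, by simp⟩
    · exact ⟨-1, Or.inr rfl, by simp⟩
  rcases Nat.even_or_odd' (Fintype.card α + l.length) with ⟨m, hm | hm⟩
  · obtain ⟨ψ, hψ⟩ := (isGenChar_YY S.gam S.lifts hl (m := m)
      (Or.inr (by omega))).exists_irr_of_classInner_self_eq_one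
      (by rw [S.classInner_YY hκ hl hs, hm, div_self (by simp)])
    obtain ⟨ε, hε, he⟩ := sg hψ
    obtain ⟨t, ht⟩ : ∃ t, t ∉ A := by
      by_contra! h
      rw [(Subgroup.eq_top_iff' A).2 h, Subgroup.index_top] at hA
      omega
    have h0 : classInner (fun g : A => ψ.1 g) χ.1 ≠ 0 := by
      simp only [he, classInner_const_mul_left]
      exact mul_ne_zero (by rcases hε with rfl | rfl <;> simp) (hne m)
    rcases res_of_index_two hA ht ψ h0 with ⟨-, h1⟩ | ⟨-, h1⟩
    · exact ⟨χ, rfl, m, 1, ε, hε, fun g => by rw [← h1]; simp only [he]; ring⟩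
    · exact ⟨t • χ, by simp, m, 0, ε, hε, fun g => by
        rw [← Pi.add_apply χ.1, ← h1]; simp only [he]; ring⟩
  · have h1 := isGenChar_YY S.gam (φ := π.comp A.subtype) (ρ := ρ.comp A.subtype)
      (fun g => S.lifts g) hl (m := m + 1) (Or.inl ⟨fun g => hA'.le g.2, by omega⟩)
    change IsGeneralizedCharacter A fun g : A => YY π ρ l (m + 1) g at h1
    obtain ⟨ψ, hψ⟩ := h1.exists_irr_of_classInner_self_eq_one (by
      rw [(classInner_res_self_eq_iff A _).2 fun g hg => by
        simp [YY, S.gam.trace_eq_zero_of_odd (mt (hA'.ge ·) hg) (S.lifts g)], S.classInner_YY hκ hl hs, hm, hA]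
      field_simp
      ring)
    obtain ⟨ε, hε, he⟩ := sg hψ
    obtain rfl : ψ = χ := IrrCharacter.eq_of_classInner_ne_zero (by
      rw [funext he, classInner_const_mul_left]
      exact mul_ne_zero (by rcases hε with rfl | rfl <;> simp) (hne _))
    exact ⟨ψ, rfl, m + 1, 1, ε, hε, fun g => by rw [he]; ring⟩

theorem IsSpin.isCov (S : IsSpin γ π ρ z) :
    IsCov (π.comp ((alternatingGroup α).comap π).subtype) := by
  refine ⟨fun g => g.2, fun σ hσ => ?_, fun h hh g => Subtype.ext ?_⟩
  · obtain ⟨g, rfl⟩ := S.surj σ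
    exact ⟨⟨g, hσ⟩, rfl⟩
  · rcases S.ker h hh with e | e
    · simp [e]
    · by_cases hz : z = 1
      · simp [e, hz]
      · have := (S.ker (g * z * (g : G)⁻¹) (by simp [S.πz])).resolve_left (by simpa using hz)
        simpa [e, mul_inv_eq_iff_eq_mul] using this

/-- characters of the alternating group under characters of the symmetric group -/
theorem exists_sym_over (χ : IrrCharacter (alternatingGroup α)) {t : Perm α}
    (ht : t ∉ alternatingGroup α) : ∃ ψ : IrrCharacter (Perm α),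
      (∀ g : alternatingGroup α, ψ.1 g = χ.1 g) ∧ t • χ = χ ∨
        ∀ g : alternatingGroup α, ψ.1 g = χ.1 g + (t • χ).1 g := by
  classical
  have : Nontrivial α := by
    by_contra h
    rw [not_nontrivial_iff_subsingleton] at h
    exact ht (Subsingleton.elim t 1 ▸ one_mem _)
  obtain ⟨ψ, hψ⟩ := χ.exists_over
  rcases res_of_index_two alternatingGroup.index_eq_two ht ψ hψ with ⟨h0, h⟩ | ⟨-, h⟩
  · exact ⟨ψ, Or.inl ⟨congrFun h, h0⟩⟩
  · exact ⟨ψ, Or.inr (congrFun h)⟩

theorem IsCov.surjective_codRestrict {H : Type*} [Group H] {π : H →* Perm α} (C : IsCov π) :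
    Function.Surjective (π.codRestrict _ C.mem) :=
  fun σ => (C.surj σ σ.2).imp fun _ h => Subtype.ext h

theorem IsCov.exists_comap {H : Type*} [Group H] [Finite H] {π : H →* Perm α} (C : IsCov π)
    (χ : IrrCharacter H) (h : ∀ z, π z = 1 → χ.1 z = χ.1 1) :
    ∃ χ₀ : IrrCharacter (alternatingGroup α), ∀ g, χ.1 g = χ₀.1 ⟨π g, C.mem g⟩ := by
  obtain ⟨χ₀, h0⟩ := χ.exists_comap_eq (π.codRestrict _ C.mem)
    C.surjective_codRestrict fun z hz => χ.mem_charKer.2 (h z (congrArg Subtype.val hz))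
  exact ⟨χ₀, fun g => by rw [← h0]; rfl⟩

/-- the weight bound for odd primes -/
theorem IsCov.exists_pair {H : Type*} [Group H] [Finite H] {π : H →* Perm α} (C : IsCov π)
    (h8 : 8 ≤ Fintype.card α) (hp : commutator H = ⊤) (χ : IrrCharacter H) :
    ∃ χ' : IrrCharacter H, χ'.1 1 = χ.1 1 ∧ ∀ p : ℕ, p.Prime → p ≠ 2 → ∀ h, χ.1 h + χ'.1 h ≠ 0 →
      ∀ ν μ : Multiset ℕ, typ (π h) = ν + μ → (∀ r ∈ ν, p ∣ r) → ∀ w, p * w ≤ ν.sum →
        (charDegree χ.1).factorization p + w ≤ (Fintype.card α).factorial.factorization p := by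
  classical
  have : Nontrivial α := Fintype.one_lt_card_iff_nontrivial.1 (by omega)
  have hd := χ.one_eq_charDegree
  have hd0 := χ.charDegree_pos
  by_cases h : ∀ z, π z = 1 → χ.1 z = χ.1 1
  · obtain ⟨χ₀, h0⟩ := C.exists_comap χ h
    obtain ⟨a, b, hab⟩ := exists_pair_ne α
    have h1 : χ₀.1 1 = χ.1 1 := by
      rw [h0]; exact congrArg _ (Subtype.ext (map_one π).symm)
    obtain ⟨ψ, ⟨hψ, -⟩ | hψ⟩ := exists_sym_over χ₀ (t := swap a b)
      (by simp [Perm.mem_alternatingGroup, Perm.sign_swap hab])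
    · refine ⟨χ, rfl, fun p hp _ g hg ν μ e hν w hw => ?_⟩
      have := sym_defect hp ψ (σ := π g) (fun e => hg (by rw [h0, ← hψ, e, add_zero])) e hν hw
      rwa [charDegree_eq_of_one_eq (n := charDegree χ.1) (by rw [← hd, ← h1, ← hψ]; rfl)] at this
    · refine ⟨(swap a b • χ₀).comap (π.codRestrict _ C.mem) C.surjective_codRestrict,
        by rw [IrrCharacter.comap_apply, map_one, IrrCharacter.smul_apply_one, h1],
        fun p hp hp2 g hg ν μ e hν w hw => ?_⟩
      have := sym_defect hp ψ (σ := π g)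
        (fun e => hg (by rw [h0, ← e]; exact (hψ ⟨π g, C.mem g⟩).symm)) e hν hw
      rw [charDegree_eq_of_one_eq (n := 2 * charDegree χ.1) (by
        have := hψ 1
        rw [IrrCharacter.smul_apply_one, h1, hd] at this
        push_cast
        rw [two_mul, ← this]; rfl), Nat.factorization_mul (by simp) hd0.ne'] at this
      simp only [Finsupp.add_apply] at this
      omega
  · push Not at h
    obtain ⟨z₀, hz₀, hne⟩ := h
    obtain ⟨κ, _, _, γ, hκ, hγ⟩ := exists_gamma (Fintype.card α)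
      (α ⊕ Fin (Fintype.card α + 1)) (by simp; omega)
    have : Nonempty κ := Fintype.card_pos_iff.1 (by rw [hκ]; positivity)
    obtain ⟨G, _, _, φ, ρ, z, S⟩ := exists_isSpin hγ h8
    have := Fintype.ofFinite G
    have hz : z ∈ (alternatingGroup α).comap φ := by simp [S.πz]
    have hz1 : z ≠ 1 := fun e => neg_one_ne_one_mat (κ := κ) (by rw [← S.ρz, e, map_one])
    have hz0 : z₀ ≠ 1 := by rintro rfl; exact hne rfl
    obtain ⟨e, he⟩ := C.exists_mulEquiv S.isCov h8 hp S.perf hz₀ (z₂ := ⟨z, hz⟩) S.πz hz0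
      (by simpa [Subtype.ext_iff] using hz1)
    have hez : e z₀ = ⟨z, hz⟩ := Subtype.ext ((S.ker _ ((he z₀).trans hz₀)).resolve_left
      (by simpa using hz0))
    obtain ⟨l, hl, hs, χ', h1, m, a, ε, hε, hY⟩ := S.exists_pair hκ (by simp) rfl
      (IrrCharacter.congr e χ) hz (by simpa [← hez] using hne)
    refine ⟨(IrrCharacter.congr e).symm χ', by simpa using h1,
      fun p hp hp2 g hg ν μ e' hν w hw => ?_⟩
    have h2 := hY 1
    simp only [h1, IrrCharacter.congr_apply, map_one, YY, OneMemClass.coe_one, Matrix.trace_one, hκ,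
      typ_one, pw_replicate, hd] at h2
    have hX := XX_px_pow_pos hl hs
    refine spin_defect hp hp2 hl hs (a := m + 1) (b := a + Fintype.card α) (ρ := μ) ?_ hν ?_ hw
    · rcases hε with rfl | rfl
      · have : ((charDegree χ.1 * 2 ^ (m + 1) : ℚ) : ℂ) =
            ((2 ^ (a + Fintype.card α) * XX l (px 1 ^ Fintype.card α) : ℚ) : ℂ) := by
          push_cast at h2 ⊢
          field_simp at h2
          linear_combination h2
        exact_mod_cast this
      · have : ((charDegree χ.1 * 2 ^ (m + 1) : ℚ) : ℂ) =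
            ((-(2 ^ (a + Fintype.card α) * XX l (px 1 ^ Fintype.card α)) : ℚ) : ℂ) := by
          push_cast at h2 ⊢
          field_simp at h2
          linear_combination h2
        have h3 := Rat.cast_injective this
        have : (0 : ℚ) < charDegree χ.1 * 2 ^ (m + 1) := by positivity
        have : (0 : ℚ) < 2 ^ (a + Fintype.card α) * XX l (px 1 ^ Fintype.card α) := by positivity
        linarith
    · intro h0
      have := hY (e g)
      rw [YY, show φ (e g) = π g from he g, e', h0] at this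
      exact hg (by simpa using this)

end AltCov
end Cfsg
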