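import Cfsg.Agent.Spin.Cliff
import Cfsg.Agent.Spin.QOrth
import Cfsg.Agent.CT.Induction
import Cfsg.Agent.CT.SymChar

/-! Integrality of the spin class functions. -/

set_option autoImplicit false
set_option linter.unusedSectionVars false

namespace Cfsg

open Finset Equiv

theorem isGenChar_mul_sum_fixed {K : Type*} [Group K] [Fintype K] {X : Type} [Fintype X]
    [DecidableEq X] [MulAction K X] {θ : K → ℂ} (hθ : IsClassFunction K θ) (w : X → ℂ)
    (hw : ∀ (g : K) x, w (g • x) = w x)
    (h : ∀ x, IsGeneralizedCharacter (MulAction.stabilizer K x) fun g => θ g * w x) :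
    IsGeneralizedCharacter K fun g => θ g * ∑ x with g • x = x, w x := by
  classical
  have key : ∀ x g, indFun (MulAction.stabilizer K x) (fun g => θ g * w x) g =
      ∑ b with b ∈ MulAction.orbit K x, if g • b = b then θ g * w b else 0 := by
    intro x g
    have hc : (Nat.card (MulAction.stabilizer K x) : ℂ) ≠ 0 := by exact_mod_cast Nat.card_pos.ne'
    rw [indFun_apply, inv_mul_eq_iff_eq_mul₀ hc, ← nsmul_eq_mul,
      ← sum_smul_eq_card_stabilizer_smul x _ (by simp)]
    refine sum_congr rfl fun y _ => ?_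
    have e : y⁻¹ * g * y ∈ MulAction.stabilizer K x ↔ g • y • x = y • x := by
      rw [MulAction.mem_stabilizer_iff, mul_smul, mul_smul, inv_smul_eq_iff]
    split_ifs with h1
    · rw [extendByZero_of_mem _ _ (e.2 h1), hw]
      have := hθ g y⁻¹
      rw [inv_inv] at this
      simp only [this]
    · exact extendByZero_of_not_mem _ _ (mt e.1 h1)
  have := IsGeneralizedCharacter.sum univ
    fun (ω : MulAction.orbitRel.Quotient K X) _ => (h ω.out).indFun
  convert this using 2 with g
  rw [Finset.sum_apply, mul_sum, sum_filter, ← sum_fiberwise univ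
    (fun b => (Quotient.mk'' b : MulAction.orbitRel.Quotient K X))]
  refine sum_congr rfl fun ω _ => ?_
  rw [key]
  refine sum_congr (filter_congr fun b _ => ?_) fun _ _ => rfl
  rw [← MulAction.orbitRel_apply, ← Quotient.eq'', Quotient.out_eq']

namespace Cliff

variable {κ : Type} [Fintype κ] [DecidableEq κ]

theorem isCharacter_trace_div' {K : Type*} [Group K] (ρ : K →* Matrix κ κ ℂ) {J : Type}
    [DecidableEq J] (u : J → Matrix κ κ ℂ) (m : ℕ) (s : Finset J)
    (hs : 2 * m + 1 ≤ #s) (h1 : ∀ j ∈ s, u j * u j = 1)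
    (h2 : ∀ i ∈ s, ∀ j ∈ s, i ≠ j → u i * u j = -(u j * u i)) (ε : K → ℂ)
    (hε : ∀ g, ε g * ε g = 1) (h3 : ∀ g, ∀ j ∈ s, ρ g * u j = ε g • (u j * ρ g)) :
    IsCharacter K fun g => (ρ g).trace / 2 ^ m := by
  obtain ⟨o, ho⟩ : s.Nonempty := card_pos.1 (by omega)
  have e : ∀ i ∈ s.erase o, ∀ j ∈ s.erase o,
      Complex.I • (u i * u o) * Complex.I • (u j * u o) = u i * u j := fun i _ j hj => by
    rw [smul_mul_smul_comm, Complex.I_mul_I, mul_assoc, ← mul_assoc (u o),
      h2 o ho j (mem_of_mem_erase hj) (ne_of_mem_erase hj).symm]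
    simp [mul_assoc, h1 o ho]
  refine isCharacter_trace_div ρ (fun j => Complex.I • (u j * u o)) m (s.erase o)
    (by rw [card_erase_of_mem ho]; omega) (fun j hj => ?_) (fun i hi j hj hij => ?_)
    fun g j hj => ?_
  · rw [e j hj j hj, h1 j (mem_of_mem_erase hj)]
  · rw [e i hi j hj, e j hj i hi, h2 i (mem_of_mem_erase hi) j (mem_of_mem_erase hj) hij]
  · rw [Matrix.mul_smul, Matrix.smul_mul, ← mul_assoc, h3 g j (mem_of_mem_erase hj),
      Matrix.smul_mul, mul_assoc, h3 g o ho, Matrix.mul_smul, smul_smul (ε g), hε, one_smul,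
      mul_assoc]

variable {α β : Type} [Fintype α] [DecidableEq α] [Fintype β] [DecidableEq β]
  {γ : α ⊕ β → Matrix κ κ ℂ}

theorem Gamma.sum_mul_self (hγ : Gamma γ) (s : Finset α) :
    (∑ a ∈ s, γ (Sum.inl a)) * (∑ a ∈ s, γ (Sum.inl a)) = (#s : ℂ) • 1 := by
  induction s using Finset.induction_on with
  | empty => simp
  | insert a s ha ih =>
    have : γ (Sum.inl a) * ∑ b ∈ s, γ (Sum.inl b) = -((∑ b ∈ s, γ (Sum.inl b)) * γ (Sum.inl a)) := by
      rw [mul_sum, sum_mul, ← sum_neg_distrib]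
      exact sum_congr rfl fun b hb => hγ.anti' (by rintro rfl; exact ha hb)
    rw [sum_insert ha, add_mul, mul_add, mul_add, ih, hγ.sq, this, card_insert_of_notMem ha]
    push_cast
    rw [add_smul, one_smul]
    abel

theorem Gamma.exists_family (hγ : Gamma γ) {N : ℕ} (f : α → Fin N) :
    ∃ (v : Fin N ⊕ β → Matrix κ κ ℂ) (s : Finset (Fin N ⊕ β)),
      #s = #(univ.image f) + Fintype.card β ∧ (∀ j ∈ s, v j * v j = 1) ∧
      (∀ i ∈ s, ∀ j ∈ s, i ≠ j → v i * v j = -(v j * v i)) ∧
      ∀ (σ : Perm α) M, Lifts γ σ M → f ∘ σ = f → ∀ j ∈ s, M * v j = sC σ • (v j * M) := by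
  let c : Fin N → ℂ := fun j => ((√(#{a | f a = j}) : ℝ) : ℂ)⁻¹
  refine ⟨Sum.elim (fun j => c j • ∑ a with f a = j, γ (Sum.inl a)) fun b => γ (Sum.inr b),
    (univ.image f).disjSum univ, by simp, ?_, ?_, ?_⟩
  · rintro (j | b) hj
    · have h0 : (#{a | f a = j} : ℝ) ≠ 0 := by
        obtain ⟨a, -, ha⟩ := mem_image.1 (inl_mem_disjSum.1 hj)
        exact_mod_cast (card_pos.2 ⟨a, by simpa using ha⟩).ne'
      simp only [Sum.elim_inl, smul_mul_smul_comm, hγ.sum_mul_self, smul_smul, c]
      rw [← mul_inv, ← Complex.ofReal_mul, Real.mul_self_sqrt (by positivity), Complex.ofReal_natCast,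
        inv_mul_cancel₀ (by exact_mod_cast h0), one_smul]
    · exact hγ.sq _
  · rintro (i | a) - (j | b) - hij
    · simp only [Sum.elim_inl, smul_mul_smul_comm, sum_mul_sum]
      rw [sum_comm, mul_comm (c j), ← smul_neg, ← sum_neg_distrib]
      refine congrArg _ (sum_congr rfl fun a ha => ?_)
      rw [← sum_neg_distrib]
      refine sum_congr rfl fun b hb => hγ.anti' ?_
      rintro rfl
      exact hij (congrArg _ ((mem_filter.1 hb).2.symm.trans (mem_filter.1 ha).2))
    · simp only [Sum.elim_inl, Sum.elim_inr, Matrix.smul_mul, Matrix.mul_smul, mul_sum, sum_mul]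
      rw [← smul_neg, ← sum_neg_distrib]
      exact congrArg _ (sum_congr rfl fun a _ => hγ.anti _ _ (by simp))
    · simp only [Sum.elim_inl, Sum.elim_inr, Matrix.smul_mul, Matrix.mul_smul, mul_sum, sum_mul]
      rw [← smul_neg, ← sum_neg_distrib]
      exact congrArg _ (sum_congr rfl fun a _ => hγ.anti _ _ (by simp))
    · exact hγ.anti _ _ (by simpa using hij)
  · rintro σ M hM hf (j | b) -
    · simp only [Sum.elim_inl, Matrix.smul_mul, Matrix.mul_smul, mul_sum, sum_mul, hM _,
        Sum.map_inl]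
      rw [smul_comm, ← smul_sum]
      refine congrArg _ (congrArg _ (sum_equiv σ (fun a => ?_) fun _ _ => rfl))
      simp [show f (σ a) = f a from congrFun hf a]
    · exact hM _

end Cliff

namespace SpinQ

open Cliff SymCh

variable {κ : Type} [Fintype κ] [DecidableEq κ] {α β : Type} [Fintype α] [DecidableEq α]
  [Fintype β] [DecidableEq β] {γ : α ⊕ β → Matrix κ κ ℂ}

theorem le_countP_sub_cont {N : ℕ} {l : Fin N → ℤ} (hl : ∀ i, 0 < l i) (f : α → Fin N) :
    N ≤ #(univ.image f) + (List.ofFn (l - cont f)).countP (0 < ·) := by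
  have h1 : (List.ofFn (l - cont f)).countP (0 < ·) = #{i | 0 < (l - cont f) i} := by
    rw [List.ofFn_eq_map, List.countP_map, List.countP_eq_length_filter, ← List.toFinset_card_of_nodup
      ((List.nodup_finRange N).filter _)]
    congr 1
    ext i
    simp
  rw [h1]
  refine (card_fin N).ge.trans ((card_le_card fun i _ => ?_).trans (card_union_le _ _))
  by_cases hi : i ∈ univ.image f
  · exact mem_union_left _ hi
  · refine mem_union_right _ (mem_filter.2 ⟨mem_univ _, ?_⟩)
    have : cont f i = 0 := by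
      simp only [cont, Nat.cast_eq_zero, card_eq_zero, filter_eq_empty_iff]
      exact fun a _ ha => hi (mem_image.2 ⟨a, mem_univ _, ha⟩)
    simpa [this] using hl i

theorem isGenChar_spin (hγ : Gamma γ) [Nonempty β] {K : Type*} [Group K] [Finite K]
    (φ : K →* Perm α) (ρ : K →* Matrix κ κ ℂ) (hρ : ∀ g, Lifts γ (φ g) (ρ g)) {N : ℕ}
    {l : Fin N → ℤ} (hl : ∀ i, 0 < l i) {m : ℕ}
    (hm : ((∀ g, φ g ∈ alternatingGroup α) ∧ 2 * m ≤ N + Fintype.card β) ∨
      2 * m + 1 ≤ N + Fintype.card β) :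
    IsGeneralizedCharacter K fun g => (ρ g).trace / 2 ^ m * (EE l (pp N (typ (φ g))) : ℚ) := by
  have := Fintype.ofFinite K
  let : MulAction (Perm α) (α → Fin N) := arrowAction
  let : MulAction K (α → Fin N) := MulAction.compHom _ φ
  have hs : ∀ (g : K) (f : α → Fin N), g • f = f ∘ ⇑(φ g)⁻¹ := fun _ _ => rfl
  have hfix : ∀ (g : K) (f : α → Fin N), g • f = f ↔ f ∘ φ g = f := fun g f => by
    rw [hs]
    constructor <;> intro h
    · conv_lhs => rw [← h]
      ext; simp
    · conv_lhs => rw [← h]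
      ext; simp
  have hβ : 0 < Fintype.card β := Fintype.card_pos
  have := isGenChar_mul_sum_fixed (K := K) (θ := fun g => (ρ g).trace / 2 ^ m)
    (fun g x => by simp only [map_mul]; rw [Matrix.trace_mul_cycle, ← map_mul]; simp)
    (fun f : α → Fin N => (ee (l - cont f) : ℂ)) (fun g f => by rw [hs, cont_comp]) fun f => ?_
  · convert this using 3 with g
    rw [pp_typ, map_sum]
    push_cast
    exact sum_congr (filter_congr fun f _ => (hfix g f).symm) fun f _ => by rw [EE_single, one_mul]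
  obtain ⟨v, s, h0, h1, h2, h3⟩ := hγ.exists_family f
  obtain ⟨z, hz⟩ := exists_int_XX (List.ofFn (l - cont f)) (one_mem Lam)
  have h4 := le_countP_sub_cont hl f
  have h5 : #(univ.image f) ≤ N := by simpa using card_le_univ (univ.image f)
  set c := (List.ofFn (l - cont f)).countP (0 < ·)
  have h6 : IsCharacter (MulAction.stabilizer K f)
      fun g => ((ρ.comp (Subgroup.subtype _)) g).trace / 2 ^ (m - c) := by
    rcases hm with ⟨hA, hm⟩ | hm
    · refine isCharacter_trace_div _ v _ s (by omega) h1 h2 fun g j hj => ?_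
      have := h3 _ _ (hρ g) ((hfix _ _).1 g.2) j hj
      rwa [sC_of_mem (hA g), one_smul] at this
    · exact isCharacter_trace_div' _ v _ s (by omega) h1 h2 (fun g => sC (φ g))
        (fun g => sC_mul_self _) fun g => h3 _ _ (hρ g) ((hfix _ _).1 g.2)
  convert h6.isGeneralizedCharacter.zsmul (2 ^ (m - c + c - m) * z) using 2 with g
  have h7 : (2 : ℂ) ^ (m - c + c - m) * 2 ^ m = 2 ^ (m - c) * 2 ^ c := by
    rw [← pow_add, ← pow_add]; congr 1; omega
  rw [ee, hz]
  push_cast
  simp only [MonoidHom.coe_comp, Subgroup.coe_subtype, Function.comp_apply]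
  field_simp
  linear_combination -(ρ g).trace * z * h7

end SpinQ
end Cfsg
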