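import Cfsg.Agent.Spin.QOrth

/-! Weights and bar-weights of lists of integers; `p`-adic valuations of hook products. -/

set_option autoImplicit false

namespace Cfsg
namespace SpinQ

open Finset

/-- the `q`-weight of a list of beta-numbers -/
def Wm (q : ℤ) : List ℤ → ℤ
  | [] => 0
  | a :: l => Wm q l + a / q - l.countP fun b => q ∣ a - b

/-- the number of pairs with sum divisible by `q` -/
def Ep (q : ℤ) : List ℤ → ℕ
  | [] => 0
  | a :: l => Ep q l + l.countP fun b => q ∣ a + b

/-- product of the differences -/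
def DM : List ℤ → ℕ
  | [] => 1
  | a :: l => DM l * (l.map fun b => (a - b).natAbs).prod

/-- product of the sums -/
def DP : List ℤ → ℕ
  | [] => 1
  | a :: l => DP l * (l.map fun b => (a + b).natAbs).prod

/-- product of the factorials -/
def FF (l : List ℤ) : ℕ := (l.map fun a => a.toNat.factorial).prod

theorem Wm_perm (q : ℤ) {l l' : List ℤ} (h : l.Perm l') : Wm q l = Wm q l' := by
  induction h with
  | nil => rfl
  | cons a h ih => simp only [Wm, ih, h.countP_eq]
  | swap a b l =>
    simp only [Wm, List.countP_cons, dvd_sub_comm (a := q) (b := a)]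
    push_cast; ring
  | trans _ _ h1 h2 => exact h1.trans h2

theorem Ep_perm (q : ℤ) {l l' : List ℤ} (h : l.Perm l') : Ep q l = Ep q l' := by
  induction h with
  | nil => rfl
  | cons a h ih => simp only [Ep, ih, h.countP_eq]
  | swap a b l =>
    simp only [Ep, List.countP_cons, add_comm a b]
    ring
  | trans _ _ h1 h2 => exact h1.trans h2

theorem DM_perm {l l' : List ℤ} (h : l.Perm l') : DM l = DM l' := by
  induction h with
  | nil => rfl
  | cons a h ih => simp only [DM, ih, (h.map _).prod_eq]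
  | swap a b l =>
    simp only [DM, List.map_cons, List.prod_cons, ← Int.natAbs_neg (a - b), neg_sub]
    ring
  | trans _ _ h1 h2 => exact h1.trans h2

theorem DP_perm {l l' : List ℤ} (h : l.Perm l') : DP l = DP l' := by
  induction h with
  | nil => rfl
  | cons a h ih => simp only [DP, ih, (h.map _).prod_eq]
  | swap a b l =>
    simp only [DP, List.map_cons, List.prod_cons, add_comm a b]
    ring
  | trans _ _ h1 h2 => exact h1.trans h2

theorem FF_perm {l l' : List ℤ} (h : l.Perm l') : FF l = FF l' := (h.map _).prod_eq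

theorem FF_cons (a : ℤ) (l : List ℤ) : FF (a :: l) = a.toNat.factorial * FF l := by simp [FF]

theorem FF_ne_zero (l : List ℤ) : FF l ≠ 0 := by
  induction l with
  | nil => simp [FF]
  | cons a l ih => rw [FF_cons]; exact mul_ne_zero (Nat.factorial_ne_zero _) ih

theorem DM_ne_zero {l : List ℤ} (h : l.Nodup) : DM l ≠ 0 := by
  induction l with
  | nil => simp [DM]
  | cons a l ih =>
    rw [List.nodup_cons] at h
    refine mul_ne_zero (ih h.2) (List.prod_ne_zero fun h0 => ?_)
    obtain ⟨b, hb, h1⟩ := List.mem_map.1 h0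
    exact h.1 (by rwa [show a = b by omega])

theorem DP_ne_zero {l : List ℤ} (h : ∀ a ∈ l, 0 < a) : DP l ≠ 0 := by
  induction l with
  | nil => simp [DP]
  | cons a l ih =>
    simp only [List.mem_cons, forall_eq_or_imp] at h
    refine mul_ne_zero (ih h.2) (List.prod_ne_zero fun h0 => ?_)
    obtain ⟨b, hb, h1⟩ := List.mem_map.1 h0
    have := h.2 b hb
    omega

theorem exists_perm_sorted {l : List ℤ} (h : l.Nodup) :
    ∃ l' : List ℤ, l.Perm l' ∧ l'.Pairwise (· > ·) := by
  refine ⟨l.insertionSort (· ≥ ·), (List.perm_insertionSort _ _).symm, ?_⟩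
  have h1 := List.pairwise_insertionSort (· ≥ ·) l
  have h2 : (l.insertionSort (· ≥ ·)).Nodup := (List.perm_insertionSort _ _).nodup_iff.2 h
  exact (h1.and h2).imp fun h => by have := h.1; have := h.2; omega

theorem sum_map_le_sum_Ioc {a : ℤ} {l : List ℤ} (h : l.Nodup) (h0 : ∀ b ∈ l, 0 ≤ b)
    (h1 : ∀ b ∈ l, b < a) (φ : ℕ → ℤ) (hφ : ∀ d, 0 < d → 0 ≤ φ d) :
    (l.map fun b => φ (a - b).natAbs).sum ≤ ∑ d ∈ Ioc 0 a.toNat, φ d := by
  rw [← List.sum_toFinset _ h, ← sum_image (s := l.toFinset) (g := fun b => (a - b).natAbs)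
    (f := φ)]
  · refine sum_le_sum_of_subset_of_nonneg (fun d hd => ?_) fun d hd _ => hφ d (mem_Ioc.1 hd).1
    obtain ⟨b, hb, rfl⟩ := mem_image.1 hd
    rw [List.mem_toFinset] at hb
    have := h0 b hb
    have := h1 b hb
    rw [mem_Ioc]; omega
  · intro b hb c hc hbc
    have := h1 b (by simpa using hb)
    have := h1 c (by simpa using hc)
    simp only at hbc
    omega

theorem countP_eq_sum_map (l : List ℤ) (P : ℤ → Prop) [DecidablePred P] :
    (l.countP fun b => P b : ℤ) = (l.map fun b => if P b then 1 else 0).sum := by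
  induction l with
  | nil => simp
  | cons a l ih =>
    rw [List.countP_cons, List.map_cons, List.sum_cons, ← ih]
    by_cases h : P a <;> simp [h, add_comm]

theorem sum_Ioc_ite_dvd (q n : ℕ) :
    ∑ d ∈ Ioc 0 n, (if q ∣ d then 1 else 0 : ℤ) = (n / q : ℕ) := by
  rw [← Nat.Ioc_filter_dvd_card_eq_div, card_filter]
  push_cast; rfl

theorem countP_dvd_sub (q : ℕ) (a : ℤ) (l : List ℤ) : (l.countP fun b => (q : ℤ) ∣ a - b : ℤ) =
    (l.map fun b => if q ∣ (a - b).natAbs then 1 else 0).sum := by
  rw [countP_eq_sum_map]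
  simp only [Int.natCast_dvd]

theorem Wm_nonneg (q : ℕ) {l : List ℤ} (h : l.Nodup) (h0 : ∀ b ∈ l, 0 ≤ b) : 0 ≤ Wm q l := by
  obtain ⟨l', h1, h2⟩ := exists_perm_sorted h
  rw [Wm_perm _ h1]
  replace h0 : ∀ b ∈ l', 0 ≤ b := fun b hb => h0 b (h1.mem_iff.2 hb)
  clear h1 h
  induction l' with
  | nil => simp [Wm]
  | cons a l ih =>
    rw [List.pairwise_cons] at h2
    simp only [List.mem_cons, forall_eq_or_imp] at h0
    have h3 := sum_map_le_sum_Ioc (h2.2.imp ne_of_gt) h0.2 h2.1
      (fun d => if q ∣ d then 1 else 0) (fun d _ => by split_ifs <;> simp)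
    rw [← countP_dvd_sub, sum_Ioc_ite_dvd, Int.natCast_div, Int.toNat_of_nonneg h0.1] at h3
    have := ih h2.2 h0.2
    rw [Wm]; omega

theorem factorization_list_prod (p : ℕ) (l : List ℕ) (h : ∀ a ∈ l, a ≠ 0) :
    (l.prod.factorization p : ℤ) = (l.map fun a => (a.factorization p : ℤ)).sum := by
  induction l with
  | nil => simp
  | cons a l ih =>
    simp only [List.mem_cons, forall_eq_or_imp] at h
    rw [List.prod_cons, Nat.factorization_mul h.1 (List.prod_ne_zero fun h0 => h.2 _ h0 rfl),
      List.map_cons, List.sum_cons, ← ih h.2]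
    simp

theorem ite_dvd_le_factorization {p : ℕ} (hp : p.Prime) {d : ℕ} (hd : 0 < d) :
    (if p ∣ d then 1 else 0 : ℤ) ≤ d.factorization p := by
  split_ifs with h
  · exact_mod_cast (hp.dvd_iff_one_le_factorization hd.ne').1 h
  · simp

theorem list_sum_map_sub (l : List ℤ) (f g : ℤ → ℤ) :
    (l.map fun b => f b - g b).sum = (l.map f).sum - (l.map g).sum := by
  induction l with
  | nil => simp
  | cons a l ih => simp only [List.map_cons, List.sum_cons, ih]; ring

theorem factorization_DM_add_le {p : ℕ} (hp : p.Prime) {l : List ℤ} (h : l.Nodup)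
    (h0 : ∀ b ∈ l, 0 ≤ b) : (DM l).factorization p + Wm p l ≤ (FF l).factorization p := by
  obtain ⟨l', h1, h2⟩ := exists_perm_sorted h
  rw [Wm_perm _ h1, DM_perm h1, FF_perm h1]
  replace h0 : ∀ b ∈ l', 0 ≤ b := fun b hb => h0 b (h1.mem_iff.2 hb)
  clear h1 h
  induction l' with
  | nil => simp [Wm, DM, FF]
  | cons a l ih =>
    rw [List.pairwise_cons] at h2
    simp only [List.mem_cons, forall_eq_or_imp] at h0
    have hl : l.Nodup := h2.2.imp ne_of_gt
    have h3 := sum_map_le_sum_Ioc hl h0.2 h2.1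
      (fun d => d.factorization p - if p ∣ d then 1 else 0)
      (fun d hd => sub_nonneg.2 (ite_dvd_le_factorization hp hd))
    have h4 : ∀ x ∈ l.map fun b => (a - b).natAbs, x ≠ 0 := by
      intro x hx
      obtain ⟨b, hb, rfl⟩ := List.mem_map.1 hx
      have := h2.1 b hb
      omega
    have h5 : ((a.toNat.factorial).factorization p : ℤ) =
        ∑ d ∈ Ioc 0 a.toNat, (d.factorization p : ℤ) := by
      rw [← Finset.prod_Ico_id_eq_factorial, Nat.factorization_prod_apply
        (fun x hx => by rw [mem_Ico] at hx; omega)]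
      push_cast
      exact sum_congr (by ext x; simp only [mem_Ico, mem_Ioc]; omega) fun _ _ => rfl
    rw [sum_sub_distrib, sum_Ioc_ite_dvd, Int.natCast_div, Int.toNat_of_nonneg h0.1, ← h5,
      list_sum_map_sub, ← countP_dvd_sub] at h3
    have h6 := factorization_list_prod p _ h4
    rw [List.map_map] at h6
    have := ih h2.2 h0.2
    rw [Wm, DM, FF_cons, Nat.factorization_mul (DM_ne_zero hl)
      (List.prod_ne_zero fun h0 => h4 _ h0 rfl),
      Nat.factorization_mul (Nat.factorial_ne_zero _) (FF_ne_zero _)]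
    simp only [Finsupp.add_apply, Nat.cast_add]
    rw [h6]
    simp only [Function.comp_def] at h3 ⊢
    omega

theorem Ep_le_factorization_DP {p : ℕ} (hp : p.Prime) {l : List ℤ} (h0 : ∀ b ∈ l, 0 < b) :
    (Ep p l : ℤ) ≤ (DP l).factorization p := by
  induction l with
  | nil => simp [Ep]
  | cons a l ih =>
    simp only [List.mem_cons, forall_eq_or_imp] at h0
    have h4 : ∀ x ∈ l.map fun b => (a + b).natAbs, x ≠ 0 := by
      intro x hx
      obtain ⟨b, hb, rfl⟩ := List.mem_map.1 hx
      have := h0.2 b hb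
      omega
    have h6 := factorization_list_prod p _ h4
    rw [List.map_map] at h6
    have := ih h0.2
    rw [Ep, DP, Nat.factorization_mul (DP_ne_zero h0.2) (List.prod_ne_zero fun h0 => h4 _ h0 rfl)]
    simp only [Finsupp.add_apply, Nat.cast_add]
    rw [h6, countP_eq_sum_map]
    refine add_le_add this (List.sum_le_sum fun b hb => ?_)
    have := h0.2 b hb
    simp only [Int.natCast_dvd, Function.comp]
    exact ite_dvd_le_factorization hp (by omega)

theorem countP_eq_of_mem_shifts {r : ℤ} {α β : List ℤ} (hβ : β ∈ shifts r α) (P : ℤ → Bool)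
    (hP : ∀ b, P (b - r) = P b) : β.countP P = α.countP P := by
  induction α generalizing β with
  | nil => simp [shifts] at hβ
  | cons a α ih =>
    simp only [shifts, List.mem_cons, List.mem_map] at hβ
    rcases hβ with rfl | ⟨γ, hγ, rfl⟩
    · simp only [List.countP_cons, hP]
    · simp only [List.countP_cons, ih hγ]

theorem Wm_of_mem_shifts {q k : ℤ} (hq : q ≠ 0) {α β : List ℤ} (hβ : β ∈ shifts (q * k) α) :
    Wm q β = Wm q α - k := by
  induction α generalizing β with
  | nil => simp [shifts] at hβ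
  | cons a α ih =>
    simp only [shifts, List.mem_cons, List.mem_map] at hβ
    rcases hβ with rfl | ⟨γ, hγ, rfl⟩
    · simp only [Wm]
      rw [Int.sub_mul_ediv_left _ _ hq]
      have : ∀ b, (q ∣ a - q * k - b) ↔ q ∣ a - b := fun b => by
        rw [sub_right_comm]; exact dvd_sub_left (dvd_mul_right q k)
      simp only [this]
      ring
    · simp only [Wm]
      rw [ih hγ, countP_eq_of_mem_shifts hγ]
      · ring
      · intro b
        have : (q ∣ a - (b - q * k)) ↔ q ∣ a - b := by
          rw [← sub_add]; exact dvd_add_left (dvd_mul_right q k)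
        simp only [this]

theorem Ep_of_mem_shifts {q k : ℤ} {α β : List ℤ} (hβ : β ∈ shifts (q * k) α) :
    Ep q β = Ep q α := by
  induction α generalizing β with
  | nil => simp [shifts] at hβ
  | cons a α ih =>
    simp only [shifts, List.mem_cons, List.mem_map] at hβ
    rcases hβ with rfl | ⟨γ, hγ, rfl⟩
    · simp only [Ep]
      have : ∀ b, (q ∣ a - q * k + b) ↔ q ∣ a + b := fun b => by
        rw [sub_add_eq_add_sub]; exact dvd_sub_left (dvd_mul_right q k)
      simp only [this]
    · simp only [Ep]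
      rw [ih hγ, countP_eq_of_mem_shifts hγ]
      intro b
      have : (q ∣ a + (b - q * k)) ↔ q ∣ a + b := by
        rw [← add_sub_assoc]; exact dvd_sub_left (dvd_mul_right q k)
      simp only [this]

theorem ofFn_sub_single_mem_shifts {N : ℕ} (r : ℤ) (α : Fin N → ℤ) (i : Fin N) :
    List.ofFn (α - Pi.single i r : Fin N → ℤ) ∈ shifts r (List.ofFn α) := by
  classical
  by_contra h
  have h1 := sum_map_shifts r α fun l => if l = List.ofFn (α - Pi.single i r : Fin N → ℤ)
    then 1 else 0
  rw [List.sum_eq_zero] at h1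
  · have := (sum_eq_zero_iff_of_nonneg (fun j _ => by split_ifs <;> simp)).1 h1.symm i (mem_univ i)
    simp at this
  · intro x hx
    obtain ⟨l, hl, rfl⟩ := List.mem_map.1 hx
    rw [if_neg]
    rintro rfl
    exact h hl

/-- the bar-weight -/
def WW (q : ℤ) (l : List ℤ) : ℤ := Wm q l + Ep q l

theorem WW_perm (q : ℤ) {l l' : List ℤ} (h : l.Perm l') : WW q l = WW q l' := by
  rw [WW, WW, Wm_perm q h, Ep_perm q h]

theorem WW_zero_cons (q : ℤ) (l : List ℤ) : WW q (0 :: l) = WW q l := by
  simp only [WW, Wm, Ep, zero_sub, zero_add, dvd_neg, Int.zero_ediv]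
  push_cast; ring

theorem WW_neg_cons {p : ℕ} (hp : p.Prime) (hp2 : p ≠ 2) (a : ℤ) (l : List ℤ) :
    WW p (a :: -a :: l) = WW p l := by
  have h1 : ∀ b, ((p : ℤ) ∣ -a - b) ↔ (p : ℤ) ∣ a + b := fun b => by
    rw [← dvd_neg]; congr! 1; ring
  have h2 : ∀ b, ((p : ℤ) ∣ -a + b) ↔ (p : ℤ) ∣ a - b := fun b => by
    rw [← dvd_neg]; congr! 1; ring
  have h3 : ((p : ℤ) ∣ a - -a) ↔ (p : ℤ) ∣ a := by
    rw [sub_neg_eq_add, ← two_mul]
    refine ⟨fun h => ((Nat.prime_iff_prime_int.1 hp).dvd_or_dvd h).resolve_left fun h2 => ?_,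
      fun h => h.mul_left 2⟩
    exact hp2 ((Nat.prime_dvd_prime_iff_eq hp Nat.prime_two).1 (by exact_mod_cast h2))
  have hp0 : (0 : ℤ) < p := by exact_mod_cast hp.pos
  simp only [WW, Wm, Ep, List.countP_cons, h1, h2, h3, add_neg_cancel, dvd_zero, Int.neg_ediv,
    Int.sign_eq_one_of_pos hp0]
  by_cases h : (p : ℤ) ∣ a <;> simp [h] <;> ring

end SpinQ
end Cfsg
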